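/-!
A search through the class equations of simple groups with few conjugacy classes.
Everything is written with raw recursors, for evaluation by the kernel.
-/

set_option autoImplicit false

namespace CF.KCl

inductive NL where
  | nil
  | cons (a : Nat) (t : NL)

inductive L3 where
  | nil
  | cons (a b c : Nat) (t : L3)

/-- classes: radical of the order, number of classes, automizer, order of the centralizer -/
inductive LI where
  | nil
  | cons (ρ r h c : Nat) (t : LI)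

/-- types: radical, a divisor of the centralizer order, the primes of the radical, and again
these primes when the radical is composite -/
inductive LT where
  | nil
  | cons (ρ b : Nat) (ps qs : NL) (t : LT)

scoped notation:30 a:31 " ⋎ " b:30 => @Bool.rec (fun _ => Bool) b true a
scoped notation:35 a:36 " ⋏ " b:35 => @Bool.rec (fun _ => Bool) false b a
scoped notation:25 a:26 " ⇛ " b:25 => @Bool.rec (fun _ => Bool) true b a
scoped notation:25 a:26 " ⇏ " b:25 => @Bool.rec (fun _ => Bool) b true a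
scoped notation:50 a:51 " ∣? " b:51 => Nat.beq (Nat.mod b a) (nat_lit 0)
scoped notation:50 a:51 " ≤? " b:51 => Nat.ble a b
scoped notation:50 a:51 " =? " b:51 => Nat.beq a b
scoped notation:10 "frc " y " ≔ " x:11 " ▹ " b:10 =>
  @Nat.rec (fun _ => Bool) true (fun y _ => b) (Nat.add x (nat_lit 1))
scoped notation:10 "iff " a:11 " ▹ " b:11 " els " c:10 => @Bool.rec (fun _ => Bool) c b a
/-- the scale of the estimates -/
scoped notation "𝐒" => (nat_lit 1125899906842624)
scoped notation:max "𝟙[" a ", " b "]" => Nat.sub (nat_lit 1) (Nat.mod b a)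
scoped notation:max "mx[" a ", " b "]" => Nat.add a (Nat.sub b a)

noncomputable def lmem (d : Nat) (l : NL) : Bool :=
  NL.rec (motive := fun _ => Bool) false (fun a _ ih => a =? d ⋎ ih) l

noncomputable def ldvd (d : Nat) (l : NL) : Bool :=
  NL.rec (motive := fun _ => Bool) false (fun a _ ih => d ∣? a ⋎ ih) l

noncomputable def llen (l : NL) : Nat :=
  NL.rec (motive := fun _ => Nat) (nat_lit 0) (fun _ _ ih => Nat.succ ih) l

noncomputable def lprod (l : NL) : Nat :=
  NL.rec (motive := fun _ => Nat) (nat_lit 1) (fun a _ ih => Nat.mul a ih) l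

noncomputable def lapp (l : NL) (k : NL → Bool) : NL → Bool :=
  NL.rec (motive := fun _ => NL → Bool) k (fun a _ ih acc => ih (.cons a acc)) l

noncomputable def lapp3 (l : L3) (k : L3 → Bool) : L3 → Bool :=
  L3.rec (motive := fun _ => L3 → Bool) k (fun a b c _ ih acc => ih (.cons a b c acc)) l

noncomputable def lers (d : Nat) (l : NL) (k : NL → Bool) : NL → Bool :=
  NL.rec (motive := fun _ => NL → Bool) k
    (fun a t ih acc => iff a =? d ▹ lapp t k acc els ih (.cons a acc)) l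

noncomputable def insk (d : Nat) (sk : L3) : Bool :=
  L3.rec (motive := fun _ => Bool) false (fun a _ _ _ ih => a =? d ⋎ ih) sk

noncomputable def l0 (_ : (Nat → Bool) → Nat → Bool) : Nat → Bool := fun _ => false
noncomputable def l1 (f : (Nat → Bool) → Nat → Bool) : Nat → Bool := f (l0 f)
noncomputable def l2 (f : (Nat → Bool) → Nat → Bool) : Nat → Bool := f (l1 f)
noncomputable def l3 (f : (Nat → Bool) → Nat → Bool) : Nat → Bool := f (l2 f)
noncomputable def l4 (f : (Nat → Bool) → Nat → Bool) : Nat → Bool := f (l3 f)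
noncomputable def l5 (f : (Nat → Bool) → Nat → Bool) : Nat → Bool := f (l4 f)
noncomputable def l6 (f : (Nat → Bool) → Nat → Bool) : Nat → Bool := f (l5 f)
noncomputable def l7 (f : (Nat → Bool) → Nat → Bool) : Nat → Bool := f (l6 f)
noncomputable def l8 (f : (Nat → Bool) → Nat → Bool) : Nat → Bool := f (l7 f)
noncomputable def l9 (f : (Nat → Bool) → Nat → Bool) : Nat → Bool := f (l8 f)
noncomputable def l10 (f : (Nat → Bool) → Nat → Bool) : Nat → Bool := f (l9 f)
noncomputable def l11 (f : (Nat → Bool) → Nat → Bool) : Nat → Bool := f (l10 f)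
noncomputable def l12 (f : (Nat → Bool) → Nat → Bool) : Nat → Bool := f (l11 f)
noncomputable def l13 (f : (Nat → Bool) → Nat → Bool) : Nat → Bool := f (l12 f)
noncomputable def l14 (f : (Nat → Bool) → Nat → Bool) : Nat → Bool := f (l13 f)
noncomputable def l15 (f : (Nat → Bool) → Nat → Bool) : Nat → Bool := f (l14 f)
noncomputable def l16 (f : (Nat → Bool) → Nat → Bool) : Nat → Bool := f (l15 f)
noncomputable def l17 (f : (Nat → Bool) → Nat → Bool) : Nat → Bool := f (l16 f)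
noncomputable def l18 (f : (Nat → Bool) → Nat → Bool) : Nat → Bool := f (l17 f)
noncomputable def l19 (f : (Nat → Bool) → Nat → Bool) : Nat → Bool := f (l18 f)
noncomputable def l20 (f : (Nat → Bool) → Nat → Bool) : Nat → Bool := f (l19 f)
noncomputable def l21 (f : (Nat → Bool) → Nat → Bool) : Nat → Bool := f (l20 f)
noncomputable def l22 (f : (Nat → Bool) → Nat → Bool) : Nat → Bool := f (l21 f)
noncomputable def l23 (f : (Nat → Bool) → Nat → Bool) : Nat → Bool := f (l22 f)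
noncomputable def l24 (f : (Nat → Bool) → Nat → Bool) : Nat → Bool := f (l23 f)
noncomputable def l25 (f : (Nat → Bool) → Nat → Bool) : Nat → Bool := f (l24 f)
noncomputable def l26 (f : (Nat → Bool) → Nat → Bool) : Nat → Bool := f (l25 f)
noncomputable def l27 (f : (Nat → Bool) → Nat → Bool) : Nat → Bool := f (l26 f)
noncomputable def l28 (f : (Nat → Bool) → Nat → Bool) : Nat → Bool := f (l27 f)

noncomputable def step (B p : Nat) (f lp : Nat → Bool) (x : Nat) : Bool :=
  f x ⋏ (let y := Nat.mul x p; y ≤? B ⇛ lp y)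

/-- all `x * m ≤ B` with `m` a product of members of the list -/
noncomputable def smo (B : Nat) (k : Nat → Bool) (ps : NL) : ((Nat → Bool) → Bool) → Bool :=
  NL.rec (motive := fun _ => ((Nat → Bool) → Bool) → Bool) (fun K => K k)
    (fun p _ ih K => ih fun f => K (l28 (step B p f))) ps

/-- the possible contributions of primes not dividing the order -/
noncomputable def enu (B ρ : Nat) (chs : L3) (x : Nat) (f : Nat → Bool) : Bool :=
  L3.rec (motive := fun _ => Nat → Nat → Bool) (fun x _ => f x)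
    (fun d p c _ ih x E => iff d =? ρ ▹ ih x E ⋏ (p ∣? E ⇏ c ∣? x ⇏
      (let y := Nat.mul (Nat.div x (Nat.gcd x c)) c; y ≤? B ⇛ ih y (Nat.mul E p)))
      els ih x E) chs x (nat_lit 1)

/-- adds the types `ρ / p` that are not yet provided for -/
noncomputable def addp (ρ : Nat) (sk : L3) (qs : NL) (k : NL → Bool) : NL → Bool :=
  NL.rec (motive := fun _ => NL → Bool) k
    (fun p _ ih acc => frc d ≔ Nat.div ρ p ▹
      iff lmem d acc ⋎ insk d sk ▹ ih acc els ih (.cons d acc)) qs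

/-- splits according to the type -/
noncomputable def spl (ρ : Nat) (l : L3) (k : L3 → L3 → Bool) : L3 → L3 → Bool :=
  L3.rec (motive := fun _ => L3 → L3 → Bool) k
    (fun d c q _ ih x y => iff d =? ρ ▹ ih (.cons d c q x) y els ih x (.cons d c q y)) l

noncomputable def lcmAll (pm : L3) (k : Nat → Bool) : Nat → Bool :=
  L3.rec (motive := fun _ => Nat → Bool) k
    (fun _ c _ _ ih x => ih (Nat.mul (Nat.div x (Nat.gcd x c)) c)) pm

noncomputable def dup (d p c : Nat) (chs : L3) : Bool :=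
  L3.rec (motive := fun _ => Bool) false (fun d' p' c' _ ih =>
    iff d' =? d ⋏ p' =? p ⋏ c' ∣? c ▹ (iff p ∣? Nat.div c c' ▹ ih els true) els ih) chs

noncomputable def addob (ρ c : Nat) (qs : NL) (k : L3 → L3 → Bool) : L3 → L3 → Bool :=
  NL.rec (motive := fun _ => L3 → L3 → Bool) k
    (fun p _ ih x y => frc d ≔ Nat.div ρ p ▹
      frc q ≔ Nat.mul (Nat.mul p p) (Nat.sub (nat_lit 1) 𝟙[Nat.mul p p, c]) ▹
      iff dup d p c x ▹ ih x (.cons d c q y) els ih (.cons d p c x) (.cons d c q y)) qs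

noncomputable def sumd (p L : Nat) (cl : LI) : Nat :=
  LI.rec (motive := fun _ => Nat) (nat_lit 0)
    (fun ρ r _ c _ ih => Nat.add (Nat.mul 𝟙[p, ρ] (Nat.mul r (Nat.div L c))) ih) cl

noncomputable def sume (p L : Nat) (cl : LI) : Nat :=
  LI.rec (motive := fun _ => Nat) (nat_lit 1)
    (fun ρ r _ c _ ih => @Bool.rec (fun _ => Nat) ih (Nat.add (Nat.mul r (Nat.div L c)) ih)
      (ρ =? p)) cl

noncomputable def sumk (lo : Nat) (sk : L3) : Nat :=
  L3.rec (motive := fun _ => Nat) (nat_lit 1)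
    (fun ρ r _ _ ih => Nat.add (Nat.mul r (Nat.succ
      (Nat.div 𝐒 (Nat.mul (Nat.succ (Nat.div (Nat.pred lo) ρ)) ρ)))) ih) sk

noncomputable def ub1 (sk : L3) (fr A L lo : Nat) : Bool :=
  Nat.div (Nat.mul A 𝐒) L ≤? Nat.add (Nat.add (Nat.div 𝐒 mx[L, Nat.mul (nat_lit 5) lo])
    (Nat.mul fr (Nat.succ (Nat.div 𝐒 lo)))) (sumk lo sk)

noncomputable def ubok (sk : L3) (fr rem c A L : Nat) : Bool :=
  Nat.rec (motive := fun _ => Bool) (A =? nat_lit 1 ⋏ Nat.mul (nat_lit 5) c ≤? L)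
    (fun _ _ => ub1 sk fr A L mx[c, Nat.succ (Nat.div L A)]) rem

noncomputable def filty (p : Nat) (ty : LT) (k : LT → Bool) : LT → Bool :=
  LT.rec (motive := fun _ => LT → Bool) k
    (fun ρ b ps qs _ ih acc => iff p ∣? ρ ▹ ih acc els ih (.cons ρ b ps qs acc)) ty

noncomputable def s2a (K : Nat) (cl : LI) (ρ r h F : Nat) (ty : LT) (L u : Nat)
    (k : Nat → LT → Bool) : Bool :=
  (iff h =? nat_lit 1 ▹ r =? nat_lit 1 els Nat.add h r ≤? K) ⇛
    L ∣? Nat.mul (Nat.add (Nat.mul r u) (sumd ρ L cl)) (Nat.pow ρ (Nat.log2 L)) ⇛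
      filty ρ ty (k (Nat.mul F ρ)) .nil

noncomputable def s2 (K : Nat) (cl : LI) (ρ r h : Nat) (qs : NL) (F : Nat)
    (ty : LT) (c L u : Nat) (k : Nat → LT → Bool) : Bool :=
  NL.rec (motive := fun _ => Bool)
    (iff Nat.mul ρ ρ ∣? c ▹ k F ty els s2a K cl ρ r h F ty L u k) (fun _ _ _ => k F ty) qs

/-- keeps the obligations that are not met, and says whether there was one -/
noncomputable def unsat (c : Nat) (pm : L3) (k : Bool → L3 → Bool) : Bool → L3 → Bool :=
  L3.rec (motive := fun _ => Bool → L3 → Bool) k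
    (fun d c' q _ ih x acc => iff c' ∣? c ⇛ q ∣? c ▹ ih true (.cons d c' q acc) els ih x acc) pm

noncomputable def frb (fr L X Y : Nat) (n : NL) : Bool :=
  llen n =? fr ⇛ (let m := lprod n;
    (nat_lit 2 ∣? m ⋎ L ∣? Nat.shiftLeft X (Nat.log2 L)) ⋏
    (nat_lit 3 ∣? m ⋎ L ∣? Nat.mul Y (Nat.pow (nat_lit 3) (Nat.log2 L))))

/-- the type of the continuation: `sk fr rem cl lk lc A L X Y F ty need chs pend` -/
abbrev Nx := L3 → Nat → Nat → LI → Nat → Nat → Nat → Nat → Nat → Nat → Nat → LT → NL → L3 → L3 →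
  Bool

noncomputable def tail2 (fr ρ c L X Y : Nat) (qs : NL) (chs : L3) (k : NL → L3 → L3 → Bool)
    (pd : L3) (n : NL) : Bool :=
  frb fr L X Y n ⇛ addob ρ c qs (k n) chs pd

noncomputable def tail (nx : Nx) (cl : LI) (sk chs po pm : L3) (n1 : NL) (fresh : Bool)
    (fr rem ρ r h : Nat) (qs : NL) (X Y c A L w u F : Nat) (ty : LT) : Bool :=
  frc X2 ≔ Nat.add (Nat.mul X w) (Nat.mul 𝟙[nat_lit 2, ρ] u) ▹
  frc Y2 ≔ Nat.add (Nat.mul Y w) (Nat.mul 𝟙[nat_lit 3, ρ] u) ▹
  (fun k : L3 → NL → Bool => unsat c pm (fun un pd => iff un ⋏ fresh ▹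
    Nat.succ (llen n1) ≤? fr ⇛ k pd (.cons ρ n1) els k pd n1) false po)
  (tail2 fr ρ c L X2 Y2 qs chs (nx sk fr rem (.cons ρ r h c cl) ρ c A L X2 Y2 F ty))

noncomputable def cand (A L r h F : Nat) (U : Nat → Nat → Nat → Bool)
    (S : Nat → Nat → Nat → (Nat → LT → Bool) → Bool)
    (T : Nat → Nat → Nat → Nat → Nat → Nat → LT → Bool) (c0 : Nat) : Bool :=
  frc c ≔ c0 ▹ frc w ≔ Nat.div (Nat.mul c h) (Nat.gcd L (Nat.mul c h)) ▹
  Nat.gcd w F =? nat_lit 1 ⇛
  (frc L2 ≔ Nat.mul L w ▹ (fun u : Nat =>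
    frc A2 ≔ Nat.sub (Nat.mul A w) (Nat.mul r u) ▹ U c A2 L2 ⇛ S c L2 u (T c A2 L2 w u))
      (Nat.div L2 c))

noncomputable def opt3 (B ρ : Nat) (ps : NL) (chs : L3) (base : Nat) (C : Nat → Bool)
    (lo : Nat) : Bool :=
  smo B (fun c => lo ≤? c ⇛ C c) ps (enu B ρ chs base)

noncomputable def opt2 (K : Nat) (nx : Nx) (cl : LI) (ty : LT) (chs : L3)
    (F rem A L X Y lc lk B fr : Nat) (sk : L3) (ρ r h : Nat) (ps qs n1 : NL) (fresh : Bool)
    (pm po : L3) (base : Nat) : Bool :=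
  base ≤? B ⇛ opt3 B ρ ps chs base (cand A L r h F (ubok sk fr (Nat.sub rem r))
      (s2 K cl ρ r h qs F ty) (tail nx cl sk chs po pm n1 fresh fr (Nat.sub rem r) ρ r h qs X Y))
    mx[Nat.add lc (Nat.sub (nat_lit 1) (Nat.sub (Nat.succ lk) ρ)),
      Nat.succ (Nat.div (Nat.mul r L) A)]

noncomputable def opt1 (fr : Nat) (sk pend : L3) (ρ b : Nat)
    (O : NL → Bool → L3 → L3 → Nat → Bool) (n1 : NL) : Bool :=
  (fun k : NL → Bool → Bool => iff insk ρ sk ▹ k n1 false els iff ldvd ρ n1 ▹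
      (iff lmem ρ n1 ▹ k n1 false els k (.cons ρ n1) false) els
    iff llen n1 =? fr ▹ spl ρ pend (fun pm po => lcmAll pm (O n1 true pm po) b) .nil .nil els
      k n1 true)
  (fun n fresh => llen n ≤? fr ⇛ spl ρ pend (fun pm po => O n fresh pm po b) .nil .nil)

noncomputable def opt (K : Nat) (nx : Nx) (cl : LI) (ty : LT) (chs pend : L3)
    (F rem A L X Y lc lk B fr : Nat) (sk : L3) (ρ r h b : Nat) (ps qs nd : NL) : Bool :=
  addp ρ sk qs (opt1 fr sk pend ρ b (opt2 K nx cl ty chs F rem A L X Y lc lk B fr sk ρ r h ps qs)) nd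

/-- `fr sk ρ r h b ps qs nd` -/
abbrev Ox := Nat → L3 → Nat → Nat → Nat → Nat → NL → NL → NL → Bool

/-- every choice of a member of the skeleton -/
noncomputable def ez (O : Ox) (B F fr : Nat) (need : NL) (l : L3) : Nat → Nat → L3 → Bool :=
  L3.rec (motive := fun _ => Nat → Nat → L3 → Bool) (fun _ _ _ => true)
    (fun ρ r h t ih p s pre => (ρ ≤? B ⇛ (ρ =? p ⋏ r =? s) ⇏ Nat.gcd ρ F =? nat_lit 1 ⇛
      lapp3 t (fun sk2 => O fr sk2 ρ r h ρ (.cons ρ .nil) .nil need) pre) ⋏
        ih ρ r (.cons ρ r h pre)) l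

noncomputable def prs (d : Nat) (P : NL) (k : NL → Bool) : NL → Bool :=
  NL.rec (motive := fun _ => NL → Bool) k
    (fun a _ ih acc => iff a ∣? d ▹ ih (.cons a acc) els ih acc) P

noncomputable def mkty (P : NL) (ρ : Nat) (k : Nat → NL → NL → Bool) : Bool :=
  iff ρ ≤? nat_lit 3 ▹ k (Nat.sub (nat_lit 6) ρ) (.cons ρ .nil) .nil els
  iff ρ =? nat_lit 6 ▹ (fun ps : NL => k ρ ps ps) (.cons (nat_lit 3) (.cons (nat_lit 2) .nil)) els
  iff lmem ρ P ▹ k (Nat.mul ρ ρ) (.cons ρ .nil) .nil els prs ρ P (fun ps => k ρ ps ps) .nil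

/-- every choice of a member of the list of needed types -/
noncomputable def en (O : Ox) (P : NL) (B F fr : Nat) (sk : L3) (l : NL) : NL → Bool :=
  NL.rec (motive := fun _ => NL → Bool) (fun _ => true)
    (fun ρ t ih pre => (lmem ρ pre ⇏ Nat.gcd ρ F =? nat_lit 1 ⇛
      mkty P ρ fun b ps qs => b ≤? B ⇛
        lapp t (O fr sk ρ (nat_lit 1) (nat_lit 1) b ps qs) pre) ⋏ ih (.cons ρ pre)) l

/-- every choice of a type -/
noncomputable def et (O : Ox) (B fr : Nat) (sk : L3) (need : NL) (l : LT) : Bool :=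
  LT.rec (motive := fun _ => Bool) true
    (fun ρ b ps qs _ ih => iff b ≤? B ▹
      lers ρ need (O fr sk ρ (nat_lit 1) (nat_lit 1) b ps qs) .nil ⋏ ih els ih) l

noncomputable def loops (P : NL) (F fr : Nat) (sk : L3) (ty : LT) (need : NL)
    (O : Nat → Ox) (B : Nat) : Bool :=
  (fun O' : Ox => ez O' B F fr need sk (nat_lit 0) (nat_lit 0) .nil ⋏
    Nat.rec (motive := fun _ => Bool) true (fun fr2 _ =>
      iff llen need ≤? fr2 ▹ et O' B fr2 sk need ty els en O' P B F fr2 sk need .nil) fr) (O B)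

noncomputable def bound (rem A L : Nat) (k : Nat → Bool) : Bool :=
  frc b ≔ Nat.div (Nat.mul (Nat.succ (Nat.mul (nat_lit 5) rem)) L) (Nat.mul (nat_lit 5) A) ▹
    iff A ≤? nat_lit 1 ▹ k b els
      frc B ≔ Nat.sub b (Nat.sub b (Nat.div (Nat.mul rem L) (Nat.pred A))) ▹ k B

noncomputable def frob (g : Nat) (cl : LI) (P : NL) : Bool :=
  NL.rec (motive := fun _ => Bool) true
    (fun p _ ih => Nat.gcd g (Nat.pow p (nat_lit 40)) ∣? sume p g cl ⋏ ih) P

noncomputable def body (K : Nat) (P : NL) (leaf : Nat → LI → Bool)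
    (nx : Nx) : Nx := fun sk fr rem cl lk lc A L X Y F ty need chs pend =>
  Nat.rec (motive := fun _ => Bool) (frob L cl P ⇛ leaf L cl) (fun _ _ =>
    bound rem A L (loops P F fr sk ty need (opt K nx cl ty chs pend F rem A L X Y lc lk))) rem

noncomputable def node (K : Nat) (P : NL) (leaf : Nat → LI → Bool) (n : Nat) : Nx :=
  Nat.rec (motive := fun _ => Nx) (fun _ _ _ _ _ _ _ _ _ _ _ _ _ _ _ => false)
    (fun _ nx => body K P leaf nx) n

/-! ### The skeleton: the elements of prime order at least five -/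

noncomputable def gty (P Q : NL) : Nat → (LT → Bool) → LT → Bool :=
  NL.rec (motive := fun _ => Nat → (LT → Bool) → LT → Bool)
    (fun ρ k acc => iff ρ =? nat_lit 1 ▹ k acc els
      mkty P ρ fun b ps qs => k (.cons ρ b ps qs acc))
    (fun p _ ih ρ k acc => ih ρ (fun acc' => frc ρ' ≔ Nat.mul ρ p ▹ ih ρ' k acc') acc) Q

noncomputable def radP (P : NL) (d : Nat) : Nat :=
  NL.rec (motive := fun _ => Nat) (nat_lit 1)
    (fun p _ ih => Nat.mul (Nat.pow p 𝟙[p, d]) ih) P

noncomputable def lmap (f : Nat → Nat) (l : NL) (k : NL → Bool) : NL → Bool :=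
  NL.rec (motive := fun _ => NL → Bool) k
    (fun a _ ih acc => frc b ≔ f a ▹ ih (.cons b acc)) l

noncomputable def stp (P : NL) (q : Nat) (l : NL) (k : NL → NL → NL → Bool) :
    NL → NL → NL → Bool :=
  NL.rec (motive := fun _ => NL → NL → NL → Bool) k
    (fun a _ ih lay ds o => frc d ≔ Nat.mul a q ▹
      iff lmem d o ⋎ (nat_lit 5 ≤? d ⋏ lmem d P) ▹ ih (.cons d lay) (.cons d ds) o
      els ih (.cons d lay) (.cons d ds) (.cons d o)) l

noncomputable def hs (fr : Nat) (P : NL) (k : Nat → NL → Bool) (Q : NL) :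
    Nat → NL → NL → Bool :=
  NL.rec (motive := fun _ => Nat → NL → NL → Bool) (fun x _ o => k x o)
    (fun q _ ih x ds o => Nat.rec (motive := fun _ => Nat → NL → NL → NL → Bool)
      (fun _ _ _ _ => false)
      (fun _ lp x lay ds o => ih x ds o ⋏ stp P q lay (fun lay' ds' o' =>
        Nat.succ (llen o') ≤? fr ⇛ (frc y ≔ Nat.mul x q ▹ lp y lay' ds' o')) .nil ds o)
      (nat_lit 20) x ds ds o) Q

/-- trial division; every prime passes -/
noncomputable def pp (p : Nat) : Bool :=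
  Nat.rec (motive := fun _ => Nat → Bool) (fun _ => true)
    (fun _ lp d => Nat.mul d d ≤? p ⇛ (iff d ∣? p ▹ false els lp (Nat.add d (nat_lit 2))))
    (nat_lit 2000) (nat_lit 3)

noncomputable def rloop (f : Nat → Bool) (n : Nat) : Bool :=
  Nat.rec (motive := fun _ => Bool) true (fun i ih => f (Nat.succ i) ⋏ ih) n

/-- `sk fr o lo lr U w P` -/
abbrev Sx := L3 → Nat → NL → Nat → Nat → Nat → Nat → NL → Bool

noncomputable def ext2 (sx : Sx) (sk : L3) (fr U w : Nat) (P : NL) (x : Nat)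
    (o : NL) (r0 p : Nat) : Bool :=
  frc r ≔ r0 ▹ frc fr' ≔ Nat.sub fr r ▹ frc U' ≔ Nat.add U (Nat.mul r (Nat.succ (Nat.div 𝐒 p))) ▹
  frc w' ≔ Nat.add (Nat.mul w (nat_lit 7)) (Nat.add p (Nat.mul (nat_lit 3) r)) ▹
  (fun k : NL → Bool => iff lmem p P ▹ k P els k (.cons p P))
    (sx (.cons p r x sk) fr' o p r U' w')

noncomputable def ext1 (lo lr : Nat) (E : Nat → Nat → Bool) (x r : Nat) : Bool :=
  frc p ≔ Nat.succ (Nat.mul r x) ▹ nat_lit 2 ∣? p ⇏ nat_lit 5 ≤? p ⇛
    (Nat.succ lo ≤? p ⋎ (lo =? p ⋏ lr ≤? r)) ⇛ pp p ⇛ E r p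

noncomputable def ext (sx : Sx) : Sx := fun sk fr o lo lr U w P =>
  hs fr P (fun x o' => rloop (ext1 lo lr (ext2 sx sk fr U w P x o') x) (Nat.sub fr (llen o')))
    P (nat_lit 1) (.cons (nat_lit 1) .nil) o

noncomputable def start (K : Nat) (leaf : Nat → LI → Bool) (sk : L3) (fr : Nat)
    (o P : NL) : Bool :=
  gty P P (nat_lit 1) (fun ty => lmap (radP P) o (fun need =>
    node K P leaf K sk fr (Nat.pred K) .nil (nat_lit 0) (nat_lit 4) (nat_lit 1) (nat_lit 1)
      (nat_lit 0) (nat_lit 0) (nat_lit 1) ty need .nil .nil) .nil) .nil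

noncomputable def skel (K M i : Nat) (leaf : Nat → LI → Bool) (n : Nat) : Sx :=
  Nat.rec (motive := fun _ => Sx) (fun _ _ _ _ _ _ _ _ => false)
    (fun _ sx sk fr o lo lr U w P =>
      (lo ≤? nat_lit 5 ⋎ 𝐒 ≤? Nat.add U (Nat.mul fr (Nat.succ (Nat.div 𝐒 (nat_lit 6))))) ⇛
      ((Nat.mod w M =? i ⇛ start K leaf sk fr o P) ⋏ ext sx sk fr o lo lr U w P)) n

noncomputable def search (K M i : Nat) (leaf : Nat → LI → Bool) : Bool :=
  ext (skel K M i leaf K) .nil (Nat.pred K) (.cons (nat_lit 2) .nil) (nat_lit 0) (nat_lit 0)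
    (Nat.succ (Nat.div 𝐒 (nat_lit 25))) (nat_lit 0) (.cons (nat_lit 3) (.cons (nat_lit 2) .nil))

end CF.KCl
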