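import Mathlib
import Cfsg.Agent.KCl.Se

/-! Specifications of the list functions of the search. -/

set_option autoImplicit false

namespace CF.KCl

@[ext] structure It where
  (ρ r h c : ℕ)
deriving DecidableEq

def NL.toL : NL → List ℕ
  | .nil => []
  | .cons a t => a :: t.toL

def L3.toL : L3 → List (ℕ × ℕ × ℕ)
  | .nil => []
  | .cons a b c t => (a, b, c) :: t.toL

def LI.toL : LI → List It
  | .nil => []
  | .cons a b c d t => ⟨a, b, c, d⟩ :: t.toL

def LT.toL : LT → List (ℕ × ℕ × NL × NL)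
  | .nil => []
  | .cons a b c d t => (a, b, c, d) :: t.toL

theorem brec {α : Type} (x y : α) (a : Bool) :
    @Bool.rec (fun _ => α) x y a = if a = true then y else x := by cases a <;> rfl

theorem frc_eq (f : ℕ → Bool) (x : ℕ) :
    @Nat.rec (fun _ => Bool) true (fun y _ => f y) (Nat.add x (nat_lit 1)) = f x := rfl

theorem dv_iff (a b : ℕ) : Nat.mod b a = 0 ↔ a ∣ b := Nat.dvd_iff_mod_eq_zero.symm

theorem ndiv (a b : ℕ) : Nat.div a b = a / b := rfl
theorem nmod (a b : ℕ) : Nat.mod a b = a % b := rfl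
theorem nshl (a b : ℕ) : Nat.shiftLeft a b = a * 2 ^ b := Nat.shiftLeft_eq a b

theorem ind_eq (a b : ℕ) : Nat.sub 1 (Nat.mod b a) = if a ∣ b then 1 else 0 := by
  rw [Nat.sub_eq, nmod]
  split_ifs with h
  · rw [Nat.mod_eq_zero_of_dvd h]
  · have := mt Nat.dvd_of_mod_eq_zero h; omega

theorem mx_eq (a b : ℕ) : Nat.add a (Nat.sub b a) = max a b := by
  rw [Nat.add_eq, Nat.sub_eq]; omega

theorem lmem_iff {d : ℕ} {l : NL} : lmem d l = true ↔ d ∈ l.toL := by
  induction l with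
  | nil => exact ⟨nofun, nofun⟩
  | cons a t ih =>
    change (a =? d ⋎ lmem d t) = true ↔ _
    simp [brec, NL.toL, ih, or_iff_not_imp_left, eq_comm (a := d)]

theorem ldvd_iff {d : ℕ} {l : NL} : ldvd d l = true ↔ ∃ a ∈ l.toL, d ∣ a := by
  induction l with
  | nil => exact ⟨nofun, nofun⟩
  | cons a t ih =>
    change (d ∣? a ⋎ ldvd d t) = true ↔ _
    simp only [brec, dv_iff, Nat.beq_eq, NL.toL, List.mem_cons, exists_eq_or_imp, ← ih]
    split_ifs with h <;> simp [h]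

theorem llen_eq (l : NL) : llen l = l.toL.length := by
  induction l with
  | nil => rfl
  | cons a t ih => exact congrArg Nat.succ ih

theorem lprod_eq (l : NL) : lprod l = l.toL.prod := by
  induction l with
  | nil => rfl
  | cons a t ih => exact congrArg (a * ·) ih

theorem insk_iff {d : ℕ} {l : L3} : insk d l = true ↔ ∃ e ∈ l.toL, e.1 = d := by
  induction l with
  | nil => exact ⟨nofun, nofun⟩
  | cons a b c t ih =>
    change (a =? d ⋎ insk d t) = true ↔ _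
    simp only [brec, Nat.beq_eq, L3.toL, List.mem_cons, exists_eq_or_imp, ← ih]
    split_ifs with h <;> simp [h]

theorem lapp_spec (l : NL) : ∀ acc : NL, ∃ l' : NL,
    (l'.toL : Multiset ℕ) = l.toL + acc.toL ∧ ∀ k, lapp l k acc = k l' := by
  induction l with
  | nil => exact fun acc => ⟨acc, by simp [NL.toL], fun _ => rfl⟩
  | cons a t ih =>
    intro acc
    obtain ⟨l', h1, h2⟩ := ih (.cons a acc)
    refine ⟨l', ?_, fun k => h2 k⟩
    simp only [h1, NL.toL, ← Multiset.cons_coe, Multiset.add_cons, Multiset.cons_add]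

theorem lapp3_spec (l : L3) : ∀ acc : L3, ∃ l' : L3,
    (l'.toL : Multiset (ℕ × ℕ × ℕ)) = ↑l.toL + ↑acc.toL ∧ ∀ k, lapp3 l k acc = k l' := by
  induction l with
  | nil => exact fun acc => ⟨acc, by simp [L3.toL], fun _ => rfl⟩
  | cons a b c t ih =>
    intro acc
    obtain ⟨l', h1, h2⟩ := ih (.cons a b c acc)
    refine ⟨l', ?_, fun k => h2 k⟩
    simp only [h1, L3.toL, ← Multiset.cons_coe, Multiset.add_cons, Multiset.cons_add]

theorem lers_spec (d : ℕ) (l : NL) : ∀ acc : NL, ∃ l' : NL,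
    (l'.toL : Multiset ℕ) = (l.toL : Multiset ℕ).erase d + acc.toL ∧
      ∀ k, lers d l k acc = k l' := by
  induction l with
  | nil => exact fun acc => ⟨acc, by simp [NL.toL], fun _ => rfl⟩
  | cons a t ih =>
    intro acc
    by_cases h : a = d
    · obtain ⟨l', h1, h2⟩ := lapp_spec t acc
      refine ⟨l', by simp only [h1, NL.toL, ← Multiset.cons_coe, h, Multiset.erase_cons_head],
        fun k => ?_⟩
      change (iff a =? d ▹ lapp t k acc els lers d t k (.cons a acc)) = _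
      simp [brec, h, h2]
    · obtain ⟨l', h1, h2⟩ := ih (.cons a acc)
      refine ⟨l', ?_, fun k => ?_⟩
      · simp only [h1, NL.toL, ← Multiset.cons_coe, Multiset.add_cons,
          Multiset.erase_cons_tail _ h, Multiset.cons_add]
      · change (iff a =? d ▹ lapp t k acc els lers d t k (.cons a acc)) = _
        simp [brec, h, h2]

/-- the nested loops -/
noncomputable def smoF (B : ℕ) (k : ℕ → Bool) (ps : NL) : ℕ → Bool :=
  NL.rec (motive := fun _ => ℕ → Bool) k (fun p _ f => l28 (step B p f)) ps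

theorem smo_eq (B : ℕ) (k : ℕ → Bool) (ps : NL) : ∀ K, smo B k ps K = K (smoF B k ps) := by
  induction ps with
  | nil => exact fun _ => rfl
  | cons p t ih => exact fun K => ih _

theorem l28_eq (f : (ℕ → Bool) → ℕ → Bool) : l28 f = f^[28] fun _ => false := rfl

theorem smoF_of {B : ℕ} {k : ℕ → Bool} (ps : NL) : ∀ x m : ℕ, m ≠ 0 → x * m ≤ B →
    (∀ q, q.Prime → q ∣ m → q ∈ ps.toL) → smoF B k ps x = true → k (x * m) = true := by
  induction ps with
  | nil =>
    intro x m _ _ h1 h2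
    obtain rfl : m = 1 := Nat.eq_one_iff_not_exists_prime_dvd.2 fun q hq h => nomatch h1 q hq h
    rwa [mul_one]
  | cons p t ih =>
    change ∀ x m : ℕ, _ → _ → _ → l28 (step B p (smoF B k t)) x = true → _
    rw [l28_eq]
    generalize 28 = n
    induction n with
    | zero => exact fun _ _ _ _ _ => nofun
    | succ n ihn =>
      intro x m h0 h1 h2 h3
      rw [Function.iterate_succ_apply'] at h3
      simp only [step, brec, Nat.ble_eq, Nat.mul_eq] at h3
      split_ifs at h3 with h4 h5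
      · by_cases h : p.Prime ∧ p ∣ m
        · obtain ⟨hp, m, rfl⟩ := h
          rw [← mul_assoc] at h1 ⊢
          exact ihn _ _ (right_ne_zero_of_mul h0) h1
            (fun q hq h => h2 q hq (h.mul_left _)) h3
        · exact ih x m h0 h1 (fun q hq hd => (List.mem_cons.1 (h2 q hq hd)).resolve_left
            (by rintro rfl; exact h ⟨hq, hd⟩)) h4
      · refine ih x m h0 h1 (fun q hq hd => (List.mem_cons.1 (h2 q hq hd)).resolve_left ?_) h4
        rintro rfl
        exact h5 ((Nat.mul_le_mul_left _ (Nat.le_of_dvd (Nat.pos_of_ne_zero h0) hd)).trans h1)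

theorem lcm_eq (x c : ℕ) : x / x.gcd c * c = x.lcm c := by
  rw [Nat.lcm, Nat.div_mul_right_comm (Nat.gcd_dvd_left x c)]

theorem enu_of {B ρ c : ℕ} {f : ℕ → Bool} (S : ℕ → Prop) (hc : c ≠ 0) (hB : c ≤ B) (chs : L3)
    {x : ℕ} (hx : x ∣ c) (h1 : ∀ q, q.Prime → q ∣ c → S q ∨
      ∃ e ∈ chs.toL, e.1 = ρ ∧ e.2.1 = q ∧ e.2.2 ∣ c ∧ ¬ q ∣ c / e.2.2)
    (h : enu B ρ chs x f = true) :
    ∃ y, y ∣ c ∧ (∀ q, q.Prime → q ∣ c / y → S q) ∧ f y = true := by
  have h1' : ∀ q, q.Prime → q ∣ c / x → S q ∨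
      ∃ e ∈ chs.toL, e.1 = ρ ∧ e.2.1 = q ∧ e.2.2 ∣ c ∧ ¬ q ∣ c / e.2.2 := fun q hq h =>
    h1 q hq (h.trans (Nat.div_dvd_of_dvd hx))
  have h2 : ∀ q, q.Prime → q ∣ nat_lit 1 → ¬ q ∣ c / x := fun q hq h => absurd h hq.not_dvd_one
  unfold enu at h
  clear h1
  generalize nat_lit 1 = E at h h2
  induction chs generalizing x E with
  | nil => exact ⟨x, hx, fun q hq h => (h1' q hq h).resolve_right (by simp [L3.toL]), h⟩
  | cons d p c' t ih =>
    simp only [brec, dv_iff, Nat.beq_eq, Nat.ble_eq, Nat.mul_eq, ndiv, lcm_eq] at h ih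
    by_cases hw : d = ρ ∧ p.Prime ∧ p ∣ c / x ∧ c' ∣ c ∧ ¬ p ∣ c / c'
    · obtain ⟨w1, w2, w3, w4, w5⟩ := hw
      have h3 : x.lcm c' ∣ c := Nat.lcm_dvd hx w4
      have h4 : c / x.lcm c' ∣ c / x := Nat.div_dvd_div_left h3 (Nat.dvd_lcm_left _ _)
      have h5 : c / x.lcm c' ∣ c / c' := Nat.div_dvd_div_left h3 (Nat.dvd_lcm_right _ _)
      rw [if_pos w1, if_neg fun h => h2 p w2 h w3,
        if_neg fun h => w5 (w3.trans (Nat.div_dvd_div_left hx h)),
        if_pos ((Nat.le_of_dvd (Nat.pos_of_ne_zero hc) h3).trans hB)] at h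
      refine ih h3 (fun q hq hd => (h1' q hq (hd.trans h4)).imp_right ?_) (E * p) ?_
        fun q hq hd hd' => ?_
      · rintro ⟨e, he, h6⟩
        refine ⟨e, (List.mem_cons.1 he).resolve_left ?_, h6⟩
        rintro rfl
        exact h6.2.2.2 (hd.trans h5)
      · split_ifs at h; exact h
      · rcases (Nat.Prime.dvd_mul hq).1 hd with h7 | h7
        · exact h2 q hq h7 (hd'.trans h4)
        · rw [(Nat.prime_dvd_prime_iff_eq hq w2).1 h7] at hd'
          exact w5 (hd'.trans h5)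
    · refine ih hx (fun q hq hd => (h1' q hq hd).imp_right ?_) E ?_ h2
      · rintro ⟨e, he, h6⟩
        refine ⟨e, (List.mem_cons.1 he).resolve_left ?_, h6⟩
        rintro rfl
        obtain ⟨h6, rfl, h7, h8⟩ := h6
        exact hw ⟨h6, hq, hd, h7, h8⟩
      · split_ifs at h <;> assumption

theorem addp_spec (ρ : ℕ) (sk : L3) (qs : NL) : ∀ acc : NL, ∃ n : NL,
    (∀ k, addp ρ sk qs k acc = k n) ∧ ∀ M : Multiset ℕ, ↑acc.toL ≤ M →
      (∀ p ∈ qs.toL, insk (ρ / p) sk = false → ρ / p ∈ M) → ↑n.toL ≤ M := by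
  induction qs with
  | nil => exact fun acc => ⟨acc, fun _ => rfl, fun _ h _ => h⟩
  | cons p t ih =>
    intro acc
    have e : ∀ k, addp ρ sk (.cons p t) k acc = (iff lmem (ρ / p) acc ⋎ insk (ρ / p) sk ▹
      addp ρ sk t k acc els addp ρ sk t k (.cons (ρ / p) acc)) := fun _ => rfl
    by_cases h : lmem (ρ / p) acc = true ∨ insk (ρ / p) sk = true
    · obtain ⟨n, h1, h2⟩ := ih acc
      refine ⟨n, fun k => ?_, fun M h3 h4 => h2 M h3 fun q hq => h4 q (List.mem_cons_of_mem _ hq)⟩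
      rcases h with h | h <;> simp [e, brec, h, h1]
    · obtain ⟨n, h1, h2⟩ := ih (.cons (ρ / p) acc)
      rw [not_or] at h
      refine ⟨n, fun k => by simp [e, brec, h, h1], fun M h3 h4 =>
        h2 M ?_ fun q hq => h4 q (List.mem_cons_of_mem _ hq)⟩
      exact (Multiset.cons_le_of_notMem (s := acc.toL) (by simpa [lmem_iff] using h.1)).2
        ⟨h4 p List.mem_cons_self (by simpa using h.2), h3⟩

theorem spl_spec (ρ : ℕ) (l : L3) : ∀ x y : L3, ∃ pm po : L3, (∀ k, spl ρ l k x y = k pm po) ∧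
    (∀ e ∈ pm.toL, e ∈ x.toL ∨ e ∈ l.toL ∧ e.1 = ρ) ∧
      ∀ e ∈ po.toL, e ∈ y.toL ∨ e ∈ l.toL ∧ e.1 ≠ ρ := by
  induction l with
  | nil => exact fun x y => ⟨x, y, fun _ => rfl, fun _ => Or.inl, fun _ => Or.inl⟩
  | cons d c q t ih =>
    intro x y
    have e : ∀ k, spl ρ (.cons d c q t) k x y = (iff d =? ρ ▹ spl ρ t k (.cons d c q x) y els
      spl ρ t k x (.cons d c q y)) := fun _ => rfl
    by_cases h : d = ρ
    · obtain ⟨pm, po, h1, h2, h3⟩ := ih (.cons d c q x) y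
      refine ⟨pm, po, fun k => by simp only [e, brec, Nat.beq_eq, if_pos h, h1], fun e he => ?_,
        fun e he => ?_⟩
      · have := h2 e he; simp only [L3.toL, List.mem_cons] at this ⊢; grind
      · have := h3 e he; simp only [L3.toL, List.mem_cons] at this ⊢; grind
    · obtain ⟨pm, po, h1, h2, h3⟩ := ih x (.cons d c q y)
      refine ⟨pm, po, fun k => by simp only [e, brec, Nat.beq_eq, if_neg h, h1], fun e he => ?_,
        fun e he => ?_⟩
      · have := h2 e he; simp only [L3.toL, List.mem_cons] at this ⊢; grind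
      · have := h3 e he; simp only [L3.toL, List.mem_cons] at this ⊢; grind

theorem lcmAll_spec (l : L3) : ∀ x : ℕ, ∃ y, (∀ k, lcmAll l k x = k y) ∧
    ∀ c, x ∣ c → (∀ e ∈ l.toL, e.2.1 ∣ c) → y ∣ c := by
  induction l with
  | nil => exact fun x => ⟨x, fun _ => rfl, fun _ h _ => h⟩
  | cons d c q t ih =>
    intro x
    obtain ⟨y, h1, h2⟩ := ih (x / x.gcd c * c)
    refine ⟨y, fun k => h1 k, fun c' h3 h4 => h2 c' ?_ fun e he => h4 e (List.mem_cons_of_mem _ he)⟩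
    rw [lcm_eq]
    exact Nat.lcm_dvd h3 (h4 _ List.mem_cons_self)

theorem dup_spec {d p c : ℕ} {l : L3} (h : dup d p c l = true) :
    ∃ e ∈ l.toL, e.1 = d ∧ e.2.1 = p ∧ e.2.2 ∣ c ∧ ¬ p ∣ c / e.2.2 := by
  induction l with
  | nil => exact nomatch h
  | cons d' p' c' t ih =>
    change (iff d' =? d ⋏ p' =? p ⋏ c' ∣? c ▹ (iff p ∣? Nat.div c c' ▹ dup d p c t els true)
      els dup d p c t) = true at h
    simp only [brec, dv_iff, Nat.beq_eq, ndiv] at h
    simp only [L3.toL, List.mem_cons, exists_eq_or_imp]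
    by_cases h1 : dup d p c t = true
    · exact Or.inr (ih h1)
    · left
      split_ifs at h with h2 h3 h4 h5 <;> simp_all [dv_iff]

theorem addob_spec {ρ c : ℕ} (hc : c ≠ 0) (qs : NL) : ∀ x y : L3, ∃ x' y' : L3,
    (∀ k, addob ρ c qs k x y = k x' y') ∧ (∀ e ∈ x.toL, e ∈ x'.toL) ∧
    (∀ p ∈ qs.toL, p ≠ 1 → ∃ e ∈ x'.toL, e.1 = ρ / p ∧ e.2.1 = p ∧ e.2.2 ∣ c ∧ ¬ p ∣ c / e.2.2) ∧
    ∀ e ∈ y'.toL, e ∈ y.toL ∨ ∃ p ∈ qs.toL, e = (ρ / p, c, if p * p ∣ c then 0 else p * p) := by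
  induction qs with
  | nil => exact fun x y => ⟨x, y, fun _ => rfl, fun _ h => h, nofun, fun _ => Or.inl⟩
  | cons p t ih =>
    intro x y
    have e : ∀ k, addob ρ c (.cons p t) k x y = (iff dup (ρ / p) p c x ▹
      addob ρ c t k x (.cons (ρ / p) c (p * p * (1 - Nat.sub 1 (Nat.mod c (p * p)))) y) els
      addob ρ c t k (.cons (ρ / p) p c x)
        (.cons (ρ / p) c (p * p * (1 - Nat.sub 1 (Nat.mod c (p * p)))) y)) := fun _ => rfl
    have e' : p * p * (1 - Nat.sub 1 (Nat.mod c (p * p))) = if p * p ∣ c then 0 else p * p := by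
      rw [ind_eq]; split_ifs <;> simp
    rw [e'] at e
    have key : ∀ x0 : L3, (∀ e ∈ x.toL, e ∈ x0.toL) → (p ≠ 1 → ∃ e ∈ x0.toL, e.1 = ρ / p ∧
        e.2.1 = p ∧ e.2.2 ∣ c ∧ ¬ p ∣ c / e.2.2) → (∀ k, addob ρ c (.cons p t) k x y =
        addob ρ c t k x0 (.cons (ρ / p) c (if p * p ∣ c then 0 else p * p) y)) →
        ∃ x' y' : L3, (∀ k, addob ρ c (.cons p t) k x y = k x' y') ∧ (∀ e ∈ x.toL, e ∈ x'.toL) ∧
          (∀ q ∈ (NL.cons p t).toL, q ≠ 1 → ∃ e ∈ x'.toL, e.1 = ρ / q ∧ e.2.1 = q ∧ e.2.2 ∣ c ∧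
            ¬ q ∣ c / e.2.2) ∧ ∀ e ∈ y'.toL, e ∈ y.toL ∨ ∃ q ∈ (NL.cons p t).toL,
              e = (ρ / q, c, if q * q ∣ c then 0 else q * q) :=
      fun x0 h1 h2 h3 => by
        obtain ⟨x', y', h4, h5, h6, h7⟩ := ih x0 (.cons (ρ / p) c (if p * p ∣ c then 0 else p * p) y)
        refine ⟨x', y', fun k => (h3 k).trans (h4 k), fun e he => h5 e (h1 e he), ?_, ?_⟩
        · intro q hq h8
          rcases List.mem_cons.1 hq with rfl | hq
          · obtain ⟨e, he, h9⟩ := h2 h8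
            exact ⟨e, h5 e he, h9⟩
          · exact h6 q hq h8
        · intro e he
          rcases h7 e he with h8 | ⟨q, hq, h8⟩
          · rcases List.mem_cons.1 h8 with h8 | h8
            · exact Or.inr ⟨p, List.mem_cons_self, h8⟩
            · exact Or.inl h8
          · exact Or.inr ⟨q, List.mem_cons_of_mem _ hq, h8⟩
    by_cases h : dup (ρ / p) p c x = true
    · exact key x (fun _ h => h) (fun _ => dup_spec h) fun k => by rw [e, h]
    · refine key (.cons (ρ / p) p c x) (fun _ h => List.mem_cons_of_mem _ h)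
        (fun h1 => ⟨_, List.mem_cons_self, rfl, rfl, dvd_rfl, ?_⟩) fun k => by
          rw [e, Bool.eq_false_iff.2 h]
      rwa [Nat.div_self (Nat.pos_of_ne_zero hc), Nat.dvd_one]

theorem sumd_eq (p L : ℕ) (l : LI) :
    sumd p L l = (l.toL.map fun j => if p ∣ j.ρ then j.r * (L / j.c) else 0).sum := by
  induction l with
  | nil => rfl
  | cons ρ r h c t ih =>
    change Nat.sub 1 (Nat.mod ρ p) * (r * (L / c)) + sumd p L t = _
    rw [ind_eq]
    simp [ih, LI.toL]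

theorem sume_eq (p L : ℕ) (l : LI) :
    sume p L l = 1 + (l.toL.map fun j => if j.ρ = p then j.r * (L / j.c) else 0).sum := by
  induction l with
  | nil => rfl
  | cons ρ r h c t ih =>
    change @Bool.rec (fun _ => ℕ) (sume p L t) (r * (L / c) + sume p L t) (ρ =? p) = _
    simp only [brec, Nat.beq_eq, ih, LI.toL, List.map_cons, List.sum_cons]
    split_ifs <;> omega

theorem sumk_eq (lo : ℕ) (l : L3) : sumk lo l =
    1 + (l.toL.map fun e => e.2.1 * (𝐒 / (((lo - 1) / e.1 + 1) * e.1) + 1)).sum := by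
  induction l with
  | nil => rfl
  | cons ρ r h t ih =>
    change r * (𝐒 / (((lo - 1) / ρ + 1) * ρ) + 1) + sumk lo t = _
    simp only [ih, L3.toL, List.map_cons, List.sum_cons]
    omega

theorem filty_spec (p : ℕ) (l : LT) : ∀ acc : LT, ∃ l' : LT, (∀ k, filty p l k acc = k l') ∧
    (∀ e ∈ acc.toL, e ∈ l'.toL) ∧ ∀ e ∈ l.toL, ¬ p ∣ e.1 → e ∈ l'.toL := by
  induction l with
  | nil => exact fun acc => ⟨acc, fun _ => rfl, fun _ h => h, nofun⟩
  | cons ρ b ps qs t ih =>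
    intro acc
    have e : ∀ k, filty p (.cons ρ b ps qs t) k acc = (iff p ∣? ρ ▹ filty p t k acc els
      filty p t k (.cons ρ b ps qs acc)) := fun _ => rfl
    by_cases h : p ∣ ρ
    · obtain ⟨l', h1, h2, h3⟩ := ih acc
      refine ⟨l', fun k => by simp only [e, brec, dv_iff, Nat.beq_eq, if_pos h, h1], h2, fun e he h4 => ?_⟩
      exact h3 e ((List.mem_cons.1 he).resolve_left (by rintro rfl; exact h4 h)) h4
    · obtain ⟨l', h1, h2, h3⟩ := ih (.cons ρ b ps qs acc)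
      refine ⟨l', fun k => by simp only [e, brec, dv_iff, Nat.beq_eq, if_neg h, h1],
        fun e he => h2 e (List.mem_cons_of_mem _ he), fun e he h4 => ?_⟩
      rcases List.mem_cons.1 he with rfl | he
      exacts [h2 _ List.mem_cons_self, h3 e he h4]

theorem unsat_spec (c : ℕ) (l : L3) : ∀ (x : Bool) (acc : L3), ∃ (un : Bool) (pd : L3),
    (∀ k, unsat c l k x acc = k un pd) ∧
    (un = true → x = true ∨ ∃ e ∈ l.toL, ¬ (e.2.1 ∣ c ∧ ¬ e.2.2 ∣ c)) ∧
    ∀ e ∈ pd.toL, e ∈ acc.toL ∨ e ∈ l.toL ∧ ¬ (e.2.1 ∣ c ∧ ¬ e.2.2 ∣ c) := by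
  induction l with
  | nil => exact fun x acc => ⟨x, acc, fun _ => rfl, Or.inl, fun _ => Or.inl⟩
  | cons d c' q t ih =>
    intro x acc
    have e : ∀ k, unsat c (.cons d c' q t) k x acc = (iff c' ∣? c ⇛ q ∣? c ▹
      unsat c t k true (.cons d c' q acc) els unsat c t k x acc) := fun _ => rfl
    by_cases h : c' ∣ c ∧ ¬ q ∣ c
    · obtain ⟨un, pd, h1, h2, h3⟩ := ih x acc
      refine ⟨un, pd, fun k => by simp [e, brec, dv_iff, h, h1], fun h4 => ?_, fun e he => ?_⟩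
      · have := h2 h4; simp only [L3.toL, List.mem_cons]; grind
      · have := h3 e he; simp only [L3.toL, List.mem_cons]; grind
    · obtain ⟨un, pd, h1, h2, h3⟩ := ih true (.cons d c' q acc)
      refine ⟨un, pd, fun k => ?_, fun _ => Or.inr ⟨_, List.mem_cons_self, h⟩, fun e he => ?_⟩
      · simp only [e, brec, dv_iff, Nat.beq_eq, h1]
        split_ifs <;> simp_all [dv_iff]
      · have := h3 e he; simp only [L3.toL, List.mem_cons] at this ⊢; grind

theorem prs_spec (d : ℕ) (l : NL) : ∀ acc : NL, ∃ l' : NL, (∀ k, prs d l k acc = k l') ∧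
    ∀ a, a ∈ l'.toL ↔ a ∈ acc.toL ∨ a ∈ l.toL ∧ a ∣ d := by
  induction l with
  | nil => exact fun acc => ⟨acc, fun _ => rfl, by simp [NL.toL]⟩
  | cons p t ih =>
    intro acc
    have e : ∀ k, prs d (.cons p t) k acc = (iff p ∣? d ▹ prs d t k (.cons p acc) els
      prs d t k acc) := fun _ => rfl
    by_cases h : p ∣ d
    · obtain ⟨l', h1, h2⟩ := ih (.cons p acc)
      refine ⟨l', fun k => by simp only [e, brec, dv_iff, Nat.beq_eq, if_pos h, h1], fun a => ?_⟩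
      simp only [h2, NL.toL, List.mem_cons]; grind
    · obtain ⟨l', h1, h2⟩ := ih acc
      refine ⟨l', fun k => by simp only [e, brec, dv_iff, Nat.beq_eq, if_neg h, h1], fun a => ?_⟩
      simp only [h2, NL.toL, List.mem_cons]; grind

/-- The data attached to a type. -/
structure Fit (ρ : ℕ) (ps qs : NL) : Prop where
  hps : ∀ q, q.Prime → q ∣ ρ → q ∈ ps.toL
  hqs : ∀ q ∈ qs.toL, q.Prime ∧ q ∣ ρ ∧ q ≠ ρ
  pr : qs = .nil → ρ.Prime
  co : ∀ q, q.Prime → q ∣ ρ → q ≠ ρ → q ∈ qs.toL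

theorem Fit.prime {p : ℕ} (hp : p.Prime) : Fit p (.cons p .nil) .nil :=
  ⟨fun q hq h => by simp [NL.toL, (Nat.prime_dvd_prime_iff_eq hq hp).1 h], nofun, fun _ => hp,
    fun q hq h h' => absurd ((Nat.prime_dvd_prime_iff_eq hq hp).1 h) h'⟩

theorem mkty_spec (P : NL) (ρ : ℕ) : ∃ b ps qs, (∀ k, mkty P ρ k = k b ps qs) ∧
    ((∀ p ∈ P.toL, p.Prime) → (∀ q, q.Prime → q ∣ ρ → q ∈ P.toL) → 1 < ρ →
      Fit ρ ps qs ∧ (b = ρ ∨ ρ.Prime ∧ ρ ≠ 3 ∧ b = ρ * ρ)) := by
  by_cases h1 : ρ ≤ 3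
  · refine ⟨6 - ρ, .cons ρ .nil, .nil, fun k => by simp [mkty, brec, h1], fun _ _ h => ?_⟩
    interval_cases ρ
    · exact ⟨Fit.prime Nat.prime_two, Or.inr ⟨Nat.prime_two, by norm_num, rfl⟩⟩
    · exact ⟨Fit.prime Nat.prime_three, Or.inl rfl⟩
  by_cases h2 : ρ = 6
  · subst h2
    have h3 : ∀ q, q.Prime → q ∣ 6 → q ∈ (NL.cons 3 (.cons 2 .nil)).toL := fun q hq h => by
      rcases (Nat.Prime.dvd_mul hq).1 (show q ∣ 2 * 3 from h) with h | h
      · simp [NL.toL, (Nat.prime_dvd_prime_iff_eq hq Nat.prime_two).1 h]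
      · simp [NL.toL, (Nat.prime_dvd_prime_iff_eq hq Nat.prime_three).1 h]
    refine ⟨6, _, _, fun k => rfl, fun _ _ _ => ⟨⟨h3, ?_, nofun, fun q hq h _ => h3 q hq h⟩,
      Or.inl rfl⟩⟩
    simp [NL.toL, Nat.prime_two, Nat.prime_three]
  by_cases h3 : ρ ∈ P.toL
  · exact ⟨ρ * ρ, .cons ρ .nil, .nil, fun k => by simp [mkty, brec, h1, h2, lmem_iff, h3],
      fun h _ _ => ⟨Fit.prime (h ρ h3), Or.inr ⟨h ρ h3, by omega, rfl⟩⟩⟩
  · obtain ⟨ps, h4, h5⟩ := prs_spec ρ P .nil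
    refine ⟨ρ, ps, ps, fun k => by simp [mkty, brec, h1, h2, lmem_iff, h3, h4], fun h h' h6 => ?_⟩
    have h7 : ∀ q, q.Prime → q ∣ ρ → q ∈ ps.toL := fun q hq hd =>
      (h5 q).2 (Or.inr ⟨h' q hq hd, hd⟩)
    refine ⟨⟨h7, fun q hq => ?_, ?_, fun q hq hd _ => h7 q hq hd⟩, Or.inl rfl⟩
    · obtain ⟨h8, h9⟩ := ((h5 q).1 hq).resolve_left nofun
      exact ⟨h q h8, h9, by rintro rfl; exact h3 h8⟩
    · rintro rfl
      exact nomatch h7 _ (Nat.minFac_prime h6.ne') (Nat.minFac_dvd ρ)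

theorem ez_of {O : Ox} {B F fr : ℕ} {need : NL} {ρ r h : ℕ} (h1 : ρ ≤ B) (h2 : ρ.gcd F = 1)
    (l : L3) (hl : ∀ e ∈ l.toL, e.1 = ρ → e.2.1 = r → e.2.2 = h) : ∀ (p s : ℕ) (pre : L3),
    (ρ, r, h) ∈ l.toL → ¬ (ρ = p ∧ r = s) → ez O B F fr need l p s pre = true →
    ∃ sk : L3, (ρ, r, h) ::ₘ (sk.toL : Multiset (ℕ × ℕ × ℕ)) = ↑l.toL + ↑pre.toL ∧
      O fr sk ρ r h ρ (.cons ρ .nil) .nil need = true := by
  induction l with
  | nil => exact fun _ _ _ => nofun
  | cons ρ' r' h' t ih =>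
    intro p s pre h3 h4 h5
    change ((ρ' ≤? B ⇛ (ρ' =? p ⋏ r' =? s) ⇏ Nat.gcd ρ' F =? nat_lit 1 ⇛
      lapp3 t (fun sk2 => O fr sk2 ρ' r' h' ρ' (.cons ρ' .nil) .nil need) pre) ⋏
        ez O B F fr need t ρ' r' (.cons ρ' r' h' pre)) = true at h5
    rw [brec] at h5
    split_ifs at h5 with h6
    by_cases h7 : ρ = ρ' ∧ r = r'
    · obtain ⟨rfl, rfl⟩ := h7
      obtain rfl : h' = h := hl _ List.mem_cons_self rfl rfl
      obtain ⟨sk, h8, h9⟩ := lapp3_spec t pre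
      refine ⟨sk, by simp only [h8, L3.toL, ← Multiset.cons_coe, Multiset.cons_add], ?_⟩
      simp only [brec, Nat.ble_eq, h1, if_true, Nat.beq_eq, h2, h9] at h6
      split_ifs at h6 <;> simp_all
    · obtain ⟨sk, h8, h9⟩ := ih (fun e he => hl e (List.mem_cons_of_mem _ he)) _ _ _
        ((List.mem_cons.1 h3).resolve_left fun e => h7 (by simp_all)) h7 h5
      exact ⟨sk, by simp only [h8, L3.toL, ← Multiset.cons_coe, Multiset.add_cons,
        Multiset.cons_add], h9⟩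

theorem en_of {O : Ox} {P : NL} {B F fr : ℕ} {sk : L3} {ρ b : ℕ} {ps qs : NL}
    (h0 : ∀ k, mkty P ρ k = k b ps qs) (h1 : b ≤ B) (h2 : ρ.gcd F = 1)
    (l : NL) : ∀ pre : NL, ρ ∈ l.toL → ρ ∉ pre.toL → en O P B F fr sk l pre = true →
    ∃ nd : NL, ρ ::ₘ (nd.toL : Multiset ℕ) = ↑l.toL + ↑pre.toL ∧
      O fr sk ρ 1 1 b ps qs nd = true := by
  induction l with
  | nil => exact fun _ => nofun
  | cons ρ' t ih =>
    intro pre h3 h4 h5
    change ((lmem ρ' pre ⇏ Nat.gcd ρ' F =? nat_lit 1 ⇛ mkty P ρ' fun b ps qs => b ≤? B ⇛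
        lapp t (O fr sk ρ' 1 1 b ps qs) pre) ⋏ en O P B F fr sk t (.cons ρ' pre)) = true at h5
    rw [brec] at h5
    split_ifs at h5 with h6
    by_cases h7 : ρ = ρ'
    · subst h7
      obtain ⟨nd, h8, h9⟩ := lapp_spec t pre
      refine ⟨nd, by simp only [h8, NL.toL, ← Multiset.cons_coe, Multiset.cons_add], ?_⟩
      simpa [brec, h0, h1, h2, h9, lmem_iff, h4] using h6
    · obtain ⟨nd, h8, h9⟩ := ih _ ((List.mem_cons.1 h3).resolve_left h7)
        (by simp [NL.toL, h4, h7]) h5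
      exact ⟨nd, by simp only [h8, NL.toL, ← Multiset.cons_coe, Multiset.add_cons,
        Multiset.cons_add], h9⟩

theorem et_of {O : Ox} {B fr : ℕ} {sk : L3} {need : NL} {ρ b : ℕ} {ps qs : NL} (h1 : b ≤ B)
    (l : LT) (h2 : (ρ, b, ps, qs) ∈ l.toL) (h3 : et O B fr sk need l = true) :
    lers ρ need (O fr sk ρ 1 1 b ps qs) .nil = true := by
  induction l with
  | nil => exact nomatch h2
  | cons ρ' b' ps' qs' t ih =>
    change (iff b' ≤? B ▹ lers ρ' need (O fr sk ρ' 1 1 b' ps' qs') .nil ⋏ et O B fr sk need t els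
      et O B fr sk need t) = true at h3
    simp only [brec, Nat.ble_eq] at h3
    rcases List.mem_cons.1 h2 with h | h
    · cases h
      split_ifs at h3 <;> assumption
    · split_ifs at h3 <;> exact ih h h3

theorem bound_eq (rem A L : ℕ) (k : ℕ → Bool) : bound rem A L k =
    k (if A ≤ 1 then (5 * rem + 1) * L / (5 * A) else
      min ((5 * rem + 1) * L / (5 * A)) (rem * L / (A - 1))) := by
  simp only [bound, frc_eq, brec, Nat.ble_eq]
  split_ifs
  · rfl
  · congr 1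
    change (5 * rem + 1) * L / (5 * A) - ((5 * rem + 1) * L / (5 * A) - rem * L / (A - 1)) = _
    generalize (5 * rem + 1) * L / (5 * A) = a
    generalize rem * L / (A - 1) = b
    omega

theorem frob_of {g : ℕ} {cl : LI} {P : NL} (h : ∀ p ∈ P.toL, g.gcd (p ^ 40) ∣ sume p g cl) :
    frob g cl P = true := by
  induction P with
  | nil => rfl
  | cons p t ih =>
    change (Nat.gcd g (p ^ 40) ∣? sume p g cl ⋏ frob g cl t) = true
    simp only [brec, dv_iff, Nat.beq_eq, if_pos (h p List.mem_cons_self)]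
    exact ih fun q hq => h q (List.mem_cons_of_mem _ hq)

end CF.KCl
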