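import Mathlib
import Cfsg.Agent.KCl.Sp

/-! Soundness of the second phase of the search. -/

set_option autoImplicit false

namespace CF.KCl

def It.pr (j : It) : Prop := 1 < j.r * j.h

instance : DecidablePred It.pr := fun j => inferInstanceAs (Decidable (1 < j.r * j.h))

def It.key (j : It) : ℕ × ℕ × ℕ := (j.ρ, j.r, j.h)

def It.le (a b : It) : Prop := a.c < b.c ∨ a.c = b.c ∧ b.ρ ≤ a.ρ

def wt (g : ℕ) (j : It) : ℕ := j.r * (g / j.c)

/-- the number of elements in the classes with radical satisfying `Φ` -/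
def sm (g : ℕ) (Φ : ℕ → Prop) [DecidablePred Φ] (M : Multiset It) : ℕ :=
  (M.map fun j => if Φ j.ρ then wt g j else 0).sum

/-- the radicals of the classes outside the skeleton -/
def nps (M : Multiset It) : Multiset ℕ := (M.filter fun j => ¬ j.pr).map It.ρ

def rad (d : ℕ) : ℕ := ∏ p ∈ d.primeFactors, p

/-- The numerical properties of the classes of a simple group. -/
structure Good (K g : ℕ) (I : Multiset It) : Prop where
  cardK : (I.map It.r).sum + 1 = K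
  sumg : 1 + (I.map (wt g)).sum = g
  r_pos : ∀ j ∈ I, 0 < j.r
  c5 : ∀ j ∈ I, 5 ≤ j.c
  c_le : ∀ j ∈ I, 5 * j.c ≤ g
  ch : ∀ j ∈ I, j.c * j.h ∣ g
  ρ_dvd : ∀ j ∈ I, j.ρ ∣ j.c
  ρ_gt : ∀ j ∈ I, 1 < j.ρ
  sqf : ∀ j ∈ I, Squarefree j.ρ
  pr : ∀ j ∈ I, j.pr → j.ρ.Prime ∧ 5 ≤ j.ρ ∧ j.r * j.h + 1 = j.ρ
  npr : ∀ j ∈ I, ¬ j.pr → j.r = 1 ∧ j.h = 1 ∧ (j.ρ.Prime → j.ρ ≠ 3 → j.ρ * j.ρ ∣ j.c)
  child : ∀ j ∈ I, ∀ q, q.Prime → q ∣ j.c → ¬ q ∣ j.ρ →
    ∃ i ∈ I, i.ρ = j.ρ * q ∧ i.c ∣ j.c ∧ ¬ q ∣ j.c / i.c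
  par : ∀ j ∈ I, ∀ p, p.Prime → p ∣ j.ρ → p ≠ j.ρ →
    ∃ i ∈ I, i.ρ = j.ρ / p ∧ j.c ∣ i.c ∧ (¬ p * p ∣ j.c → ¬ p * p ∣ i.c)
  anc : ∀ j ∈ I, ∀ d, d ∣ j.ρ → 1 < d → ∃ i ∈ I, i.ρ = d ∧ j.c ∣ i.c
  s2 : ∀ j R, I = j ::ₘ R → j.ρ.Prime → ¬ j.ρ * j.ρ ∣ j.c → ¬ j.ρ * j.ρ ∣ g ∧ (j.h = 1 → j.r = 1) ∧
    j.h + j.r ≤ K ∧ ∀ i ∈ R, j.ρ ∣ i.ρ → i.c ∣ j.c ∧ i.ρ ≠ j.ρ
  f1 : ∀ p, p.Prime → ∀ k, g.gcd (p ^ k) ∣ 1 + sm g (· = p) I
  f2 : ∀ p, p.Prime → ∃ k, g ∣ sm g (p ∣ ·) I * p ^ k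
  big : ∀ p, p.Prime → p ∣ g → 5 ≤ p → ∃ j ∈ I, j.pr ∧ j.ρ = p
  ex : ∃ j ∈ I, j.pr
  ord : ∃ O : Set ℕ, 2 ∈ O ∧ (∀ d ∈ O, d ∣ g) ∧
    (∀ j ∈ I, ∀ d, d ∣ j.h → 1 < d → ¬ (d.Prime ∧ 5 ≤ d) → d ∈ O) ∧
    ∀ l : List ℕ, l.Nodup → (∀ d ∈ l, d ∈ O) → ↑(l.map rad) ≤ nps I

structure Inv (g : ℕ) (I R : Multiset It) (sk : L3) (fr rem : ℕ) (cl : LI) (lk lc A L X Y F : ℕ)
    (ty : LT) (need : NL) (chs pend : L3) : Prop where
  split : I = ↑cl.toL + R
  ord : ∀ a ∈ cl.toL, ∀ b ∈ R, a.le b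
  low : ∀ b ∈ R, lc < b.c ∨ lc = b.c ∧ b.ρ ≤ lk
  hsk : ↑sk.toL = (R.filter It.pr).map It.key
  hfr : fr = (nps R).card
  hrem : rem = (R.map It.r).sum
  hneed : ↑need.toL ≤ nps R
  hpend : ∀ e ∈ pend.toL, ∃ j ∈ R, j.ρ = e.1 ∧ e.2.1 ∣ j.c ∧ ¬ e.2.2 ∣ j.c
  hchs : ∀ j ∈ cl.toL, ∀ p, p.Prime → p ∣ j.ρ → p ≠ j.ρ →
    ∃ e ∈ chs.toL, e.1 = j.ρ / p ∧ e.2.1 = p ∧ e.2.2 ∣ j.c ∧ ¬ p ∣ j.c / e.2.2
  hF : ∀ p, p.Prime → p ∣ F → ¬ p * p ∣ g ∧ p ∣ L ∧ ∀ j ∈ R, ¬ p ∣ j.ρ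
  hL : L ∣ g
  hcL : ∀ j ∈ cl.toL, j.c ∣ L
  hA : A * (g / L) = 1 + (R.map (wt g)).sum
  hX : X * (g / L) = sm g (2 ∣ ·) cl.toL
  hY : Y * (g / L) = sm g (3 ∣ ·) cl.toL
  hty : ∀ j ∈ R, ¬ j.pr → ∃ b ps qs, (j.ρ, b, ps, qs) ∈ ty.toL ∧ b ∣ j.c ∧ Fit j.ρ ps qs

theorem mem_nps {M : Multiset It} {d : ℕ} : d ∈ nps M ↔ ∃ j ∈ M, ¬ j.pr ∧ j.ρ = d := by
  simp [nps, and_assoc]

theorem mem_nps_of {R : Multiset It} {sk : L3} (h : ↑sk.toL = (R.filter It.pr).map It.key)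
    {j : It} (hj : j ∈ R) (h1 : insk j.ρ sk = false) : j.ρ ∈ nps R :=
  mem_nps.2 ⟨j, hj, fun h2 => by
    have : j.key ∈ (sk.toL : Multiset (ℕ × ℕ × ℕ)) :=
      h ▸ Multiset.mem_map_of_mem _ (Multiset.mem_filter.2 ⟨hj, h2⟩)
    simpa [h1] using (insk_iff (d := j.ρ)).2 ⟨_, this, rfl⟩, rfl⟩

theorem sm_cons (g : ℕ) (Φ : ℕ → Prop) [DecidablePred Φ] (j : It) (M : Multiset It) :
    sm g Φ (j ::ₘ M) = (if Φ j.ρ then wt g j else 0) + sm g Φ M := by simp [sm]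

theorem sm_add_of (g : ℕ) (Φ : ℕ → Prop) [DecidablePred Φ] (M R : Multiset It)
    (h : ∀ j ∈ R, ¬ Φ j.ρ) : sm g Φ (M + R) = sm g Φ M := by
  rw [sm, Multiset.map_add, Multiset.sum_add, Multiset.sum_eq_zero (s := R.map _), add_zero, sm]
  simp only [Multiset.mem_map]
  rintro _ ⟨j, hj, rfl⟩
  exact if_neg (h j hj)

theorem dvd_log {L X p k : ℕ} (hp : p.Prime) (hL : L ≠ 0) (h : L ∣ X * p ^ k) :
    L ∣ X * p ^ L.log2 := by
  obtain ⟨a, m, h1, rfl⟩ := Nat.exists_eq_pow_mul_and_not_dvd hL p hp.ne_one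
  have h2 : m ∣ X := (Nat.Coprime.pow_right k ((hp.coprime_iff_not_dvd).2 h1).symm).dvd_of_dvd_mul_right
    ((Dvd.intro_left _ rfl).trans h)
  rw [mul_comm X]
  refine Nat.mul_dvd_mul (pow_dvd_pow p ((Nat.le_log2 hL).2 ?_)) h2
  exact (Nat.pow_le_pow_left hp.two_le a).trans
    (Nat.le_mul_of_pos_right _ (Nat.pos_of_ne_zero (right_ne_zero_of_mul hL)))

theorem div_split {c L g : ℕ} (h1 : c ∣ L) (h2 : L ∣ g) : L / c * (g / L) = g / c := by
  rcases Nat.eq_zero_or_pos L with rfl | hL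
  · simp [Nat.eq_zero_of_zero_dvd h2]
  · rw [mul_comm, Nat.div_mul_div h2 h1]

theorem sc {x c : ℕ} (g S : ℕ) (h0 : 0 < x) (h : x ≤ c) : g / c * S ≤ (S / x + 1) * g :=
  calc g / c * S ≤ g / c * ((S / x + 1) * c) := Nat.mul_le_mul_left _
        (((Nat.lt_mul_div_succ S h0).le.trans_eq (mul_comm _ _)).trans (Nat.mul_le_mul_left _ h))
    _ = (S / x + 1) * (g / c * c) := by ring
    _ ≤ _ := Nat.mul_le_mul_left _ (Nat.div_mul_le_self _ _)

namespace Good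

variable {K g : ℕ} {I : Multiset It} (G : Good K g I)
include G

theorem g_pos : 0 < g := by have := G.sumg; omega

theorem c_dvd {j : It} (h : j ∈ I) : j.c ∣ g := (Dvd.intro _ rfl).trans (G.ch j h)

theorem c_pos {j : It} (h : j ∈ I) : 0 < j.c := by have := G.c5 j h; omega

theorem frob_div {p L Z : ℕ} (hp : p.Prime) {M R : Multiset It} (h : I = M + R)
    (h1 : ∀ j ∈ R, ¬ p ∣ j.ρ) (hL : L ∣ g) (hZ : Z * (g / L) = sm g (p ∣ ·) M) :
    L ∣ Z * p ^ L.log2 := by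
  obtain ⟨k, hk⟩ := G.f2 p hp
  have h0 := G.g_pos
  rw [h, sm_add_of _ _ _ _ h1, ← hZ] at hk
  obtain ⟨m, rfl⟩ := hL
  have hL : L ≠ 0 := left_ne_zero_of_mul h0.ne'
  rw [Nat.mul_div_cancel_left _ (Nat.pos_of_ne_zero hL), mul_right_comm] at hk
  exact dvd_log hp hL (Nat.dvd_of_mul_dvd_mul_right
    (Nat.pos_of_ne_zero (right_ne_zero_of_mul h0.ne')) hk)

theorem ub {R : Multiset It} (hR : ∀ j ∈ R, j ∈ I) {sk : L3} {fr c A L : ℕ}
    (h1 : ↑sk.toL = (R.filter It.pr).map It.key) (h2 : fr = (nps R).card) (hL : L ∣ g)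
    (hA : A * (g / L) = 1 + (R.map (wt g)).sum) (hc : ∀ j ∈ R, c ≤ j.c) (h5 : 5 * c ≤ g) :
    ubok sk fr (R.map It.r).sum c A L = true := by
  have h0 := G.g_pos
  have hL0 := Nat.pos_of_dvd_of_pos hL h0
  have hm : 0 < g / L := Nat.div_pos (Nat.le_of_dvd h0 hL) hL0
  rcases R.empty_or_exists_mem with rfl | ⟨j0, hj0⟩
  · obtain ⟨h3, h4⟩ := mul_eq_one.1 (hA.trans (by simp))
    change (A =? 1 ⋏ 5 * c ≤? L) = true
    rw [← Nat.mul_div_cancel' hL, h4, mul_one] at h5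
    simp [brec, h3, h5]
  obtain ⟨n, hn⟩ : ∃ n, (R.map It.r).sum = n + 1 := Nat.exists_eq_add_one.2
    ((G.r_pos j0 (hR j0 hj0)).trans_le (Multiset.single_le_sum (by simp) _
      (Multiset.mem_map_of_mem _ hj0)))
  rw [hn]
  change ub1 sk fr A L mx[c, Nat.succ (L / A)] = true
  rw [mx_eq]
  have hlo : ∀ j ∈ R, max c (L / A).succ ≤ j.c := fun j hj => max_le (hc j hj) (by
    have h3 : wt g j ≤ (R.map (wt g)).sum :=
      Multiset.single_le_sum (by simp) _ (Multiset.mem_map_of_mem _ hj)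
    have h4 : g / j.c ≤ wt g j := Nat.le_mul_of_pos_left _ (G.r_pos j (hR j hj))
    have hA0 : 0 < A := Nat.pos_of_mul_pos_right (b := g / L) (by omega)
    rw [Nat.succ_le_iff, Nat.div_lt_iff_lt_mul hA0]
    refine Nat.lt_of_mul_lt_mul_right (a := g / L) ?_
    rw [Nat.mul_div_cancel' hL, mul_assoc, hA]
    conv_lhs => rw [← Nat.mul_div_cancel' (G.c_dvd (hR j hj))]
    exact Nat.mul_lt_mul_of_pos_left (by omega) (G.c_pos (hR j hj)))
  have hlo0 : 0 < max c (L / A).succ := lt_max_of_lt_right (Nat.succ_pos _)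
  generalize max c (L / A).succ = lo at hlo hlo0
  simp only [ub1, mx_eq]
  simp only [Nat.ble_eq, sumk_eq, ndiv, Nat.mul_eq, Nat.add_eq, Nat.succ_eq_add_one]
  generalize 1125899906842624 = S
  refine Nat.div_le_of_le_mul (Nat.le_of_mul_le_mul_right ?_ hm)
  rw [mul_right_comm, hA, mul_right_comm, Nat.mul_div_cancel' hL, ← Multiset.sum_coe,
    ← Multiset.map_coe, h1, Multiset.map_map, ← Multiset.filter_add_not It.pr R]
  have e1 := sc g S (x := max L (5 * lo)) (c := g) (lt_max_of_lt_left hL0) (max_le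
    (Nat.le_of_dvd h0 hL) ((Nat.mul_le_mul_left _ (hlo j0 hj0)).trans (G.c_le j0 (hR j0 hj0))))
  rw [Nat.div_self h0] at e1
  have e2 : ((R.filter fun j => ¬ j.pr).map (wt g)).sum * S ≤ fr * (S / lo + 1) * g := by
    rw [← Multiset.sum_map_mul_right, h2, nps, Multiset.card_map, mul_assoc, ← smul_eq_mul,
      ← Multiset.card_map fun j => wt g j * S]
    refine Multiset.sum_le_card_nsmul _ _ ?_
    simp only [Multiset.mem_map, Multiset.mem_filter]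
    rintro _ ⟨j, ⟨hj, h3⟩, rfl⟩
    rw [wt, (G.npr j (hR j hj) h3).1, one_mul]
    exact sc g S hlo0 (hlo j hj)
  have e3 : ((R.filter It.pr).map (wt g)).sum * S ≤ ((R.filter It.pr).map fun j =>
      j.r * (S / (((lo - 1) / j.ρ + 1) * j.ρ) + 1)).sum * g := by
    rw [← Multiset.sum_map_mul_right, ← Multiset.sum_map_mul_right]
    refine Multiset.sum_map_le_sum_map _ _ fun j hj => ?_
    have hj := (Multiset.mem_filter.1 hj).1
    rw [wt, mul_assoc, mul_assoc]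
    have h3 := G.ρ_gt j (hR j hj)
    refine Nat.mul_le_mul_left _ (sc g S (by positivity) ?_)
    obtain ⟨k, hk⟩ := G.ρ_dvd j (hR j hj)
    have h4 := hlo j hj
    rw [hk, mul_comm] at h4 ⊢
    refine Nat.mul_le_mul_left _ (Nat.succ_le_of_lt ((Nat.div_lt_iff_lt_mul (by omega)).2 ?_))
    omega
  simp only [Multiset.filter_add_not, Multiset.map_add, Multiset.sum_add, Function.comp_def, It.key]
  rw [← Multiset.filter_add_not It.pr R]
  simp only [Multiset.map_add, Multiset.sum_add, Multiset.filter_add, Multiset.filter_filter,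
    and_self, and_not_self, Multiset.filter_false, add_zero]
  nlinarith

end Good

/-- The continuation accepts a state that describes the remaining classes. -/
def Next (g : ℕ) (I R : Multiset It) (nx : Nx) : Prop :=
  ∃ sk fr rem cl lk lc A L X Y F ty need chs pend,
    Inv g I R sk fr rem cl lk lc A L X Y F ty need chs pend ∧
      nx sk fr rem cl lk lc A L X Y F ty need chs pend = true

section step

variable {K g : ℕ} {I R : Multiset It} {t : It} {sk : L3} {fr rem : ℕ} {cl : LI}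
  {lk lc A L X Y F : ℕ} {ty : LT} {need : NL} {chs pend : L3} (G : Good K g I)
  (H : Inv g I (t ::ₘ R) sk fr rem cl lk lc A L X Y F ty need chs pend) (hm : ∀ b ∈ R, t.le b)
include H

theorem Inv.mem_t : t ∈ I := H.split ▸ Multiset.mem_add.2 (Or.inr (Multiset.mem_cons_self _ _))

theorem Inv.mem_R {j : It} (h : j ∈ R) : j ∈ I :=
  H.split ▸ Multiset.mem_add.2 (Or.inr (Multiset.mem_cons_of_mem h))

theorem Inv.later {j : It} (h : j ∈ I) (h1 : t.c < j.c ∨ t.c = j.c ∧ j.ρ < t.ρ) : j ∈ R := by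
  rw [H.split, Multiset.mem_add, Multiset.mem_cons] at h
  rcases h with h | rfl | h
  · have := H.ord j h t (Multiset.mem_cons_self _ _)
    unfold It.le at this; omega
  · omega
  · exact h

theorem Inv.split' : I = ↑(LI.cons t.ρ t.r t.h t.c cl).toL + R := by
  rw [H.split, LI.toL, ← Multiset.cons_coe, Multiset.add_cons, Multiset.cons_add]

include hm in
theorem Inv.earlier {j : It} (h : j ∈ I) (h1 : j.c < t.c ∨ j.c = t.c ∧ t.ρ < j.ρ) :
    j ∈ cl.toL := by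
  rw [H.split, Multiset.mem_add, Multiset.mem_cons] at h
  rcases h with h | rfl | h
  · exact h
  · omega
  · have := hm j h
    unfold It.le at this; omega

include G

theorem Inv.parent {p : ℕ} (hp : p.Prime) (h1 : p ∣ t.ρ) (h2 : p ≠ t.ρ) :
    ∃ i ∈ R, i.ρ = t.ρ / p ∧ t.c ∣ i.c ∧ (¬ p * p ∣ t.c → ¬ p * p ∣ i.c) := by
  obtain ⟨i, hi, h3, h4, h5⟩ := G.par t H.mem_t p hp h1 h2
  have := Nat.le_of_dvd (G.c_pos hi) h4
  have := Nat.div_lt_self (zero_lt_one.trans (G.ρ_gt t H.mem_t)) hp.one_lt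
  exact ⟨i, H.later hi (by omega), h3, h4, h5⟩

theorem Inv.upd {p w Z : ℕ} (hp : p = 2 ∨ p = 3) (h1 : L * w ∣ g) (h2 : t.c ∣ L * w)
    (hZ : Z * (g / L) = sm g (p ∣ ·) cl.toL) :
    (Z * w + (if p ∣ t.ρ then 1 else 0) * (L * w / t.c)) * (g / (L * w)) =
      sm g (p ∣ ·) (LI.cons t.ρ t.r t.h t.c cl).toL := by
  have hL := Nat.pos_of_dvd_of_pos H.hL G.g_pos
  rw [LI.toL, ← Multiset.cons_coe, sm_cons, ← hZ, ← div_split (Dvd.intro _ rfl) h1,
    Nat.mul_div_cancel_left _ hL, add_mul, mul_assoc, mul_assoc, div_split h2 h1, add_comm]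
  congr 1
  split_ifs with h
  · rw [wt, (G.npr t H.mem_t fun h3 => ?_).1]
    obtain ⟨h4, h5, -⟩ := G.pr t H.mem_t h3
    have := (Nat.dvd_prime h4).1 h
    omega
  · exact zero_mul _

include hm

theorem tail_of {nx : Nx} {sk2 po pm : L3} {n1 ps qs : NL} {fresh : Bool} {w A2 F2 : ℕ} {ty2 : LT}
    (h1 : ↑sk2.toL = (R.filter It.pr).map It.key) (h2 : ↑n1.toL ≤ nps R)
    (h3 : fresh = true → insk t.ρ sk2 = false ∧ t.ρ ∉ n1.toL)
    (h4 : ∀ e ∈ pm.toL, e ∈ pend.toL ∧ e.1 = t.ρ) (h5 : ∀ e ∈ po.toL, e ∈ pend.toL ∧ e.1 ≠ t.ρ)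
    (h6 : Fit t.ρ ps qs) (h7 : L * w ∣ g) (h8 : t.c ∣ L * w)
    (h9 : A2 * (g / (L * w)) = 1 + (R.map (wt g)).sum)
    (h10 : ∀ p, p.Prime → p ∣ F2 → ¬ p * p ∣ g ∧ p ∣ L * w ∧ ∀ j ∈ R, ¬ p ∣ j.ρ)
    (h11 : ∀ j ∈ R, ¬ j.pr → ∃ b ps qs, (j.ρ, b, ps, qs) ∈ ty2.toL ∧ b ∣ j.c ∧ Fit j.ρ ps qs)
    (h : tail nx cl sk2 chs po pm n1 fresh (nps R).card (R.map It.r).sum t.ρ t.r t.h qs X Y t.c A2
      (L * w) w (L * w / t.c) F2 ty2 = true) : Next g I R nx := by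
  obtain ⟨un, pd, u1, u2, u3⟩ := unsat_spec t.c pm false po
  simp only [tail, frc_eq, u1, ind_eq] at h
  simp only [Nat.add_eq, Nat.mul_eq] at h
  have hX := H.upd G (Or.inl rfl) h7 h8 H.hX
  have hY := H.upd G (Or.inr rfl) h7 h8 H.hY
  generalize X * w + _ = X2 at h hX
  generalize Y * w + _ = Y2 at h hY
  have v1 : ∀ e ∈ pend.toL, (e.1 = t.ρ → ¬ (e.2.1 ∣ t.c ∧ ¬ e.2.2 ∣ t.c)) →
      ∃ j ∈ R, j.ρ = e.1 ∧ e.2.1 ∣ j.c ∧ ¬ e.2.2 ∣ j.c := fun e he h => by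
    obtain ⟨j, hj, h'⟩ := H.hpend e he
    refine ⟨j, (Multiset.mem_cons.1 hj).resolve_left ?_, h'⟩
    rintro rfl
    exact h h'.1.symm h'.2
  obtain ⟨n, n1', n2⟩ : ∃ n : NL, ↑n.toL ≤ nps R ∧ tail2 (nps R).card t.ρ t.c (L * w) X2 Y2 qs chs
      (nx sk2 (nps R).card (R.map It.r).sum (.cons t.ρ t.r t.h t.c cl) t.ρ t.c A2 (L * w) X2 Y2 F2
        ty2) pd n = true := by
    simp only [brec, Nat.ble_eq, llen_eq] at h
    by_cases hu : un = true ∧ fresh = true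
    · obtain ⟨e, he, h12⟩ := (u2 hu.1).resolve_left nofun
      obtain ⟨j, hj, h13, -⟩ := v1 e (h4 e he).1 fun _ => h12
      rw [(h4 e he).2] at h13
      have h14 : ↑(NL.cons t.ρ n1).toL ≤ nps R :=
        (Multiset.cons_le_of_notMem (s := n1.toL) (h3 hu.2).2).2
          ⟨h13 ▸ mem_nps_of h1 hj (h13 ▸ (h3 hu.2).1), h2⟩
      refine ⟨_, h14, ?_⟩
      simpa [hu, show n1.toL.length + 1 ≤ _ from Multiset.card_le_card h14] using h
    · refine ⟨n1, h2, ?_⟩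
      split_ifs at h <;> simp_all
  obtain ⟨chs2, pd2, a1, a2, a3, a4⟩ := addob_spec (ρ := t.ρ) (G.c_pos H.mem_t).ne' qs chs pd
  have hf : frb (nps R).card (L * w) X2 Y2 n = true := by
    simp only [frb, brec, Nat.beq_eq, dv_iff, llen_eq, lprod_eq, nshl, Nat.mul_eq, Nat.pow_eq]
    refine if_ctx_congr Iff.rfl (fun h12 => ?_) (fun _ => rfl) |>.trans (ite_self true)
    have h13 := Multiset.eq_of_le_of_card_le n1' h12.ge
    have key : ∀ p Z, (p = 2 ∨ p = 3) → Z * (g / (L * w)) =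
        sm g (p ∣ ·) (LI.cons t.ρ t.r t.h t.c cl).toL → ¬ p ∣ n.toL.prod →
        L * w ∣ Z * p ^ (L * w).log2 := fun p Z hp hZ hd =>
      G.frob_div (by rcases hp with rfl | rfl <;> norm_num) H.split' (fun j hj hd' => by
        by_cases h14 : j.pr
        · obtain ⟨h15, h16, -⟩ := G.pr j (H.mem_R hj) h14
          have := (Nat.dvd_prime h15).1 hd'
          omega
        · exact hd (hd'.trans (List.dvd_prod (show j.ρ ∈ (n.toL : Multiset ℕ) from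
            h13 ▸ mem_nps.2 ⟨j, hj, h14, rfl⟩)))) h7 hZ
    have k2 := key 2 X2 (Or.inl rfl) hX
    have k3 := key 3 Y2 (Or.inr rfl) hY
    by_cases c2 : 2 ∣ n.toL.prod <;> by_cases c3 : 3 ∣ n.toL.prod <;> simp [c2, c3, k2, k3, dv_iff]
  rw [tail2, hf, a1] at n2
  refine ⟨_, _, _, _, _, _, _, _, _, _, _, _, _, _, _, ⟨H.split', fun a ha b hb => ?_, hm, h1, rfl,
    rfl, n1', fun e he => ?_, fun j hj p hp d1 d2 => ?_, h10, h7, fun j hj => ?_, h9, hX, hY, h11⟩,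
    n2⟩
  · rcases List.mem_cons.1 ha with rfl | ha
    exacts [hm b hb, H.ord a ha b (Multiset.mem_cons_of_mem hb)]
  · rcases a4 e he with he | ⟨p, hp, rfl⟩
    · rcases u3 e he with he | ⟨he, h12⟩
      exacts [v1 e (h5 e he).1 fun h => absurd h (h5 e he).2, v1 e (h4 e he).1 fun _ => h12]
    · obtain ⟨q1, q2, q3⟩ := h6.hqs p hp
      obtain ⟨i, hi, h12, h13, h14⟩ := H.parent G q1 q2 q3
      refine ⟨i, hi, h12, h13, ?_⟩
      dsimp only
      split_ifs with h15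
      exacts [by simpa using (G.c_pos (H.mem_R hi)).ne', h14 h15]
  · rcases List.mem_cons.1 hj with rfl | hj
    · exact a3 p (h6.co p hp d1 d2) hp.ne_one
    · obtain ⟨e, he, h12⟩ := H.hchs j hj p hp d1 d2
      exact ⟨e, a2 e he, h12⟩
  · rcases List.mem_cons.1 hj with rfl | hj
    exacts [h8, (H.hcL j hj).mul_right w]

theorem s2_of {ps qs : NL} {w : ℕ} (h6 : Fit t.ρ ps qs) (h7 : L * w ∣ g) (h8 : t.c ∣ L * w)
    {k : ℕ → LT → Bool} (h : s2 K cl t.ρ t.r t.h qs F ty t.c (L * w) (L * w / t.c) k = true) :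
    ∃ F2 ty2, (∀ p, p.Prime → p ∣ F2 → ¬ p * p ∣ g ∧ p ∣ L * w ∧ ∀ j ∈ R, ¬ p ∣ j.ρ) ∧
      (∀ j ∈ R, ¬ j.pr → ∃ b ps qs, (j.ρ, b, ps, qs) ∈ ty2.toL ∧ b ∣ j.c ∧ Fit j.ρ ps qs) ∧
      k F2 ty2 = true := by
  have e1 : ∀ p, p.Prime → p ∣ F → ¬ p * p ∣ g ∧ p ∣ L * w ∧ ∀ j ∈ R, ¬ p ∣ j.ρ := fun p hp hd =>
    ⟨(H.hF p hp hd).1, (H.hF p hp hd).2.1.mul_right w,
      fun j hj => (H.hF p hp hd).2.2 j (Multiset.mem_cons_of_mem hj)⟩
  have e2 := fun j (hj : j ∈ R) => H.hty j (Multiset.mem_cons_of_mem hj)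
  cases qs with
  | cons q qs => exact ⟨F, ty, e1, e2, h⟩
  | nil =>
    have hp := h6.pr rfl
    change (iff Nat.mul t.ρ t.ρ ∣? t.c ▹ k F ty els s2a K cl t.ρ t.r t.h F ty _ _ k) = true at h
    simp only [brec, Nat.beq_eq, dv_iff, Nat.mul_eq] at h
    split_ifs at h with h1
    · exact ⟨F, ty, e1, e2, h⟩
    obtain ⟨h2, h3, h4, h5⟩ := G.s2 t (↑cl.toL + R) (by rw [H.split, Multiset.add_cons]) hp h1
    have e3 : ∀ j ∈ R, ¬ t.ρ ∣ j.ρ := fun j hj hd => by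
      obtain ⟨h9, h10⟩ := h5 j (Multiset.mem_add.2 (Or.inr hj)) hd
      have := Nat.le_of_dvd (G.c_pos H.mem_t) h9
      have := Nat.le_of_dvd (zero_lt_one.trans (G.ρ_gt j (H.mem_R hj))) hd
      have := hm j hj
      unfold It.le at this; omega
    obtain ⟨ty2, f1, -, f2⟩ := filty_spec t.ρ ty .nil
    have e4 : L * w ∣ (t.r * (L * w / t.c) + sumd t.ρ (L * w) cl) * t.ρ ^ (L * w).log2 := by
      refine G.frob_div hp H.split' e3 h7 ?_
      rw [LI.toL, ← Multiset.cons_coe, sm_cons, if_pos dvd_rfl, add_mul, mul_assoc, div_split h8 h7,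
        sumd_eq, sm, Multiset.map_coe, Multiset.sum_coe, ← List.sum_map_mul_right]
      congr 2
      refine List.map_congr_left fun j hj => ?_
      split_ifs
      · rw [mul_assoc, div_split ((H.hcL j hj).mul_right w) h7, wt]
      · exact zero_mul _
    refine ⟨F * t.ρ, ty2, fun p hp' hd => ?_, fun j hj h9 => ?_, ?_⟩
    · rcases (Nat.Prime.dvd_mul hp').1 hd with hd | hd
      · exact e1 p hp' hd
      · rw [(Nat.prime_dvd_prime_iff_eq hp' hp).1 hd]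
        exact ⟨h2, (G.ρ_dvd t H.mem_t).trans h8, e3⟩
    · obtain ⟨b, ps, qs, h10, h11⟩ := e2 j hj h9
      exact ⟨b, ps, qs, f2 _ h10 (e3 j hj), h11⟩
    · simp only [s2a, brec, Nat.beq_eq, dv_iff, Nat.mul_eq, Nat.add_eq, Nat.pow_eq, f1, if_pos e4]
        at h
      split_ifs at h <;> simp_all

theorem cand_of {nx : Nx} {sk2 po pm : L3} {n1 ps qs : NL} {fresh : Bool}
    (h1 : ↑sk2.toL = (R.filter It.pr).map It.key) (h2 : ↑n1.toL ≤ nps R)
    (h3 : fresh = true → insk t.ρ sk2 = false ∧ t.ρ ∉ n1.toL)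
    (h4 : ∀ e ∈ pm.toL, e ∈ pend.toL ∧ e.1 = t.ρ) (h5 : ∀ e ∈ po.toL, e ∈ pend.toL ∧ e.1 ≠ t.ρ)
    (h6 : Fit t.ρ ps qs)
    (h : cand A L t.r t.h F (ubok sk2 (nps R).card (R.map It.r).sum) (s2 K cl t.ρ t.r t.h qs F ty)
      (tail nx cl sk2 chs po pm n1 fresh (nps R).card (R.map It.r).sum t.ρ t.r t.h qs X Y) t.c =
        true) : Next g I R nx := by
  simp only [cand, frc_eq, Nat.mul_eq, ndiv, Nat.sub_eq] at h
  have e1 : L * (t.c * t.h / L.gcd (t.c * t.h)) = L.lcm (t.c * t.h) := by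
    rw [Nat.lcm, Nat.mul_div_assoc _ (Nat.gcd_dvd_right _ _)]
  have h7 := e1 ▸ Nat.lcm_dvd H.hL (G.ch t H.mem_t)
  have h8 := e1 ▸ (Dvd.intro _ rfl).trans (Nat.dvd_lcm_right L (t.c * t.h))
  generalize t.c * t.h / L.gcd (t.c * t.h) = w at h h7 h8
  have e2 : w.gcd F = 1 := Nat.eq_one_iff_not_exists_prime_dvd.2 fun p hp hd => by
    obtain ⟨h9, h10, -⟩ := H.hF p hp (hd.trans (Nat.gcd_dvd_right _ _))
    exact h9 ((Nat.mul_dvd_mul h10 (hd.trans (Nat.gcd_dvd_left _ _))).trans h7)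
  have h9 : (A * w - t.r * (L * w / t.c)) * (g / (L * w)) = 1 + (R.map (wt g)).sum := by
    have := H.hA
    rw [← div_split (Dvd.intro _ rfl) h7,
      Nat.mul_div_cancel_left _ (Nat.pos_of_dvd_of_pos H.hL G.g_pos), Multiset.map_cons,
      Multiset.sum_cons, wt, ← div_split h8 h7, ← mul_assoc, ← mul_assoc] at this
    rw [Nat.sub_mul]
    omega
  rw [e2, G.ub (fun _ => H.mem_R) h1 rfl h7 h9 (fun j hj => by
    have := hm j hj; unfold It.le at this; omega) (G.c_le t H.mem_t)] at h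
  obtain ⟨F2, ty2, h10, h11, h12⟩ := s2_of G H hm h6 h7 h8 h
  exact tail_of G H hm h1 h2 h3 h4 h5 h6 h7 h8 h9 h10 h11 h12

theorem opt2_of {nx : Nx} {sk2 po pm : L3} {n1 ps qs : NL} {fresh : Bool} {B b : ℕ}
    (h1 : ↑sk2.toL = (R.filter It.pr).map It.key) (h2 : ↑n1.toL ≤ nps R)
    (h3 : fresh = true → insk t.ρ sk2 = false ∧ t.ρ ∉ n1.toL)
    (h4 : ∀ e ∈ pm.toL, e ∈ pend.toL ∧ e.1 = t.ρ) (h5 : ∀ e ∈ po.toL, e ∈ pend.toL ∧ e.1 ≠ t.ρ)
    (h6 : Fit t.ρ ps qs) (hb : b ∣ t.c) (hB : t.c ≤ B)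
    (h : opt2 K nx cl ty chs F rem A L X Y lc lk B (nps R).card sk2 t.ρ t.r t.h ps qs n1 fresh
      pm po b = true) : Next g I R nx := by
  have hc := G.c_pos H.mem_t
  have e1 : Nat.sub rem t.r = (R.map It.r).sum := by simp [H.hrem]
  simp only [opt2, opt3, brec, Nat.ble_eq, (Nat.le_of_dvd hc hb).trans hB, if_true, smo_eq, e1,
    mx_eq] at h
  obtain ⟨y, y1, y2, y3⟩ := enu_of (· ∈ ps.toL) hc.ne' hB chs hb (fun q hq hd => by
    by_cases h7 : q ∣ t.ρ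
    · exact Or.inl (h6.hps q hq h7)
    obtain ⟨i, hi, h8, h9, h10⟩ := G.child t H.mem_t q hq hd h7
    have h11 := G.ρ_gt t H.mem_t
    have h12 : t.ρ < t.ρ * q := lt_mul_of_one_lt_right (by omega) hq.one_lt
    have h13 : q < t.ρ * q := lt_mul_of_one_lt_left hq.pos h11
    have := Nat.le_of_dvd hc h9
    obtain ⟨e, he, h14, h15, h16, h17⟩ := H.hchs i (H.earlier hm hi (by omega)) q hq
      (h8 ▸ Dvd.intro_left _ rfl) (by omega)
    refine Or.inr ⟨e, he, by rw [h14, h8, Nat.mul_div_cancel _ hq.pos], h15, h16.trans h9, ?_⟩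
    rw [← div_split h16 h9, Nat.Prime.dvd_mul hq]
    tauto) h
  have h7 := smoF_of ps y (t.c / y) (Nat.div_pos (Nat.le_of_dvd hc y1)
    (Nat.pos_of_dvd_of_pos y1 hc)).ne' (by rwa [Nat.mul_div_cancel' y1]) y2 y3
  rw [Nat.mul_div_cancel' y1, if_pos (max_le ?_ ?_)] at h7
  · exact cand_of G H hm h1 h2 h3 h4 h5 h6 h7
  · have := H.low t (Multiset.mem_cons_self _ _)
    simp only [Nat.add_eq, Nat.sub_eq]
    omega
  · have h8 := H.hA
    rw [Multiset.map_cons, Multiset.sum_cons, wt] at h8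
    have hA0 : 0 < A := Nat.pos_of_mul_pos_right (b := g / L) (by omega)
    have h0 := G.g_pos
    rw [Nat.succ_le_iff, ndiv, Nat.div_lt_iff_lt_mul hA0, Nat.mul_eq]
    refine Nat.lt_of_mul_lt_mul_right (a := g / L) ?_
    rw [mul_assoc, Nat.mul_div_cancel' H.hL, mul_assoc, h8]
    conv_lhs => rw [← Nat.mul_div_cancel' (G.c_dvd H.mem_t), mul_left_comm]
    exact Nat.mul_lt_mul_of_pos_left (by omega) hc

theorem opt_of {nx : Nx} {sk2 : L3} {nd ps qs : NL} {B b : ℕ}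
    (h1 : ↑sk2.toL = (R.filter It.pr).map It.key) (h2 : ↑nd.toL ≤ nps R)
    (h6 : Fit t.ρ ps qs) (hb : b ∣ t.c) (hB : t.c ≤ B)
    (h : opt K nx cl ty chs pend F rem A L X Y lc lk B (nps R).card sk2 t.ρ t.r t.h b ps qs nd =
      true) : Next g I R nx := by
  obtain ⟨n1, a1, a2⟩ := addp_spec t.ρ sk2 qs nd
  replace a2 := a2 _ h2 fun p hp h3 => by
    obtain ⟨q1, q2, q3⟩ := h6.hqs p hp
    obtain ⟨i, hi, h4, -⟩ := H.parent G q1 q2 q3
    exact h4 ▸ mem_nps_of h1 hi (h4 ▸ h3)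
  obtain ⟨pm, po, s1, s2, s3⟩ := spl_spec t.ρ pend .nil .nil
  replace s2 := fun e he => (s2 e he).resolve_left nofun
  replace s3 := fun e he => (s3 e he).resolve_left nofun
  simp only [opt, a1, opt1, s1, brec, Nat.ble_eq, Nat.beq_eq, llen_eq, lmem_iff, ldvd_iff] at h
  have a3 : n1.toL.length ≤ (nps R).card := Multiset.card_le_card a2
  simp only [if_pos a3] at h
  split_ifs at h with c1 c2 c3 c4 c5
  · exact opt2_of (fresh := false) G H hm h1 a2 nofun s2 s3 h6 hb hB h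
  · exact opt2_of (fresh := false) G H hm h1 a2 nofun s2 s3 h6 hb hB h
  all_goals try
    have h7 : ↑(NL.cons t.ρ n1).toL ≤ nps R := by
      obtain ⟨d, hd, h7⟩ := c2
      obtain ⟨j, hj, -, rfl⟩ := mem_nps.1 (Multiset.mem_of_le a2 hd)
      obtain ⟨i, hi, h8, h9⟩ := G.anc j (H.mem_R hj) t.ρ h7 (G.ρ_gt t H.mem_t)
      have := Nat.le_of_dvd (G.c_pos hi) h9
      have := Nat.le_of_dvd (zero_lt_one.trans (G.ρ_gt j (H.mem_R hj))) h7
      have : j.ρ ≠ t.ρ := fun e => c3 (e ▸ hd)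
      have h10 := hm j hj
      unfold It.le at h10
      exact (Multiset.cons_le_of_notMem (s := n1.toL) c3).2
        ⟨h8 ▸ mem_nps_of h1 (H.later hi (by omega)) (by simpa [h8] using c1), a2⟩
  · exact opt2_of (fresh := false) G H hm h1 h7 nofun s2 s3 h6 hb hB h
  · exact absurd (Multiset.card_le_card h7) c4
  all_goals have h8 : insk t.ρ sk2 = false ∧ t.ρ ∉ n1.toL :=
    ⟨by simpa using c1, fun h => c2 ⟨_, h, dvd_rfl⟩⟩
  · obtain ⟨y, y1, y2⟩ := lcmAll_spec pm b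
    rw [y1] at h
    refine opt2_of G H hm h1 a2 (fun _ => h8) s2 s3 h6 (y2 _ hb fun e he => ?_) hB h
    obtain ⟨j, hj, h9, h10, -⟩ := H.hpend e (s2 e he).1
    rcases Multiset.mem_cons.1 hj with rfl | hj
    · exact h10
    · rw [(s2 e he).2] at h9
      have := mem_nps_of h1 hj (h9 ▸ h8.1)
      rw [← Multiset.eq_of_le_of_card_le a2 c5.ge, h9] at this
      exact absurd this h8.2
  · exact opt2_of G H hm h1 a2 (fun _ => h8) s2 s3 h6 hb hB h

theorem loops_of {nx : Nx} {P : NL} (hP : ∀ p ∈ P.toL, p.Prime)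
    (hP' : ∀ q, q.Prime → q ∣ g → q ∈ P.toL) {B : ℕ} (hB : t.c ≤ B)
    (h : loops P F fr sk ty need (opt K nx cl ty chs pend F rem A L X Y lc lk) B = true) :
    Next g I R nx := by
  have hc := G.c_pos H.mem_t
  have hF : t.ρ.gcd F = 1 := Nat.eq_one_iff_not_exists_prime_dvd.2 fun p hp hd =>
    (H.hF p hp (hd.trans (Nat.gcd_dvd_right _ _))).2.2 t (Multiset.mem_cons_self _ _)
      (hd.trans (Nat.gcd_dvd_left _ _))
  have hρ := G.ρ_dvd t H.mem_t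
  simp only [loops, brec] at h
  split_ifs at h with h1
  by_cases hp : t.pr
  · have e1 : nps (t ::ₘ R) = nps R := by simp [nps, hp]
    have e2 := H.hsk
    rw [Multiset.filter_cons_of_pos _ hp, Multiset.map_cons] at e2
    obtain ⟨sk2, h2, h3⟩ := ez_of (ρ := t.ρ) (r := t.r) (h := t.h) ((Nat.le_of_dvd hc hρ).trans hB)
      hF sk (fun e he h2 h3 => by
        obtain ⟨j, hj, rfl⟩ := Multiset.mem_map.1 (H.hsk ▸ Multiset.mem_coe.2 he)
        obtain ⟨hj, h4⟩ := Multiset.mem_filter.1 hj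
        have h5 := (G.pr j (H.split ▸ Multiset.mem_add.2 (Or.inr hj)) h4).2.2
        have h6 := (G.pr t H.mem_t hp).2.2
        simp only [It.key] at h2 h3 ⊢
        rw [h2, h3, ← h6] at h5
        exact Nat.eq_of_mul_eq_mul_left (G.r_pos t H.mem_t) (by omega)) 0 0 .nil
      (Multiset.mem_coe.1 (e2 ▸ Multiset.mem_cons_self _ _))
      (fun h => by have := G.ρ_gt t H.mem_t; omega) h1
    rw [H.hfr, e1] at h3
    rw [e2] at h2
    exact opt_of G H hm ((Multiset.cons_inj_right _).1 (h2.trans (add_zero _))) (e1 ▸ H.hneed)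
      (Fit.prime (G.pr t H.mem_t hp).1) hρ hB h3
  · have e1 : nps (t ::ₘ R) = t.ρ ::ₘ nps R := by simp [nps, hp]
    have e2 := H.hsk
    rw [Multiset.filter_cons_of_neg _ hp] at e2
    have e3 := H.hneed
    obtain ⟨r1, r2, r3⟩ := G.npr t H.mem_t hp
    rw [H.hfr, e1, Multiset.card_cons] at h
    rw [e1] at e3
    simp only [Nat.ble_eq, llen_eq] at h
    split_ifs at h with h2
    · obtain ⟨b, ps, qs, h3, h4, h5⟩ := H.hty t (Multiset.mem_cons_self _ _) hp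
      obtain ⟨nd, h6, h7⟩ := lers_spec t.ρ need .nil
      have h8 := et_of ((Nat.le_of_dvd hc h4).trans hB) ty h3 h
      rw [h7] at h8
      exact opt_of G H hm e2 (h6.trans_le ((add_zero _).trans_le
        (Multiset.erase_le_iff_le_cons.2 e3))) h5 h4 hB (by rw [r1, r2]; exact h8)
    · obtain ⟨b, ps, qs, h3, h4⟩ := mkty_spec P t.ρ
      obtain ⟨h4, h5⟩ := h4 hP (fun q hq hd => hP' q hq (hd.trans (hρ.trans (G.c_dvd H.mem_t))))
        (G.ρ_gt t H.mem_t)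
      have h6 : b ∣ t.c := by
        rcases h5 with rfl | ⟨h5, h6, rfl⟩
        exacts [hρ, r3 h5 h6]
      have h7 := Multiset.eq_of_le_of_card_le e3 (by simpa using h2)
      obtain ⟨nd, h8, h9⟩ := en_of h3 ((Nat.le_of_dvd hc h6).trans hB) hF need .nil
        (Multiset.mem_coe.1 (h7 ▸ Multiset.mem_cons_self _ _)) nofun h
      rw [h7] at h8
      exact opt_of G H hm e2 ((Multiset.cons_inj_right _).1 (h8.trans (add_zero _))).le h4 h6 hB
        (by rw [r1, r2]; exact h9)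

theorem bound_of : t.c ≤ if A ≤ 1 then (5 * rem + 1) * L / (5 * A) else
    min ((5 * rem + 1) * L / (5 * A)) (rem * L / (A - 1)) := by
  have h0 := G.g_pos
  have hc := G.c_pos H.mem_t
  have hm0 : 0 < g / L := Nat.div_pos (Nat.le_of_dvd h0 H.hL) (Nat.pos_of_dvd_of_pos H.hL h0)
  have h1 : ((t ::ₘ R).map (wt g)).sum * t.c ≤ rem * g := by
    rw [H.hrem, ← Multiset.sum_map_mul_right, ← Multiset.sum_map_mul_right]
    refine Multiset.sum_map_le_sum_map _ _ fun j hj => ?_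
    rw [wt, mul_assoc]
    refine Nat.mul_le_mul_left _ ((Nat.mul_le_mul_left _ ?_).trans (Nat.div_mul_le_self g j.c))
    rcases Multiset.mem_cons.1 hj with rfl | hj
    · rfl
    · have := hm j hj; unfold It.le at this; omega
  have h2 := H.hA
  have h3 := G.c_le t H.mem_t
  have h4 := Nat.mul_div_cancel' H.hL
  have hA0 : 0 < A := Nat.pos_of_mul_pos_right (b := g / L) (by omega)
  generalize ((t ::ₘ R).map (wt g)).sum = s at h1 h2
  generalize g / L = m at h2 h4 hm0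
  have e1 : t.c ≤ (5 * rem + 1) * L / (5 * A) := by
    refine (Nat.le_div_iff_mul_le (by omega)).2 (Nat.le_of_mul_le_mul_right ?_ hm0)
    rw [mul_assoc, mul_assoc, mul_assoc, h2, h4]
    nlinarith
  split_ifs with h5
  · exact e1
  · obtain ⟨A, rfl⟩ : ∃ a, A = a + 1 := ⟨A - 1, by omega⟩
    refine le_min e1 ((Nat.le_div_iff_mul_le (by omega)).2 (Nat.le_of_mul_le_mul_right ?_ hm0))
    rw [Nat.add_sub_cancel, mul_assoc, mul_assoc, h4]
    nlinarith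

end step

theorem exists_min {R : Multiset It} (h : R ≠ 0) : ∃ t R', R = t ::ₘ R' ∧ ∀ b ∈ R', t.le b := by
  obtain ⟨t, h1, h2⟩ := Finset.exists_min_image R.toFinset
    (fun j => toLex (j.c, OrderDual.toDual j.ρ)) (Multiset.toFinset_nonempty.2 h)
  obtain ⟨R', rfl⟩ := Multiset.exists_cons_of_mem (Multiset.mem_toFinset.1 h1)
  exact ⟨t, R', rfl, fun b hb => by
    simpa [Prod.Lex.toLex_le_toLex, It.le] using h2 b (by simp [hb])⟩

theorem node_of {K g : ℕ} {I : Multiset It} (G : Good K g I) {P : NL} (hP : ∀ p ∈ P.toL, p.Prime)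
    (hP' : ∀ q, q.Prime → q ∣ g → q ∈ P.toL) {leaf : ℕ → LI → Bool} (n : ℕ) :
    ∀ R, Next g I R (node K P leaf n) → ∃ cl : LI, I = ↑cl.toL ∧ leaf g cl = true := by
  induction n with
  | zero => rintro R ⟨_, _, _, _, _, _, _, _, _, _, _, _, _, _, _, -, h⟩; exact nomatch h
  | succ n ih =>
    rintro R ⟨sk, fr, rem, cl, lk, lc, A, L, X, Y, F, ty, need, chs, pend, H, h⟩
    change body K P leaf (node K P leaf n) sk fr rem cl lk lc A L X Y F ty need chs pend = true at h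
    by_cases h0 : R = 0
    · subst h0
      obtain rfl : rem = 0 := H.hrem
      have e1 : I = ↑cl.toL := H.split.trans (add_zero _)
      obtain rfl : L = g := by
        rw [← Nat.mul_div_cancel' H.hL, (mul_eq_one.1 (H.hA.trans (by simp))).2, mul_one]
      change (frob L cl P ⇛ leaf L cl) = true at h
      rw [frob_of fun p hp => by
        have := G.f1 p (hP p hp) 40
        rwa [sume_eq, ← Multiset.sum_coe, ← Multiset.map_coe, ← e1]] at h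
      exact ⟨cl, e1, h⟩
    · obtain ⟨t, R, rfl, hm⟩ := exists_min h0
      obtain ⟨m, hm'⟩ : ∃ m, rem = m + 1 := Nat.exists_eq_add_one.2 (by
        have := G.r_pos t H.mem_t
        rw [H.hrem, Multiset.map_cons, Multiset.sum_cons]; omega)
      have : bound rem A L (loops P F fr sk ty need
          (opt K (node K P leaf n) cl ty chs pend F rem A L X Y lc lk)) = true := by
        subst hm'; exact h
      rw [bound_eq] at this
      exact ih R (loops_of G H hm hP hP' (bound_of G H hm) this)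

end CF.KCl
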