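import Mathlib
import Cfsg.Agent.KCl.So
import Cfsg.Agent.Small.Tab
import Cfsg.Agent.Fgs2.FrobCount

/-! The items attached to the classes of a finite group. -/

set_option autoImplicit false

namespace CF.KCl

open Subgroup CF.Small CF.BlockB

theorem primeFactors_rad (d : ℕ) : (rad d).primeFactors = d.primeFactors :=
  Nat.primeFactors_prod_primeFactors d

theorem rad_dvd (d : ℕ) : rad d ∣ d := Nat.prod_primeFactors_dvd d

theorem rad_ne_zero (d : ℕ) : rad d ≠ 0 :=
  Finset.prod_ne_zero_iff.2 fun _ h => (Nat.prime_of_mem_primeFactors h).ne_zero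

theorem dvd_rad {p d : ℕ} (hp : p.Prime) (hd : d ≠ 0) : p ∣ rad d ↔ p ∣ d := by
  simpa [hp, hd, rad_ne_zero d] using congrArg (p ∈ ·) (primeFactors_rad d)

theorem sqf_rad (d : ℕ) : Squarefree (rad d) :=
  Finset.squarefree_prod_of_pairwise_isCoprime (fun _ hp _ hq h => Nat.coprime_iff_isRelPrime.1
    ((Nat.coprime_primes (Nat.prime_of_mem_primeFactors hp) (Nat.prime_of_mem_primeFactors hq)).2 h))
    fun _ h => (Nat.prime_of_mem_primeFactors h).prime.squarefree

theorem rad_pow {p k : ℕ} (hp : p.Prime) (hk : k ≠ 0) : rad (p ^ k) = p := by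
  simp [rad, Nat.primeFactors_prime_pow hk hp]

theorem rad_mul {p k m : ℕ} (hp : p.Prime) (hk : k ≠ 0) (h : ¬ p ∣ m) :
    rad (m * p ^ k) = rad m * p := by
  have h1 := (((Nat.Prime.coprime_iff_not_dvd hp).2 h).pow_left k).symm
  rw [rad, h1.primeFactors_mul, Finset.prod_union h1.disjoint_primeFactors, ← rad, ← rad,
    rad_pow hp hk]

theorem eq_pow_of_rad {p d : ℕ} (hp : p.Prime) (hd : d ≠ 0) (h : rad d = p) :
    ∃ k, k ≠ 0 ∧ d = p ^ k := by
  have h1 := Nat.eq_prime_pow_of_unique_prime_dvd hd (p := p) fun {q} hq h1 =>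
    (Nat.prime_dvd_prime_iff_eq hq hp).1 (h ▸ (dvd_rad hq hd).2 h1)
  refine ⟨_, fun h2 => hp.ne_one ?_, h1⟩
  rw [h2, pow_zero] at h1
  rw [← h, h1]; simp [rad]

variable {G : Type*} [Group G] [Finite G]

noncomputable def cen (x : G) : ℕ := Nat.card (centralizer ({x} : Set G))

def isP (x : G) : Prop := (orderOf x).Prime ∧ 5 ≤ orderOf x

open _root_.Classical in
noncomputable def item (x : G) : It :=
  ⟨rad (orderOf x), if isP x then (orderOf x - 1) / autIdx (zpowers x) else 1,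
    if isP x then autIdx (zpowers x) else 1, cen x⟩

def rel (x y : G) : Prop := ∃ z, IsConj x z ∧ zpowers z = zpowers y ∧ (isP x ∨ z = y)

theorem cen_dvd (x : G) : cen x ∣ Nat.card G := card_subgroup_dvd_card _

theorem cen_pos (x : G) : 0 < cen x := Nat.card_pos

theorem ord_dvd_cen (x : G) : orderOf x ∣ cen x :=
  orderOf_dvd_natCard _ (mem_centralizer_singleton_iff.2 rfl)

theorem cen_dvd_of {x y : G} (h : y ∈ zpowers x) : cen x ∣ cen y :=
  card_dvd_of_le (centralizer_zpowers x ▸ centralizer_le (Set.singleton_subset_iff.2 h))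

theorem cen_conj {x y : G} (h : IsConj x y) : cen x = cen y := Invol.card_centralizer_eq_of_isConj h

omit [Finite G] in
theorem ord_conj {x y : G} (h : IsConj x y) : orderOf x = orderOf y := by
  obtain ⟨c, rfl⟩ := isConj_iff.1 h
  exact ((MulAut.conj c).orderOf_eq x).symm

omit [Finite G] in
theorem ord_zp {x y : G} (h : zpowers x = zpowers y) : orderOf x = orderOf y := by
  rw [← Nat.card_zpowers, h, Nat.card_zpowers]

theorem aut_mul (x : G) : autIdx (zpowers x) * cen x = Nat.card (normalizer (zpowers x : Set G)) := by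
  rw [cen, ← centralizer_zpowers, autIdx_mul_card_centralizer]

theorem aut_conj {x y : G} (h : IsConj x y) : autIdx (zpowers x) = autIdx (zpowers y) := by
  refine Nat.eq_of_mul_eq_mul_right (cen_pos x) ?_
  rw [aut_mul, cen_conj h, aut_mul]
  obtain ⟨c, rfl⟩ := isConj_iff.1 h
  rw [← card_map_of_injective (f := (MulAut.conj c).toMonoidHom) (MulAut.conj c).injective,
    map_equiv_normalizer_eq, MonoidHom.map_zpowers]
  rfl

omit [Finite G] in
theorem rel.ord {x y : G} (h : rel x y) : orderOf x = orderOf y := by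
  obtain ⟨z, h1, h2, -⟩ := h
  rw [ord_conj h1, ord_zp h2]

theorem rel.item {x y : G} (h : rel x y) : item x = item y := by
  have h0 := h.ord
  obtain ⟨z, h1, h2, -⟩ := h
  have h4 : cen z = cen y := by rw [cen, cen, ← centralizer_zpowers, h2, centralizer_zpowers]
  have h5 : isP x = isP y := by rw [isP, h0, isP]
  rw [KCl.item, h5, h0, aut_conj h1, h2, cen_conj h1, h4, KCl.item]

omit [Finite G] in
theorem rel_of_conj {x y : G} (h : IsConj x y) : rel x y := ⟨y, h, rfl, Or.inr rfl⟩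

omit [Finite G] in
theorem zp_conj {x y : G} (h : zpowers x = zpowers y) (c : G) :
    zpowers (c * x * c⁻¹) = zpowers (c * y * c⁻¹) := by
  rw [← MulAut.conj_apply, ← MonoidHom.coe_coe, ← MonoidHom.map_zpowers, h, MonoidHom.map_zpowers]
  rfl

variable (G) in
def cls : Setoid G where
  r := rel
  iseqv := ⟨fun _ => rel_of_conj (IsConj.refl _), fun {x y} h => by
    have h0 := h.ord
    obtain ⟨z, h1, h2, h3⟩ := h
    obtain ⟨c, rfl⟩ := isConj_iff.1 h1.symm
    exact ⟨c * y * c⁻¹, isConj_iff.2 ⟨c, rfl⟩, zp_conj h2.symm c,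
      h3.imp (by simp only [isP, h0]; exact id) fun e => by rw [e]⟩, fun {x y w} h h' => by
    have h0 := h.ord
    obtain ⟨z, h1, h2, h3⟩ := h
    obtain ⟨z', h1', h2', h3'⟩ := h'
    obtain ⟨c, rfl⟩ := isConj_iff.1 h1'
    refine ⟨c * z * c⁻¹, h1.trans (isConj_iff.2 ⟨c, rfl⟩), (zp_conj h2 c).trans h2', ?_⟩
    rcases h3 with h3 | rfl
    · exact Or.inl h3
    · exact h3'.imp (by simp only [isP, h0]; exact id) id⟩

theorem zp_eq {x y : G} (hx : (orderOf x).Prime) (h : y ∈ zpowers x) (h1 : y ≠ 1) :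
    zpowers y = zpowers x := by
  refine eq_of_le_of_card_ge (zpowers_le.2 h) ?_
  rw [Nat.card_zpowers, Nat.card_zpowers]
  exact ((hx.eq_one_or_self_of_dvd _ (orderOf_dvd_of_mem_zpowers h)).resolve_left
    (mt orderOf_eq_one_iff.1 h1)).ge

theorem card_rel (x : G) : {y | rel x y}.ncard = wt (Nat.card G) (item x) := by
  have h0 := card_centralizer_mul_card_isConj x
  by_cases h : isP x
  swap
  · simp only [wt, item, if_false, one_mul, rel, h, false_or]
    rw [← h0, cen, Nat.mul_div_cancel_left _ Nat.card_pos]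
    refine congrArg Set.ncard (?_ : _ = {y | IsConj x y})
    exact Set.ext fun y => ⟨fun ⟨z, h1, _, e⟩ => e ▸ h1, fun h1 => ⟨y, h1, rfl, rfl⟩⟩
  have h1 := Fgs2.ncard_eq_mul_of_fibers (Set.univ ×ˢ ((zpowers x : Set G) \ {1})) (Set.toFinite _)
    (fun s : G × G => s.1 * s.2 * s.1⁻¹) (Nat.card (normalizer (zpowers x : Set G))) (by
      rintro ⟨g, u⟩ ⟨-, hu, hu1⟩
      rw [← Nat.card_coe_set_eq]
      refine Nat.card_congr ⟨fun s => ⟨g⁻¹ * s.1.1, ?_⟩, fun n => ⟨(g * n, n⁻¹ * u * n), ?_⟩,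
        ?_, fun n => by simp⟩
      · obtain ⟨⟨g', u'⟩, ⟨-, hv, hv1⟩, e⟩ := s
        have h2 := zp_conj ((zp_eq h.1 hv hv1).symm) (g⁻¹ * g')
        rw [show g⁻¹ * g' * u' * (g⁻¹ * g')⁻¹ = u by
          simp only at e; rw [mul_inv_rev, inv_inv]; calc
            _ = g⁻¹ * (g' * u' * g'⁻¹) * g := by group
            _ = u := by rw [e]; group, zp_eq h.1 hu hu1, ← MulAut.conj_apply, ← MonoidHom.coe_coe,
          ← MonoidHom.map_zpowers] at h2
        exact mem_normalizer_iff_map_conj_eq.2 h2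
      · exact ⟨⟨trivial, by simpa using (mem_normalizer_iff''.1 n.2 u).1 hu,
          by simpa [mul_eq_one_iff_eq_inv] using hu1⟩, by simp [mul_assoc]⟩
      · rintro ⟨⟨g', u'⟩, h3, e⟩
        simp only at e
        simp only [Subtype.mk.injEq, Prod.mk.injEq, mul_inv_cancel_left, true_and]
        calc _ = g'⁻¹ * (g * u * g⁻¹) * g' := by simp [mul_assoc]
          _ = u' := by rw [← e]; group)
  rw [Set.ncard_prod, Set.ncard_univ, Set.ncard_sdiff_singleton_of_mem (one_mem _),
    ← Nat.card_coe_set_eq, SetLike.coe_sort_coe, Nat.card_zpowers, ← aut_mul,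
    show _ '' _ = {y | rel x y} from Set.ext fun y => ⟨by
      rintro ⟨⟨g, u⟩, ⟨-, hu, hu1⟩, rfl⟩
      exact ⟨g * x * g⁻¹, isConj_iff.2 ⟨g, rfl⟩, zp_conj (zp_eq h.1 hu hu1).symm g, Or.inl h⟩,
      fun hy => by
      obtain ⟨z, h2, h3, -⟩ := (cls G).symm' hy
      obtain ⟨g, rfl⟩ := isConj_iff.1 h2.symm
      refine ⟨(g, z), ⟨trivial, h3 ▸ mem_zpowers z, fun e => h.1.ne_one ?_⟩, rfl⟩
      rw [← ord_zp h3, orderOf_eq_one_iff]; exact e⟩] at h1
  haveI := Fact.mk h.1
  obtain ⟨r, hr⟩ := autIdx_dvd_of_card_prime (Nat.card_zpowers x)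
  have h2 := Nat.pos_of_ne_zero (autIdx_ne_zero (zpowers x))
  simp only [wt, item, if_pos h]
  rw [hr, Nat.mul_div_cancel_left _ h2, ← h0, ← cen, Nat.mul_div_cancel_left _ (cen_pos x)]
  rw [hr, ← h0, ← cen] at h1
  exact Nat.eq_of_mul_eq_mul_right (Nat.mul_pos h2 (cen_pos x)) (by rw [← h1]; ring)

variable (G) in
open _root_.Classical in
/-- The nontrivial classes. -/
noncomputable def qs : Finset (Quotient (cls G)) :=
  haveI := Fintype.ofFinite (Quotient (cls G)); Finset.univ.erase (Quotient.mk _ 1)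

variable (G) in
/-- The items of a group. -/
noncomputable def its : Multiset It := (qs G).val.map fun q => item q.out

theorem mk_mem {x : G} : ⟦x⟧ ∈ qs G ↔ x ≠ 1 := by
  simp only [qs, Finset.mem_erase, Finset.mem_univ, and_true, ne_eq, Quotient.eq]
  exact not_congr ⟨fun h => orderOf_eq_one_iff.1 ((rel.ord h).trans orderOf_one),
    fun h => by rw [h]⟩

theorem item_out (x : G) : item (⟦x⟧ : Quotient (cls G)).out = item x :=
  rel.item (Quotient.mk_out (s := cls G) x)

theorem mem_its {j : It} : j ∈ its G ↔ ∃ x : G, x ≠ 1 ∧ item x = j := by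
  simp only [its, Multiset.mem_map, Finset.mem_val, Quotient.exists, mk_mem, item_out]

theorem item_mem {x : G} (h : x ≠ 1) : item x ∈ its G := mem_its.2 ⟨x, h, rfl⟩

theorem sum_its [Fintype G] [DecidableEq G] (F : It → ℕ) :
    ((its G).map fun j => wt (Nat.card G) j * F j).sum = ∑ x ∈ Finset.univ.erase (1 : G), F (item x) := by
  classical
  rw [← Finset.sum_fiberwise_of_maps_to (t := qs G) (g := fun x => ⟦x⟧) fun x hx =>
    mk_mem.2 (Finset.ne_of_mem_erase hx), its, Multiset.map_map]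
  refine Finset.sum_congr rfl fun q hq => ?_
  obtain ⟨x, rfl⟩ := q.exists_rep
  rw [Finset.sum_congr rfl fun y hy => congrArg F (rel.item (Quotient.exact (Finset.mem_filter.1 hy).2)),
    Finset.sum_const, smul_eq_mul, Function.comp, item_out, ← card_rel, ← Set.ncard_coe_finset]
  congr 2
  ext y
  simp only [Set.mem_ofPred_eq, Finset.coe_filter, Finset.mem_erase, Finset.mem_univ, and_true,
    Quotient.eq]
  refine ⟨fun h => ⟨mk_mem.1 ?_, (cls G).symm' h⟩, fun h => (cls G).symm' h.2⟩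
  rwa [← Quotient.sound (s := cls G) h]

theorem cnt_its (Φ : It → Prop) [DecidablePred Φ] :
    ((its G).map fun j => if Φ j then wt (Nat.card G) j else 0).sum =
      {x : G | x ≠ 1 ∧ Φ (item x)}.ncard := by
  classical
  haveI := Fintype.ofFinite G
  have := sum_its (G := G) fun j => if Φ j then 1 else 0
  simp only [mul_ite, mul_one, mul_zero, Finset.sum_boole, Nat.cast_id] at this
  rw [this, ← Set.ncard_coe_finset]
  congr 1
  ext x
  rw [Finset.mem_coe, Finset.mem_filter]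
  simp

theorem sm_its (Φ : ℕ → Prop) [DecidablePred Φ] :
    sm (Nat.card G) Φ (its G) = {x : G | x ≠ 1 ∧ Φ (rad (orderOf x))}.ncard :=
  cnt_its fun j => Φ j.ρ

theorem split_its {j : It} {R : Multiset It} (h : its G = j ::ₘ R) :
    ∃ x : G, x ≠ 1 ∧ item x = j ∧ ∀ i ∈ R, ∃ y : G, y ≠ 1 ∧ item y = i ∧ ¬ rel y x := by
  classical
  obtain ⟨q, h1, h2, h3⟩ := (Multiset.map_eq_cons _ _ _ _).2 h
  obtain ⟨x, rfl⟩ := q.exists_rep
  refine ⟨x, mk_mem.1 h1, (item_out x).symm.trans h2, fun i hi => ?_⟩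
  obtain ⟨q, h4, rfl⟩ := Multiset.mem_map.1 (h3 ▸ hi)
  obtain ⟨y, rfl⟩ := q.exists_rep
  rw [← Finset.erase_val, Finset.mem_val, Finset.mem_erase] at h4
  exact ⟨y, mk_mem.1 h4.2, (item_out y).symm, fun h5 => h4.1 (Quotient.sound h5)⟩

end CF.KCl
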