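import Mathlib
import Cfsg.Agent.KCl.Ga
import Cfsg.Agent.S0204

/-! The items of a simple group are good. -/

set_option autoImplicit false

namespace CF.KCl

open Subgroup CF.Small CF.BlockB CF.PF

variable {G : Type*} [Group G] [Finite G]

omit [Finite G] in
theorem cen_sub {H : Subgroup G} (x : H) :
    cen x = Nat.card (centralizer ({(x : G)} : Set G) ⊓ H : Subgroup G) := by
  rw [← Nat.card_congr (subgroupOfEquivOfLe inf_le_right).toEquiv, inf_subgroupOf_right, cen]
  congr 3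
  ext y
  simp [mem_subgroupOf, mem_centralizer_singleton_iff, Subtype.ext_iff]

theorem sq_dvd_cen {p k : ℕ} (hp : p.Prime) {x : G} (hx : x ^ p ^ k = 1) (h : p * p ∣ Nat.card G) :
    p * p ∣ cen x := by
  haveI := Fact.mk hp
  obtain ⟨P, hP⟩ := exists_mem_sylow hx
  refine dvd_trans ?_ (cen_sub (⟨x, hP⟩ : (P : Subgroup G)) ▸ card_dvd_of_le inf_le_left)
  generalize (⟨x, hP⟩ : (P : Subgroup G)) = y
  have h1 : p ^ 2 ∣ Nat.card (P : Subgroup G) := P.pow_dvd_card_of_pow_dvd_card (by rwa [sq])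
  obtain ⟨m, hm⟩ := (P.2.to_subgroup (centralizer {y})).exists_card_eq
  by_contra h2
  rw [cen, hm, ← sq, Nat.pow_dvd_pow_iff_le_right hp.one_lt] at h2
  haveI : Nontrivial (P : Subgroup G) := Finite.one_lt_card_iff_nontrivial.1
    ((Nat.one_lt_pow two_ne_zero hp.one_lt).trans_le (Nat.le_of_dvd Nat.card_pos h1))
  haveI := P.2.center_nontrivial
  obtain ⟨n, hn, h3⟩ := (P.2.to_subgroup (center _)).nontrivial_iff_card.1 inferInstance
  have h4 := eq_of_le_of_card_ge (center_le_centralizer {y})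
    (by rw [hm, h3]; exact Nat.pow_le_pow_right hp.pos (by omega))
  have h5 : centralizer {y} = ⊤ := centralizer_eq_top_iff_subset.2
    (Set.singleton_subset_iff.2 (h4 ▸ mem_centralizer_singleton_iff.2 rfl))
  rw [h5, card_top] at hm
  rw [hm, Nat.pow_dvd_pow_iff_le_right hp.one_lt] at h1
  exact h2 h1

omit [Finite G] in
theorem cent_eq (p : ℕ) (g : G) :
    centralizer ({g} : Set G) = centralizer {pPart p g} ⊓ centralizer {pReg p g} := by
  ext a
  simp only [mem_inf, mem_centralizer_singleton_iff]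
  refine ⟨fun h => ⟨commute_pPart_of_commute h, commute_pReg_of_commute h⟩, fun h => ?_⟩
  rw [← pPart_mul_pReg (p := p) g]
  exact Commute.mul_right h.1 h.2

theorem ord_eq {p : ℕ} (hp : p.Prime) (g : G) :
    ∃ k, orderOf (pPart p g) = p ^ k ∧ orderOf g = orderOf (pReg p g) * p ^ k := by
  obtain ⟨k, hk⟩ := pPart_pElement hp g
  refine ⟨k, hk, ?_⟩
  rw [← hk, ← (commute_pPart_pReg g).symm.orderOf_mul_eq_mul_orderOf_of_coprime, pReg_mul_pPart]
  rw [hk]
  exact (((Nat.Prime.coprime_iff_not_dvd hp).2 (pReg_pRegular hp g)).pow_left k).symm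

theorem exists_ord {x : G} {d : ℕ} (h : d ∣ orderOf x) : ∃ y ∈ zpowers x, orderOf y = d :=
  ⟨_, npow_mem_zpowers x _, orderOf_pow_orderOf_div (orderOf_pos x).ne' h⟩

theorem exists_aut {x : G} (h : (orderOf x).Prime) : ∃ n : G, autIdx (zpowers x) ∣ orderOf n := by
  haveI := ZMod.isCyclic_units_prime (Nat.card_zpowers x ▸ h)
  haveI := (IsCyclic.mulAutMulEquiv (zpowers x)).isCyclic.2 inferInstance
  obtain ⟨⟨_, n, rfl⟩, hn⟩ :=
    isCyclic_iff_exists_orderOf_eq_natCard.1 (inferInstance : IsCyclic (zpowers x).normalizerMonoidHom.range)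
  refine ⟨n, ?_⟩
  rw [← index_ker, normalizerMonoidHom_ker, ← orderOf_coe] at hn
  exact (hn.symm.dvd.trans (orderOf_map_dvd _ n)).trans (orderOf_coe n).symm.dvd

theorem card_dm : (dm G).card = Nat.card (ConjClasses G) := by
  rw [dm, Multiset.card_map, ← Char.card_irr]
  exact (Nat.subtype_card _ fun _ => mem_irr_top).symm

theorem ρ_item (x : G) : (item x).ρ = rad (orderOf x) := rfl

theorem pr_item {x : G} : (item x).pr ↔ isP x := by
  by_cases h : isP x <;> simp only [It.pr, item, h, if_true, if_false, lt_irrefl, mul_one, iff_true]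
  haveI := Fact.mk h.1
  rw [Nat.div_mul_cancel (autIdx_dvd_of_card_prime (Nat.card_zpowers x))]
  have := h.2
  omega

theorem ord_eq_of {x : G} {p : ℕ} (hp : p.Prime) (h : (item x).ρ = p) (h1 : ¬ p * p ∣ cen x) :
    orderOf x = p := by
  obtain ⟨k, hk, e⟩ := eq_pow_of_rad hp (orderOf_pos x).ne' h
  have := mt (fun h : 2 ≤ k => (sq p ▸ pow_dvd_pow p h).trans (e ▸ ord_dvd_cen x)) h1
  rw [e, show k = 1 by omega, pow_one]

variable [IsSimpleGroup G] (hG : ¬ IsMulCommutative G)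
include hG

theorem four_dvd : 4 ∣ Nat.card G := by
  obtain ⟨E, h⟩ := Cfsg.Agent.S0204.result (not_isCyclic_of_not_comm hG)
  exact h.card_four ▸ card_subgroup_dvd_card E

theorem exists_big : ∃ p, p.Prime ∧ p ∣ Nat.card G ∧ 5 ≤ p := by
  by_contra! h
  have h0 := Nat.card_pos (α := G)
  refine hG ⟨⟨IsSimpleGroup.comm_iff_isSolvable.2 (Char.isSolvable_of_card_dvd Nat.prime_two
    Nat.prime_three G (a := Nat.card G) (b := Nat.card G) ((Nat.dvd_iff_prime_pow_dvd_dvd _ _).2
      fun p k hp hk => ?_))⟩⟩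
  rcases Nat.eq_zero_or_pos k with rfl | h1
  · simp
  have h2 := h p hp ((dvd_pow_self p h1.ne').trans hk)
  have h3 := pow_dvd_pow p (((Nat.lt_pow_self hp.one_lt).trans_le (Nat.le_of_dvd h0 hk)).le)
  have := hp.two_le
  interval_cases p
  exacts [h3.mul_right _, h3.mul_left _, absurd hp (by decide)]

theorem aut_ne_one {x : G} {p : ℕ} (hp : p.Prime) (hx : orderOf x = p)
    (h : ¬ p * p ∣ Nat.card G) : autIdx (zpowers x) ≠ 1 := by
  haveI := Fact.mk hp
  obtain ⟨S, hS⟩ := exists_pset (zpowers x) ((Nat.card_zpowers x).trans hx) (by rwa [sq])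
  obtain ⟨P, hP⟩ := S.exists_sylow
  rw [← hS, ← show _ = zpowers S.z from hP]
  exact autIdx_ne_one hG S.p_dvd P

theorem rel_of_ord {x y : G} {p : ℕ} (hp : p.Prime) (hx : orderOf x = p) (hy : orderOf y = p)
    (h : ¬ p * p ∣ Nat.card G) : rel y x := by
  haveI := Fact.mk hp
  obtain ⟨S, hS⟩ := exists_pset (zpowers x) ((Nat.card_zpowers x).trans hx) (by rwa [sq])
  by_cases h5 : 5 ≤ p
  · obtain ⟨g, hg⟩ := S.exists_conj_mem_P (x := y) (k := 1) (by rw [pow_one, ← hy, pow_orderOf_eq_one])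
    refine ⟨_, isConj_iff.2 ⟨g, rfl⟩, zp_eq (hx ▸ hp) (hS ▸ hg) fun e => hp.ne_one ?_,
      Or.inl ⟨hy ▸ hp, hy ▸ h5⟩⟩
    rw [← hy, conj_eq_one_iff.1 e, orderOf_one]
  have h1 := S.card_classes
  have h2 : S.fi ≠ 1 := aut_ne_one hG hp S.ord h
  have h3 := hp.two_le
  have h4 : p ≠ 4 := by rintro rfl; exact absurd hp (by decide)
  have h6 := S.fi_pos
  have h7 := (Nat.card_eq_one_iff_unique.1 (show Nat.card {C : ConjClasses G //
    ∃ g ∈ C.carrier, orderOf g = p} = 1 by
      generalize Nat.card _ = a at h1 ⊢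
      rcases a with _ | _ | a
      exacts [by omega, rfl, by nlinarith [show 2 ≤ S.fi by omega, show p - 1 ≤ 2 by omega]])).1
  exact rel_of_conj (ConjClasses.mk_eq_mk_iff_isConj.1 (congrArg Subtype.val (h7.elim
    ⟨_, y, ConjClasses.mem_carrier_mk, hy⟩ ⟨_, x, ConjClasses.mem_carrier_mk, hx⟩)))

omit [IsSimpleGroup G] hG in
theorem blk_le {x : G} (h1 : isP x) (h : ¬ orderOf x * orderOf x ∣ Nat.card G) :
    (item x).h + (item x).r ≤ Nat.card (ConjClasses G) := by
  classical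
  haveI := Fact.mk h1.1
  obtain ⟨S, hS⟩ := exists_pset (zpowers x) (Nat.card_zpowers x) (by rwa [sq])
  obtain ⟨B, -⟩ := S.exists_pblk
  simp only [item, if_pos h1]
  rw [← hS, show autIdx (zpowers S.z) = S.fi from rfl, ← B.pcard_Y, Nat.mul_div_cancel _ S.fi_pos,
    ← B.pcard_X, ← Finset.card_union_of_disjoint B.disjoint, ← card_dm, dm, Multiset.card_map]
  exact Finset.card_le_card fun χ h => B.all_irr (B.mem_all.2 (Finset.mem_union.1 h))

omit [IsSimpleGroup G] hG in
theorem par_item {x : G} {p : ℕ} (hp : p.Prime) (h1 : p ∣ (item x).ρ) (h2 : p ≠ (item x).ρ) :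
    ∃ y : G, y ≠ 1 ∧ (item y).ρ = (item x).ρ / p ∧ cen x ∣ cen y ∧ (p * p ∣ cen y → p * p ∣ cen x) := by
  obtain ⟨k, h3, h4⟩ := ord_eq hp x
  have h5 := pReg_pRegular hp x
  have h6 : (item x).ρ = (item (pReg p x)).ρ * p := by
    rw [ρ_item, h4, rad_mul hp _ h5, ρ_item]
    rintro rfl
    exact h5 (by simpa [h4] using (dvd_rad hp (orderOf_pos x).ne').1 h1)
  refine ⟨pReg p x, fun e => h2 (by rw [h6, e]; simp [item, rad]),
    by rw [h6, Nat.mul_div_cancel _ hp.pos], cen_dvd_of (pReg_mem_zpowers x), fun h => ?_⟩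
  rw [cen, cent_eq p, ← cen_sub (H := centralizer {pReg p x})
    ⟨pPart p x, mem_centralizer_singleton_iff.2 (commute_pPart_pReg x)⟩]
  exact sq_dvd_cen (k := k) hp (Subtype.ext (by simpa [← h3] using pow_orderOf_eq_one _)) h

theorem good (h5 : ∀ x : G, x ≠ 1 → 5 ≤ cen x) :
    Good (Nat.card (ConjClasses G)) (Nat.card G) (its G) := by
  classical
  haveI := Fintype.ofFinite G
  have g0 := Nat.card_pos (α := G)
  have o0 := fun x : G => (orderOf_pos x).ne'
  have all : ∀ {P : It → Prop}, (∀ x : G, x ≠ 1 → P (item x)) → ∀ j ∈ its G, P j := fun h j hj => by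
    obtain ⟨x, h1, rfl⟩ := mem_its.1 hj
    exact h x h1
  have hr : ∀ j ∈ its G, 0 < j.r := all fun x _ => by
    by_cases h : isP x
    · exact Nat.pos_of_mul_pos_right (zero_lt_one.trans (pr_item.2 h))
    · simp [item, h]
  have hK : ((its G).map It.r).sum + 1 = Nat.card (ConjClasses G) := by
    refine Nat.eq_of_mul_eq_mul_right g0 ?_
    rw [← card_comm_eq_card_conjClasses_mul_card, add_mul, ← Multiset.sum_map_mul_right,
      Multiset.map_congr rfl (g := fun j => wt (Nat.card G) j * j.c) (all fun x _ => by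
        rw [wt, mul_assoc, Nat.div_mul_cancel (show (item x).c ∣ _ from cen_dvd x)]), sum_its,
      Nat.card_congr (Equiv.subtypeProdEquivSigmaSubtype fun x y : G => Commute x y), Nat.card_sigma,
      ← Finset.sum_erase_add _ _ (Finset.mem_univ 1)]
    congr 1
    · exact Finset.sum_congr rfl fun x _ => Nat.card_congr (Equiv.subtypeEquivRight fun y =>
        mem_centralizer_singleton_iff.trans eq_comm)
    · simp
  have par : ∀ j ∈ its G, ∀ p, p.Prime → p ∣ j.ρ → p ≠ j.ρ → ∃ i ∈ its G, i.ρ = j.ρ / p ∧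
      j.c ∣ i.c ∧ (¬ p * p ∣ j.c → ¬ p * p ∣ i.c) := all fun x _ p hp h1 h2 =>
    let ⟨y, a, b, c, d⟩ := par_item hp h1 h2; ⟨_, item_mem a, b, c, mt d⟩
  have big : ∀ p, p.Prime → p ∣ Nat.card G → 5 ≤ p → ∃ j ∈ its G, j.pr ∧ j.ρ = p :=
    fun p hp h1 h2 => by
      haveI := Fact.mk hp
      obtain ⟨x, rfl⟩ := exists_prime_orderOf_dvd_card' p h1
      exact ⟨_, item_mem (mt orderOf_eq_one_iff.2 hp.ne_one), pr_item.2 ⟨hp, h2⟩,
        by simpa [ρ_item] using rad_pow hp one_ne_zero⟩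
  obtain ⟨p0, b1, b2, b3⟩ := exists_big hG
  refine ⟨hK, ?_, hr, all h5, all fun x hx => ?_, all fun x _ => ?_,
    all fun x _ => (rad_dvd _).trans (ord_dvd_cen x), all fun x hx => ?_, all fun x _ => sqf_rad _,
    all fun x _ h => ?_, all fun x hx h => ?_, all fun x hx q hq h1 h2 => ?_, par, fun j hj => ?_,
    fun j R h hp h1 => ?_, fun p hp k => ?_, fun p hp => ?_, big,
    (big p0 b1 b2 b3).imp fun _ h => ⟨h.1, h.2.1⟩,
    {d | (∃ x : G, orderOf x = d) ∧ 1 < d ∧ ¬ (d.Prime ∧ 5 ≤ d)}, ⟨?_, by norm_num⟩,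
    fun d ⟨⟨x, h⟩, _⟩ => h ▸ orderOf_dvd_natCard x, all fun x _ d h1 h2 h3 => ⟨?_, h2, h3⟩,
    fun l h1 h2 => ?_⟩
  · have := sum_its (G := G) fun _ => 1
    simp only [mul_one, Finset.sum_const, smul_eq_mul, Finset.card_erase_of_mem (Finset.mem_univ _),
      Finset.card_univ, ← Nat.card_eq_fintype_card] at this
    rw [this]; omega
  · rw [← (centralizer {x}).index_mul_card]
    refine Nat.mul_le_mul_right _ (lt_index hG (centralizer_ne_top hG hx) (k := 4) fun h => ?_)
    have := (Nat.Prime.dvd_factorial b1).1 ((b2.mul_left 2).trans h)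
    omega
  · simp only [item]
    split_ifs
    · rw [mul_comm, aut_mul]; exact card_subgroup_dvd_card _
    · simpa using cen_dvd x
  · rw [← Nat.nonempty_primeFactors, ρ_item, primeFactors_rad, Nat.nonempty_primeFactors]
    have := mt orderOf_eq_one_iff.1 hx
    have := o0 x
    omega
  · rw [pr_item] at h
    haveI := Fact.mk h.1
    have h1 : (item x).ρ = orderOf x := by simpa [ρ_item] using rad_pow h.1 one_ne_zero
    refine ⟨h1 ▸ h.1, h1 ▸ h.2, ?_⟩
    rw [h1, item]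
    simp only [if_pos h, Nat.div_mul_cancel (autIdx_dvd_of_card_prime (Nat.card_zpowers x))]
    have := h.2
    omega
  · rw [pr_item] at h
    refine ⟨if_neg h, if_neg h, fun hp h3 => by_contra fun h1 => ?_⟩
    have h2 := ord_eq_of hp rfl h1
    rw [← h2] at hp h3 h1
    have h4 := mt (And.intro hp) h
    have h6 := hp.two_le
    have h7 : orderOf x ≠ 4 := fun e => absurd (e ▸ hp) (by decide)
    exact h1 (sq_dvd_cen (k := 1) hp (by simp) (by rw [show orderOf x = 2 by omega]; exact four_dvd hG))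
  · haveI := Fact.mk hq
    obtain ⟨⟨y, hy⟩, h3, h4⟩ := exists_central (G := centralizer ({x} : Set G)) h1
    have h6 := mt (dvd_rad hq (o0 x)).2 h2
    have hc : Commute y x := mem_centralizer_singleton_iff.1 hy
    rw [orderOf_mk] at h3
    have h7 : orderOf (y * x) = orderOf x * q ^ 1 := by
      rw [hc.orderOf_mul_eq_mul_orderOf_of_coprime (h3 ▸ (Nat.Prime.coprime_iff_not_dvd hq).2 h6),
        h3, pow_one, mul_comm]
    have h8 : cen (y * x) = cen (⟨y, hy⟩ : centralizer ({x} : Set G)) := by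
      rw [cen_sub, cen, cent_eq q, pPart_mul_of_commute hq hc ⟨1, by simp [h3]⟩ h6,
        pReg_mul_of_commute hq hc ⟨1, by simp [h3]⟩ h6]
    refine ⟨item (y * x), item_mem fun e => hq.ne_one ?_, by rw [ρ_item, h7, rad_mul hq one_ne_zero h6]; rfl,
      h8.dvd.trans (cen_dvd _), ?_⟩
    · rw [e, orderOf_one, eq_comm, mul_eq_one] at h7; simpa using h7.2
    · change ¬ q ∣ Nat.card _ / cen _
      rwa [h8, ← index_mul_card (centralizer {(⟨y, hy⟩ : centralizer ({x} : Set G))}), ← cen,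
        Nat.mul_div_cancel _ (cen_pos _)]
  · induction hn : j.ρ using Nat.strong_induction_on generalizing j with
    | _ n ih =>
    subst hn
    rintro d ⟨m, hm⟩ h1
    by_cases h2 : m = 1
    · exact ⟨j, hj, by rw [hm, h2, mul_one], dvd_rfl⟩
    obtain ⟨p, hp, m, rfl⟩ := Nat.exists_prime_and_dvd h2
    have h0 : j.ρ ≠ 0 := all (P := fun j => j.ρ ≠ 0) (fun x _ => rad_ne_zero _) j hj
    have h3 : j.ρ / p = d * m := by rw [hm, mul_left_comm, Nat.mul_div_cancel_left _ hp.pos]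
    obtain ⟨i, hi, h4, h6, -⟩ := par j hj p hp ⟨d * m, by rw [hm]; ring⟩ fun e => by
      rw [← e, Nat.div_self hp.pos, eq_comm, mul_eq_one] at h3; omega
    obtain ⟨i', hi', h7, h8⟩ := ih _ (h4 ▸ Nat.div_lt_self (Nat.pos_of_ne_zero h0) hp.one_lt) i hi rfl d
      ⟨m, h4.trans h3⟩ h1
    exact ⟨i', hi', h7, h6.trans h8⟩
  · obtain ⟨x, hx, rfl, hR⟩ := split_its h
    have h2 := ord_eq_of hp rfl h1
    have h3 := mt (sq_dvd_cen (k := 1) hp (by rw [pow_one, ← h2, pow_orderOf_eq_one])) h1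
    refine ⟨h3, fun h4 => if_neg fun h6 => aut_ne_one hG hp h2 h3 ((if_pos h6).symm.trans h4), ?_,
      fun i hi h4 => ?_⟩
    · by_cases h6 : isP x
      · exact blk_le h6 (h2 ▸ h3)
      · rw [← hK, h]; simp [item, h6]
    obtain ⟨y, hy, rfl, h6⟩ := hR i hi
    refine ⟨?_, fun e => h6 (rel_of_ord hG hp h2 (ord_eq_of hp e fun h => h3 (h.trans (cen_dvd y))) h3)⟩
    obtain ⟨z, h7, h8⟩ := exists_ord ((dvd_rad hp (o0 y)).1 h4)
    rw [← (rel_of_ord hG hp h2 h8 h3).item]
    exact cen_dvd_of h7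
  · refine (Nat.gcd_comm _ _ ▸ Nat.gcd_dvd_gcd_of_dvd_left _ (pow_dvd_pow p (Nat.le_add_right k (Nat.card G)))).trans
      ((Fgs2.gcd_dvd_ncard_pow_mem _ {1} (by simp)).trans (dvd_of_eq ?_))
    rw [sm_its, add_comm 1, ← Set.ncard_insert_of_notMem (a := 1) (by simp)]
    congr 1
    ext x
    by_cases hx : x = 1
    · simp [hx]
    simp only [Set.mem_singleton_iff, Set.mem_ofPred_eq, Set.mem_insert_iff, hx, ne_eq, false_or,
      not_false_eq_true, true_and, ← orderOf_dvd_iff_pow_eq_one]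
    refine ⟨fun h => ?_, fun h => ?_⟩
    · obtain ⟨i, -, e⟩ := (Nat.dvd_prime_pow hp).1 h
      rw [e, rad_pow hp]
      rintro rfl
      exact hx (orderOf_eq_one_iff.1 e)
    · obtain ⟨i, -, e⟩ := eq_pow_of_rad hp (o0 x) h
      have := (Nat.lt_pow_self hp.one_lt).trans_le (Nat.le_of_dvd g0 (e ▸ orderOf_dvd_natCard x))
      exact e ▸ pow_dvd_pow p (by omega)
  · obtain ⟨a, m, h1, h2⟩ := Nat.exists_eq_pow_mul_and_not_dvd g0.ne' p hp.ne_one
    have h3 : m ∣ Nat.card G := Dvd.intro_left _ h2.symm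
    have h4 := Fgs2.dvd_card_pow_eq_one h3
    refine ⟨a, ?_⟩
    nth_rw 1 [h2, mul_comm]
    refine Nat.mul_dvd_mul_right ((Nat.dvd_add_left h4).1 (h3.trans (dvd_of_eq ?_))) _
    rw [sm_its, ← Set.ncard_add_ncard_compl {x : G | x ^ m = 1}, add_comm]
    congr 2
    ext x
    simp only [Set.mem_compl_iff, Set.mem_ofPred_eq, dvd_rad hp (o0 x), ← orderOf_dvd_iff_pow_eq_one]
    refine ⟨fun h => ⟨by rintro rfl; simp at h, by_contra fun h6 => h ?_⟩, fun h h6 => h1 (h.2.trans h6)⟩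
    exact (((Nat.Prime.coprime_iff_not_dvd hp).2 h6).pow_left a).symm.dvd_of_dvd_mul_left
      (h2 ▸ orderOf_dvd_natCard x)
  · exact exists_prime_orderOf_dvd_card' 2 (dvd_trans (by decide) (four_dvd hG))
  · have h4 : isP x := by_contra fun h => by simp [item, h] at h1; omega
    obtain ⟨n, hn⟩ := exists_aut h4.1
    exact (exists_ord ((h1.trans (if_pos h4).dvd).trans hn)).imp fun _ h => h.2
  · choose! f hf using fun d hd => (h2 d hd).1
    have h3 : l.map rad = (l.map fun d => (⟦f d⟧ : Quotient (cls G))).map fun q => (item q.out).ρ := by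
      rw [List.map_map]
      exact List.map_congr_left fun d hd => by rw [Function.comp, item_out, ρ_item, hf d hd]
    rw [nps, its, Multiset.filter_map, Multiset.map_map, h3, ← Multiset.map_coe]
    refine Multiset.map_le_map ((Multiset.le_iff_subset (Multiset.coe_nodup.2
      (h1.map_on fun d hd d' hd' e => ?_))).2 fun q hq => ?_)
    · rw [← hf d hd, rel.ord (Quotient.exact e), hf d' hd']
    · obtain ⟨d, hd, rfl⟩ := List.mem_map.1 hq
      refine Multiset.mem_filter.2 ⟨mk_mem.2 fun e => (h2 d hd).2.1.ne' ?_, ?_⟩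
      · rw [← hf d hd, e, orderOf_one]
      · rw [Function.comp, item_out, pr_item, isP, hf d hd]
        exact (h2 d hd).2.2

end CF.KCl
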