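import Mathlib
import Cfsg.Agent.KCl.Gd
import Cfsg.Agent.KCl.Lc

/-! Tests for character degrees. -/

set_option autoImplicit false

namespace CF.KCl

open Subgroup Cfsg CF.Small CF.Small.Sv CF.PF CF.Char

def blk (N R p e c : ℕ) (k : Sol → Bool) : Bool :=
  srch (fun L => fin1 N p ⟨N / p / e / c, e, c, L⟩ && k ⟨N / p / e / c, e, c, L⟩)
    (degs p (e * (N / p / e / c)) R c) (e - 1) N []

def mn (n c d : ℕ) : ℕ := if d = 1 then 1 else
  ((List.range (d / (n - 1))).map fun k : ℕ => ((d : ℤ) - n * (k + 1)).natAbs ^ 2).foldr min (c + 1)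

def fin (K N R n c m : ℕ) (D : List ℕ) : Bool :=
  (n == 1 || (D.map (mn n c)).sum ≤ c) && (K == 0 || D.length ≤ K &&
    srch (fun L => (D.map (· ^ 2)).sum + (L.map fun a => a.natAbs ^ 2).sum == N)
      (((List.range (R / m)).map fun i : ℕ => ((i + 1) * m : ℤ)).filter (N % ·.natAbs == 0))
      (K - D.length) (N - (D.map (· ^ 2)).sum) [])

def two (K N R n c p r : ℕ) (s s' : Sol) : Bool :=
  bts PR N r s' && cross N p r s s' && cross N r p s' s &&
    (s.c != 1 || s'.c != 1 || fin K N R n c (p * r) (s.dl p ++ (s'.dl r).filter (p ∣ ·)))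

def En.test (t : En) : Bool := blk t.g t.R t.p t.e t.c fun s => bts PR t.g t.p s &&
  if t.r = 0 then s.c != 1 || fin t.K t.g t.R (t.q ^ t.a) t.cq t.p (s.dl t.p) else
    blk t.g t.R t.r t.e' t.c' (two t.K t.g t.R (t.q ^ t.a) t.cq t.p t.r s)

def En.kill (t : En) : Bool :=
  t.p ∈ PR && t.g % t.p ^ 2 != 0 && (t.r == 0 || t.r ∈ PR && t.g % t.r ^ 2 != 0 && t.p != t.r) &&
    t.q ∈ PR && t.g % t.q ^ t.a == 0 && t.g ≤ t.R ^ 2 && !t.test

theorem prime_PR : ∀ p ∈ PR, p.Prime := by simp only [PR, List.forall_mem_cons]; norm_num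

theorem srch_mono {f g : List ℤ → Bool} (h : ∀ L, f L = true → g L = true) (cs : List ℤ) :
    ∀ k b acc, srch f cs k b acc = true → srch g cs k b acc = true ∧ ∃ L, f L = true := by
  induction cs with
  | nil =>
    simp only [srch, Bool.and_eq_true]
    exact fun _ _ acc h1 => ⟨⟨h1.1, h acc h1.2⟩, acc, h1.2⟩
  | cons a cs ih =>
    simp only [srch, List.any_eq_true, Bool.and_eq_true]
    exact fun k b acc ⟨j, h1, h2, h3⟩ => ⟨⟨j, h1, h2, (ih _ _ _ h3).1⟩, (ih _ _ _ h3).2⟩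

variable {G : Type*} [Group G] [Finite G]

theorem fin_of {K N R n c m : ℕ} {D : List ℕ} {M : Multiset ℕ} (hN : Nat.card G = N)
    (hK : K = 0 ∨ K = Nat.card (ConjClasses G)) (hR : N ≤ R ^ 2)
    (hn : n = 1 ∨ ((dm G).map (mn n c)).sum ≤ c) (hm : 0 < m) (h1 : ∀ d ∈ M, m ∣ d ∧ d ∈ dm G)
    (h2 : dm G = ↑D + M) : fin K N R n c m D = true := by
  have h3 := sum_sq_dm (G := G)
  have h4 := card_dm (G := G)
  induction M using Quotient.inductionOn with | _ l =>
  simp only [h2, Multiset.map_add, Multiset.sum_add, Multiset.map_coe, Multiset.sum_coe, hN,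
    Multiset.card_add, Multiset.coe_card, Multiset.quot_mk_to_coe, Multiset.mem_coe] at h3 h4 hn
  simp only [fin, Bool.and_eq_true, Bool.or_eq_true, beq_iff_eq, decide_eq_true_eq]
  refine ⟨hn.imp_right fun h => by omega, hK.imp_right fun h => ⟨by omega, ?_⟩⟩
  rw [show K - D.length = (l.map (↑) : List ℤ).length by simp; omega]
  refine srch_of _ _ _ _ _ (fun a ha => ?_) (by simp [Function.comp_def]; omega) fun L hL => by
    simp [(hL.map _).sum_eq, Function.comp_def, h3]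
  obtain ⟨d, hd, rfl⟩ := List.mem_map.1 ha
  obtain ⟨⟨_ | i, rfl⟩, h5⟩ := h1 d hd
  · simpa using pos_of_mem_dm h5
  have h6 : (m * (i + 1)) ^ 2 ≤ R ^ 2 :=
    (List.single_le_sum (by simp) _ (List.mem_map_of_mem (f := (· ^ 2)) hd)).trans (by omega)
  simp only [List.mem_filter, List.mem_map, List.mem_range, Int.natAbs_natCast, beq_iff_eq]
  exact ⟨⟨i, (Nat.le_div_iff_mul_le hm).2 (mul_comm m _ ▸ (Nat.pow_le_pow_iff_left two_ne_zero).1 h6),
    by push_cast; ring⟩, Nat.mod_eq_zero_of_dvd (hN ▸ dvd_of_mem_dm h5)⟩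

variable [IsSimpleGroup G] (hG : ¬ IsMulCommutative G)
include hG

omit hG in
theorem mn_le {u : G} (hu : u ≠ 1) {Q : Subgroup G} (h1 : 1 < Nat.card Q)
    (hQ : ∀ x ∈ Q, x ≠ 1 → IsConj u x) (c : ℕ) {χ : G → ℂ} (hχ : χ ∈ irr (⊤ : Subgroup G)) :
    (mn (Nat.card Q) c (charDegree χ) : ℝ) ≤ ‖χ u‖ ^ 2 := by
  classical
  have hc := isCh_of_irr hχ
  have h2 := coe_mu le_top hc (isCh_triv Q)
  rw [ip_triv_right, ← Finset.add_sum_erase _ _ (mem_els.2 (one_mem Q)),
    Finset.sum_congr rfl (g := fun _ => χ u) fun z hz => by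
      obtain ⟨t, rfl⟩ := isConj_iff.1 (hQ z (mem_els.1 (Finset.mem_of_mem_erase hz))
        (Finset.ne_of_mem_erase hz))
      exact CFn.conj (cfn_of_irr hχ) (mem_top t) u, Finset.sum_const, nsmul_eq_mul,
    eq_inv_mul_iff_mul_eq₀ (card_ne_zero Q), Finset.card_erase_of_mem (mem_els.2 (one_mem Q)),
    card_els, ← coe_deg hc] at h2
  have h3 := hc.norm_le u
  have h4 := mt (mem_charKer_iff (isCh_top.1 hc) (g := u)).2
  have h5 := char_isIntegral (isCh_top.1 hc) u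
  rw [← coe_deg hc] at h3 h4
  have h0 : χ = triv ⊤ → charDegree χ = 1 := fun e => e ▸ deg_triv _
  generalize mu Q χ (triv Q) = m at h2
  generalize charDegree χ = d at *
  obtain ⟨n, hn⟩ := Nat.exists_eq_add_of_le' h1
  rw [hn] at h2 ⊢
  have h6 : χ u = ((((n + 2) * m - d : ℚ) / (n + 1) : ℚ) : ℂ) := by
    push_cast at h2 ⊢
    rw [eq_div_iff (by exact_mod_cast n.succ_ne_zero)]
    linear_combination -h2
  obtain ⟨t, ht⟩ := int_of_isIntegral_rat (h6 ▸ h5)
  rw [ht, Rat.cast_intCast] at h6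
  rw [h6] at h2 h3 h4 ⊢
  rw [Complex.norm_intCast, Complex.norm_natCast] at h3
  rw [Complex.norm_intCast, sq_abs]
  norm_cast at h2 h3 h4 ⊢
  push_cast at h2
  rw [← Int.natAbs_sq, ← Nat.cast_pow, Nat.cast_le, mn]
  split_ifs with h7
  · refine Nat.one_le_pow _ _ (Int.natAbs_pos.2 ?_)
    rintro rfl
    simp only [h7] at h2
    have := Int.eq_one_of_mul_eq_one_right (by omega) (h2.trans (by simp))
    omega
  have h8 : t ≠ d := h4 fun h => hu ((charKer_eq_bot_of_simple (mem_irr_top.1 hχ)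
    fun e => h7 (h0 (e.trans triv_top.symm))).le h)
  have h9 := ((le_abs_self t).trans h3).lt_of_ne h8
  obtain ⟨k, hk⟩ := Int.eq_ofNat_of_zero_le (show 0 ≤ m - t - 1 by
    nlinarith [Int.natCast_nonneg n])
  refine List.min_le_of_le' _ (List.mem_map.2 ⟨k, List.mem_range.2
    ((Nat.le_div_iff_mul_le n.succ_pos).2 ?_), rfl⟩) (le_of_eq ?_)
  · zify
    nlinarith [Int.natCast_nonneg m]
  · congr 2
    push_cast
    rw [← hk]
    linear_combination -h2

omit hG in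
theorem tl_of {q a c : ℕ} (hq : q.Prime) (ha : a ≠ 0) (h1 : q ^ a ∣ Nat.card G)
    (h2 : ∃ j ∈ its G, j.ρ = q ∧ j.c = c)
    (h3 : sm (Nat.card G) (· = q) (its G) = Nat.card G / c) : ((dm G).map (mn (q ^ a) c)).sum ≤ c := by
  haveI := Fact.mk hq
  obtain ⟨_, h, h4, rfl⟩ := h2
  obtain ⟨u, hu, rfl⟩ := mem_its.1 h
  obtain ⟨Q, hQ⟩ := Sylow.exists_subgroup_card_pow_prime q h1
  have h5 : {y | IsConj u y} = {x : G | x ≠ 1 ∧ rad (orderOf x) = q} :=
    Set.eq_of_subset_of_ncard_le (fun y hy => ⟨by rintro rfl; exact hu (isConj_one_left.1 hy),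
      ord_conj hy ▸ h4⟩) (by
      rw [← sm_its (· = q), h3, ← card_centralizer_mul_card_isConj u]
      exact (Nat.mul_div_cancel_left _ (cen_pos u)).le)
  have h6 := sum_irr_norm_sq u
  rw [← Finset.sum_subtype (irr ⊤) (fun _ => mem_irr_top) fun χ => ‖χ u‖ ^ 2] at h6
  rw [← Nat.cast_le (α := ℝ), dm, Multiset.map_map, show ((item u).c : ℝ) = _ from h6.symm,
    ← Finset.sum_eq_multiset_sum, Nat.cast_sum, ← hQ]
  refine Finset.sum_le_sum fun χ hχ => mn_le hu (hQ ▸ Nat.one_lt_pow ha hq.one_lt)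
    (fun x hx hx1 => h5.ge ⟨hx1, ?_⟩) _ hχ
  obtain ⟨i, -, e⟩ := (Nat.dvd_prime_pow hq).1 (hQ ▸ orderOf_dvd_natCard Q hx)
  rw [e, rad_pow hq]
  rintro rfl
  exact hx1 (orderOf_eq_one_iff.1 e)

theorem blk_of {cl : List It} (hI : its G = cl) {N R p e c : ℕ} [hp : Fact p.Prime]
    (hN : Nat.card G = N) (h : has cl p e c = true) (h2 : ¬ p ^ 2 ∣ N) (hR : N ≤ R ^ 2)
    {k : Sol → Bool} (hk : ∀ s, Real p G s → k s = true) : blk N R p e c k = true := by
  simp only [has, List.any_eq_true, Bool.and_eq_true, Bool.or_eq_true, beq_iff_eq,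
    decide_eq_true_eq, ← Multiset.mem_coe, ← hI, mem_its] at h
  obtain ⟨_, ⟨x, -, rfl⟩, ⟨h3, h4⟩, h5⟩ := h
  have h0 : ¬ p * p ∣ Nat.card G := by rwa [hN, ← sq]
  have hx := ord_eq_of hp.out h3 fun h => h0 (h.trans (cen_dvd x))
  have := solve_of hG hN (hx ▸ hN ▸ orderOf_dvd_natCard x) h2 hR
    (k := fun s => s.ν == N / p / e / c && s.e == e && s.c == c && k s) fun s hs => by
      have h6 : s.c = c := Nat.eq_of_mul_eq_mul_left hp.out.pos ((hs.card_cent hx).symm.trans h4)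
      rw [hk s hs]
      obtain ⟨S, B, -, h7, h8, h9, -⟩ := hs
      have h10 : s.e = e := by
        rw [h8]
        rcases h5 with ⟨rfl, rfl⟩ | ⟨h5, rfl⟩
        · exact (Nat.prime_two.eq_one_or_self_of_dvd _ S.fi_dvd).resolve_left
            (aut_ne_one hG hp.out S.ord h0)
        · rw [(rel_of_ord hG hp.out S.ord hx h0).item]
          exact (if_pos ⟨S.ord.symm ▸ hp.out, S.ord.symm ▸ h5⟩).symm
      simp only [h6, h10, Bool.and_eq_true, beq_iff_eq, and_true]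
      rw [← hN, S.card_eq, ← h6, ← h10, h7, h8, h9, mul_assoc, mul_assoc,
        Nat.mul_div_cancel_left _ hp.out.pos, mul_left_comm, Nat.mul_div_cancel_left _ S.fi_pos,
        Nat.mul_div_cancel_left _ Nat.card_pos]
  simp only [solve, List.any_eq_true, Bool.and_eq_true] at this
  obtain ⟨j, -, -, e', -, -, h6⟩ := this
  obtain ⟨L, hL⟩ := (srch_mono (fun _ => id) _ _ _ _ h6).2
  simp only [Bool.and_eq_true, beq_iff_eq] at hL
  obtain ⟨-, ⟨⟨a1, rfl⟩, a2⟩, -⟩ := hL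
  rw [a2, a1] at h6
  exact (srch_mono (by simp) _ _ _ _ h6).1

theorem two_of {K N R n c p r : ℕ} [hp : Fact p.Prime] [hr : Fact r.Prime] (hN : Nat.card G = N)
    (hK : K = 0 ∨ K = Nat.card (ConjClasses G)) (hR : N ≤ R ^ 2)
    (hn : n = 1 ∨ ((dm G).map (mn n c)).sum ≤ c) (hpr : p ≠ r) {s s' : Sol} (h : Real p G s)
    (h' : Real r G s') : two K N R n c p r s s' = true := by
  simp only [two, bts_of hG hN prime_PR h', cross_of hG hN h h', cross_of hG hN h' h, Bool.true_and,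
    Bool.or_eq_true, bne_iff_ne, or_iff_not_imp_left, ne_eq, Classical.not_imp, not_not]
  rintro ⟨h1, h2⟩
  obtain ⟨M, h3, h4⟩ := h.dm_two h1 h' h2 hpr
  exact fin_of hN hK hR hn (Nat.mul_pos hp.out.pos hr.out.pos) h3 h4

theorem not_app {cl : List It} (hI : its G = cl) {t : En} (h : t.kill = true) :
    t.app (Nat.card (ConjClasses G)) (Nat.card G) cl = false := by
  rw [← Bool.not_eq_true]
  simp only [En.kill, En.app, hasc, Bool.and_eq_true, Bool.or_eq_true, beq_iff_eq, decide_eq_true_eq,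
    bne_iff_ne, Bool.not_eq_true', List.any_eq_true, ← Multiset.mem_coe (l := cl), ← hI,
    ← Nat.dvd_iff_mod_eq_zero, ne_eq] at h ⊢
  obtain ⟨⟨⟨⟨⟨⟨a1, a2⟩, a3⟩, a4⟩, a5⟩, a6⟩, a7⟩ := h
  rintro ⟨⟨⟨⟨b1, b2⟩, b3⟩, b4⟩, b5⟩
  haveI := Fact.mk (prime_PR _ a1)
  have hn : t.q ^ t.a = 1 ∨ ((dm G).map (mn (t.q ^ t.a) t.cq)).sum ≤ t.cq := by
    by_cases h : t.a = 0
    · simp [h]
    · exact Or.inr (tl_of (prime_PR _ a4) h (b1 ▸ a5) (b5.resolve_left h).1
        (by rw [sm, hI]; simpa using (b5.resolve_left h).2))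
  rw [En.test, blk_of hG hI b1.symm b3 a2 a6 fun s hs => ?_] at a7
  · exact absurd a7 (by decide)
  rw [bts_of hG b1.symm prime_PR hs, Bool.true_and]
  split_ifs with h
  · simp only [Bool.or_eq_true, bne_iff_ne, or_iff_not_imp_left, ne_eq, not_not]
    refine fun h1 => fin_of (M := (dm G).filter (t.p ∣ ·)) b1.symm b2 a6 hn (prime_PR _ a1).pos
      (fun d hd => (Multiset.mem_filter.1 hd).symm) ?_
    rw [← hs.filter_dm h1, add_comm, Multiset.filter_add_not]
  · obtain ⟨⟨c1, c2⟩, c3⟩ := a3.resolve_left h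
    haveI := Fact.mk (prime_PR _ c1)
    exact blk_of hG hI b1.symm (b4.resolve_left h) c2 a6 fun s' hs' =>
      two_of hG b1.symm b2 a6 hn c3 hs hs'

end CF.KCl
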