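import Mathlib
import Cfsg.Agent.KCl.Gd

/-! Abelian subgroups of order `27` with trivial intersections. -/

set_option autoImplicit false

namespace CF.KCl

open Subgroup CF.Small

variable {G : Type*} [Group G] [Finite G]

def T3 (x : G) : Prop := x ≠ 1 ∧ rad (orderOf x) = 3

def Ab (A : Subgroup G) : Prop := Nat.card A = 3 ^ 3 ∧ ∀ a ∈ A, A ≤ centralizer {a}

theorem T3.pg {x : G} (h : T3 x) : IsPGroup 3 (zpowers x) :=
  let ⟨_, _, e⟩ := eq_pow_of_rad Nat.prime_three (orderOf_pos x).ne' h.2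
  IsPGroup.of_card ((Nat.card_zpowers x).trans e)

theorem t3_of {A : Subgroup G} {n : ℕ} (h : Nat.card A = 3 ^ n) {x : G} (hx : x ∈ A) (h1 : x ≠ 1) :
    T3 x := by
  obtain ⟨i, -, e⟩ := (Nat.dvd_prime_pow Nat.prime_three).1 (h ▸ orderOf_dvd_natCard A hx)
  refine ⟨h1, e ▸ rad_pow Nat.prime_three ?_⟩
  rintro rfl
  exact h1 (orderOf_eq_one_iff.1 e)

omit [Finite G] in
theorem T3.conj {x : G} (h : T3 x) (g : G) : T3 (g * x * g⁻¹) :=
  ⟨mt conj_eq_one_iff.1 h.1, ord_conj (isConj_iff.2 ⟨g, rfl⟩) ▸ h.2⟩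

theorem idx_cases {A B C : Subgroup G} (hA : Nat.card A = 3 ^ 3) (hB : IsPGroup 3 B) (h1 : A ≤ C)
    (h2 : B ≤ C) (h : Nat.card C = 54 ∨ Nat.card C = 81) :
    B ≤ A ∨ Nat.card C = 81 ∧ A.relIndex B = 3 := by
  have h3 := relIndex_mul_card h1
  have h4 := relIndex_le_of_le_right (H := A) h2 (by rintro e; rw [e] at h3; omega)
  obtain ⟨_ | n, hn⟩ := hB.index (A.subgroupOf B)
  · exact Or.inl (relIndex_eq_one.1 hn)
  have : 0 < 3 ^ n := by positivity
  rw [← relIndex, pow_succ] at hn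
  rw [hA] at h3
  omega

variable (hN : Nat.card G = 25920) (h : ∀ x : G, T3 x → cen x = 9 ∨ cen x = 54 ∨ cen x = 81)
include hN

theorem conj_mem {y x : G} (hy : cen y = 81) (hx : T3 x) :
    ∃ g, g * x * g⁻¹ ∈ centralizer ({y} : Set G) :=
  Invol.exists_conj_mem_sylow ((IsPGroup.of_card (G := centralizer ({y} : Set G)) (p := 3) (n := 4) hy).toSylow fun h => by
    have := (centralizer {y}).card_mul_index
    rw [← cen, hy] at this
    omega) hx.pg

include h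

theorem Ab.eq {w : G} (hw : T3 w) (h9 : cen w = 9) {A B : Subgroup G} (hA : Ab A) (hB : Ab B)
    {y : G} (hy : y ≠ 1) (h1 : y ∈ A) (h2 : y ∈ B) : A = B := by
  have h3 : 3 ^ 3 ∣ cen y := hA.1 ▸ card_dvd_of_le (hA.2 y h1)
  have h4 := h y (t3_of hA.1 h1 hy)
  have h0 : ¬ B ≤ A → A ≠ B := fun h e => h e.ge
  by_contra hne
  obtain ⟨h5, h6⟩ := (idx_cases hA.1 (IsPGroup.of_card hB.1) (hA.2 y h1) (hB.2 y h2)
    (by rw [← cen]; omega)).resolve_left fun h => hne (eq_of_le_of_card_ge h (hA.1.trans hB.1.symm).le).symm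
  have h7 : A ⊔ B = centralizer {y} := by
    have a := sup_le (hA.2 y h1) (hB.2 y h2)
    obtain ⟨i, hi, e⟩ := (Nat.dvd_prime_pow Nat.prime_three (m := 4)).1 (h5 ▸ card_dvd_of_le a :)
    refine eq_of_le_of_card_ge a (not_lt.1 fun b => hne ?_)
    have c : Nat.card (A ⊔ B : Subgroup G) ≤ 3 ^ 3 := e ▸ Nat.pow_le_pow_right (by decide) (by
      rw [e, h5] at b; rcases hi.eq_or_lt with rfl | hi; omega; omega)
    exact (eq_of_le_of_card_ge le_sup_left (hA.1 ▸ c)).trans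
      (eq_of_le_of_card_ge le_sup_right (hB.1 ▸ c)).symm
  obtain ⟨g, hg⟩ := conj_mem hN h5 hw
  rw [cen_conj (isConj_iff.2 ⟨g, rfl⟩)] at h9
  have h8 := relIndex_mul_card (inf_le_right : A ⊓ B ≤ B)
  rw [inf_relIndex_right, h6, hB.1] at h8
  have h10 : A ⊓ B = centralizer {g * w * g⁻¹} := eq_of_le_of_card_ge (fun d hd =>
    mem_centralizer_singleton_iff.2 (mem_centralizer_singleton_iff.1
      (sup_le (hA.2 d hd.1) (hB.2 d hd.2) (h7 ▸ hg))).symm) (by rw [← cen]; omega)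
  have := card_dvd_of_le (hA.2 _ (h10.ge (mem_centralizer_singleton_iff.2 rfl)).1)
  rw [← cen, h9, hA.1] at this
  omega

theorem exists_ab {x : G} (hx : T3 x) (h1 : cen x = 54) :
    ∃ A, Ab A ∧ ∀ v, T3 v → v ∈ centralizer ({x} : Set G) → v ∈ A := by
  obtain ⟨R, hR⟩ := Sylow.exists_subgroup_card_pow_prime (G := centralizer ({x} : Set G)) 3 (n := 3)
    (by rw [← cen, h1]; decide)
  rw [← card_map_of_injective (subtype_injective (centralizer ({x} : Set G)))] at hR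
  have h2 := map_subtype_le R
  generalize R.map (centralizer ({x} : Set G)).subtype = A at hR h2
  have h3 : ∀ v, T3 v → v ∈ centralizer ({x} : Set G) → v ∈ A := fun v hv h3 =>
    (idx_cases hR hv.pg h2 (zpowers_le.2 h3) (Or.inl h1)).resolve_right
      (fun h => by rw [← cen] at h; omega) (mem_zpowers v)
  have hxA := h3 x hx (mem_centralizer_singleton_iff.2 rfl)
  obtain ⟨P, hP⟩ := (IsPGroup.of_card hR).exists_le_sylow
  have h4 := card_sylow_eq P (a := 4) (m := 320) hN (by decide)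
  haveI : Nontrivial (P : Subgroup G) := Finite.one_lt_card_iff_nontrivial.1 (by omega)
  haveI := P.2.center_nontrivial
  obtain ⟨⟨⟨z, hz⟩, h5⟩, h6⟩ := exists_ne (1 : center (P : Subgroup G))
  have h7 : (P : Subgroup G) ≤ centralizer {z} := fun a ha => mem_centralizer_singleton_iff.2
    (congrArg Subtype.val (mem_center_iff.1 h5 ⟨a, ha⟩))
  have h8 := t3_of h4 hz fun e => h6 (Subtype.ext (Subtype.ext e))
  have hzA := h3 z h8 (mem_centralizer_singleton_iff.2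
    (mem_centralizer_singleton_iff.1 (h7 (hP hxA))).symm)
  have h9 := card_dvd_of_le h7
  have h10 := h z h8
  have c : ∀ {a} (ha : a ∈ A), A ≤ centralizer {a} → (⟨a, ha⟩ : A) ∈ center A := fun ha h =>
    mem_center_iff.2 fun b => Subtype.ext (mem_centralizer_singleton_iff.1 (h b.2))
  have h11 := (center A).card_eq_card_quotient_mul_card_subgroup
  obtain ⟨i, -, e⟩ := (Nat.dvd_prime_pow Nat.prime_three).1 (hR ▸ card_subgroup_dvd_card (center A))
  haveI : IsCyclic (A ⧸ center A) := isCyclic_of_card_dvd_prime (p := 3) (by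
    have hne : (⟨_, c hxA h2⟩ : center A) ≠ 1 := fun e => hx.1 (congrArg (fun t => t.1.1) e)
    rcases i with _ | _ | i
    · exact absurd ((Nat.card_eq_one_iff_unique.1 e).1.elim _ _) hne
    · obtain ⟨k, hk⟩ := mem_zpowers_of_prime_card (p := 3) e hne (g' := ⟨_, c hzA (hP.trans h7)⟩)
      have := cen_dvd_of (x := x) (y := z) ⟨k, congrArg (fun t => t.1.1) hk⟩
      rw [h4, ← cen] at h9
      rw [h1] at this
      omega
    · exact ⟨3 ^ i, Nat.eq_of_mul_eq_mul_right (by decide : 0 < 9) (by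
        rw [hR, e] at h11; rw [show 3 * 9 = 3 ^ 3 from rfl, h11]; ring)⟩)
  exact ⟨A, ⟨hR, fun a ha b hb => mem_centralizer_singleton_iff.2 (congrArg Subtype.val
    (((QuotientGroup.mk' (center A)).isMulCommutative_of_isCyclic_of_ker_le_center
      (QuotientGroup.ker_mk' _).le).is_comm.comm ⟨b, hb⟩ ⟨a, ha⟩))⟩, h3⟩

theorem ti_dvd {w x : G} (hw : T3 w) (h9 : cen w = 9) (hx : T3 x) (h1 : cen x = 54) :
    26 ∣ {y : G | y ≠ 1 ∧ rad (orderOf y) = 3 ∧ 27 ∣ cen y}.ncard := by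
  have key : ∀ y : G, y ≠ 1 ∧ rad (orderOf y) = 3 ∧ 27 ∣ cen y → ∃ A, Ab A ∧ y ∈ A := fun y hy => by
    have h2 := h y ⟨hy.1, hy.2.1⟩
    by_cases h3 : cen y = 54
    · exact (exists_ab hN h ⟨hy.1, hy.2.1⟩ h3).imp fun A hA =>
        ⟨hA.1, hA.2 y ⟨hy.1, hy.2.1⟩ (mem_centralizer_singleton_iff.2 rfl)⟩
    · obtain ⟨g, hg⟩ := conj_mem hN (y := y) (by omega) hx
      exact (exists_ab hN h (hx.conj g) ((cen_conj (isConj_iff.2 ⟨g, rfl⟩)).symm.trans h1)).imp
        fun A hA => ⟨hA.1, hA.2 y ⟨hy.1, hy.2.1⟩ (mem_centralizer_singleton_iff.2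
          (mem_centralizer_singleton_iff.1 hg).symm)⟩
  choose! f hf using key
  refine Fgs2.dvd_ncard_of_fibers _ (Set.toFinite _) f _ fun s hs => dvd_of_eq (Eq.symm ?_)
  have h2 := (hf s hs).1
  rw [show {s' ∈ {y : G | y ≠ 1 ∧ rad (orderOf y) = 3 ∧ 27 ∣ cen y} | f s' = f s} =
    (f s : Set G) \ {1} from Set.ext fun y => ⟨fun hy =>
    ⟨hy.2 ▸ (hf y hy.1).2, hy.1.1⟩, fun hy => ?_⟩, Set.ncard_sdiff_singleton_of_mem (one_mem _),
    ← Nat.card_coe_set_eq, SetLike.coe_sort_coe, h2.1]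
  · rfl
  have h3 := And.intro hy.2 (And.intro (t3_of h2.1 hy.1 hy.2).2
    (show 3 ^ 3 ∣ cen y from h2.1 ▸ card_dvd_of_le (h2.2 y hy.1)))
  exact ⟨h3, Ab.eq hN h hw h9 (hf y h3).1 h2 hy.2 (hf y h3).2 hy.1⟩

end CF.KCl
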