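import Cfsg.Agent.KCl.Lk

/-! The entries of the table pass the tests. -/

set_option maxRecDepth 100000

namespace CF.KCl

open CF.Small.Sv

theorem tb1 : (tb.take 45).all En.kill = true := by decide +kernel

theorem tb2 : ((tb.drop 45).take 11).all En.kill = true := by decide +kernel

theorem tb3 : ((tb.drop 45).drop 11).all En.kill = true := by decide +kernel

theorem kill_tb : ∀ t ∈ tb, t.kill = true := by
  rw [← List.all_eq_true, ← List.take_append_drop 45 tb, ← List.take_append_drop 11 (tb.drop 45),
    List.all_append, List.all_append, tb1, tb2, tb3]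
  rfl

theorem a7 : ∀ K ∈ [10, 11], (solve 2520 51 7 fun s => bts PR 2520 7 s &&
    solve 2520 51 5 (two K 2520 51 1 0 7 5 s)) = false := by decide +kernel

end CF.KCl
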