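import Cfsg.Agent.KCl.Lc

/-! A part of the search. -/

set_option maxRecDepth 100000

namespace CF.KCl

theorem r11_7 : search (nat_lit 11) (nat_lit 31) (nat_lit 7) (leaf 11) = true := by
  decide +kernel

theorem r11_13 : search (nat_lit 11) (nat_lit 31) (nat_lit 13) (leaf 11) = true := by
  decide +kernel

theorem r11_23 : search (nat_lit 11) (nat_lit 31) (nat_lit 23) (leaf 11) = true := by
  decide +kernel

theorem r11_29 : search (nat_lit 11) (nat_lit 31) (nat_lit 29) (leaf 11) = true := by
  decide +kernel

end CF.KCl
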