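import Cfsg.Agent.KCl.Lc

/-! A part of the search. -/

set_option maxRecDepth 100000

namespace CF.KCl

theorem r11_6 : search (nat_lit 11) (nat_lit 31) (nat_lit 6) (leaf 11) = true := by
  decide +kernel

theorem r11_14 : search (nat_lit 11) (nat_lit 31) (nat_lit 14) (leaf 11) = true := by
  decide +kernel

theorem r11_24 : search (nat_lit 11) (nat_lit 31) (nat_lit 24) (leaf 11) = true := by
  decide +kernel

theorem r11_27 : search (nat_lit 11) (nat_lit 31) (nat_lit 27) (leaf 11) = true := by
  decide +kernel

end CF.KCl
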