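import Cfsg.Agent.KCl.Lc

/-! A part of the search. -/

set_option maxRecDepth 100000

namespace CF.KCl

theorem r11_16 : search (nat_lit 11) (nat_lit 31) (nat_lit 16) (leaf 11) = true := by
  decide +kernel

theorem r11_17 : search (nat_lit 11) (nat_lit 31) (nat_lit 17) (leaf 11) = true := by
  decide +kernel

theorem r11_20 : search (nat_lit 11) (nat_lit 31) (nat_lit 20) (leaf 11) = true := by
  decide +kernel

theorem r11_30 : search (nat_lit 11) (nat_lit 31) (nat_lit 30) (leaf 11) = true := by
  decide +kernel

end CF.KCl
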