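import Cfsg.Agent.KCl.Lc

/-! A part of the search. -/

set_option maxRecDepth 100000

namespace CF.KCl

theorem r9_0 : search (nat_lit 9) (nat_lit 1) (nat_lit 0) (leaf 9) = true := by
  decide +kernel

end CF.KCl
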