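import Mathlib
import Cfsg.Agent.KCl.So

/-! Soundness of the first phase of the search. -/

set_option autoImplicit false

namespace CF.KCl

theorem gty_spec (P Q : NL) : ∀ (ρ : ℕ) (acc : LT), ∃ ty : LT, (∀ k, gty P Q ρ k acc = k ty) ∧
    (∀ e ∈ acc.toL, e ∈ ty.toL) ∧ ∀ T : List ℕ, T.Sublist Q.toL → ∀ d, d = ρ * T.prod → 1 < d →
      (∀ p ∈ P.toL, p.Prime) → (∀ q, q.Prime → q ∣ d → q ∈ P.toL) → ∃ b ps qs,
        (d, b, ps, qs) ∈ ty.toL ∧ Fit d ps qs ∧ (b = d ∨ d.Prime ∧ d ≠ 3 ∧ b = d * d) := by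
  induction Q with
  | nil =>
    intro ρ acc
    have e : ∀ k, gty P .nil ρ k acc = (iff ρ =? 1 ▹ k acc els
      mkty P ρ fun b ps qs => k (.cons ρ b ps qs acc)) := fun _ => rfl
    by_cases h : ρ = 1
    · refine ⟨acc, fun k => by rw [e, brec, if_pos (Nat.beq_eq ▸ h)], fun _ h => h,
        fun T hT d h1 h2 => ?_⟩
      rw [List.sublist_nil.1 hT] at h1
      simp at h1; omega
    · obtain ⟨b, ps, qs, h1, h2⟩ := mkty_spec P ρ
      refine ⟨.cons ρ b ps qs acc, fun k => by simp [e, brec, h, h1],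
        fun _ h => List.mem_cons_of_mem _ h, fun T hT d h3 h4 h5 h6 => ?_⟩
      rw [List.sublist_nil.1 hT, List.prod_nil, mul_one] at h3
      subst h3
      exact ⟨b, ps, qs, List.mem_cons_self, h2 h5 h6 h4⟩
  | cons p Q ih =>
    intro ρ acc
    obtain ⟨t1, a1, a2, a3⟩ := ih ρ acc
    obtain ⟨t2, b1, b2, b3⟩ := ih (ρ * p) t1
    refine ⟨t2, fun k => (a1 _).trans (b1 k), fun e he => b2 e (a2 e he),
      fun T hT d h1 h2 h3 h4 => ?_⟩
    rcases List.sublist_cons_iff.1 (show T.Sublist (p :: Q.toL) from hT) with hT | ⟨T, rfl, hT'⟩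
    · obtain ⟨b, ps, qs, h5, h6⟩ := a3 T hT d h1 h2 h3 h4
      exact ⟨b, ps, qs, b2 _ h5, h6⟩
    · exact b3 T hT' d (by rw [h1, List.prod_cons, mul_assoc]) h2 h3 h4

theorem radP_eq (P : NL) (d : ℕ) : radP P d = (P.toL.filter (· ∣ d)).prod := by
  induction P with
  | nil => rfl
  | cons p t ih =>
    change p ^ Nat.sub 1 (Nat.mod d p) * radP t d = _
    rw [ind_eq, ih, NL.toL, List.filter_cons]
    split_ifs <;> simp_all

theorem prod_filter_eq {P : List ℕ} (h1 : P.Nodup) (h2 : ∀ p ∈ P, p.Prime) {d : ℕ} (h0 : d ≠ 0)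
    (h3 : ∀ q, q.Prime → q ∣ d → q ∈ P) : (P.filter (· ∣ d)).prod = rad d := by
  rw [rad, ← List.map_id (P.filter _), ← List.prod_toFinset _ (h1.filter _)]
  refine Finset.prod_congr (Finset.ext fun q => ?_) fun _ _ => rfl
  simp only [List.mem_toFinset, List.mem_filter, decide_eq_true_eq, Nat.mem_primeFactors]
  exact ⟨fun h => ⟨h2 q h.1, h.2, h0⟩, fun h => ⟨h3 q h.1 h.2.1, h.2.1⟩⟩

theorem lmap_spec (f : ℕ → ℕ) (l : NL) : ∀ acc : NL, ∃ l' : NL, (∀ k, lmap f l k acc = k l') ∧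
    (l'.toL : Multiset ℕ) = ↑(l.toL.map f) + ↑acc.toL := by
  induction l with
  | nil => exact fun acc => ⟨acc, fun _ => rfl, by simp [NL.toL]⟩
  | cons a t ih =>
    intro acc
    obtain ⟨l', h1, h2⟩ := ih (.cons (f a) acc)
    refine ⟨l', fun k => h1 k, ?_⟩
    simp only [h2, NL.toL, List.map_cons, ← Multiset.cons_coe, Multiset.add_cons, Multiset.cons_add]

theorem stp_spec (P : NL) (q : ℕ) (l : NL) : ∀ lay ds o : NL, ∃ lay' ds' o' : NL,
    (∀ k, stp P q l k lay ds o = k lay' ds' o') ∧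
    (∀ d ∈ lay'.toL, d ∈ lay.toL ∨ ∃ a ∈ l.toL, d = a * q) ∧
    (∀ d ∈ ds'.toL, d ∈ ds.toL ∨ ∃ a ∈ l.toL, d = a * q) ∧ (o.toL.Nodup → o'.toL.Nodup) ∧
    ∀ d ∈ o'.toL, d ∈ o.toL ∨ ¬ (5 ≤ d ∧ d ∈ P.toL) ∧ ∃ a ∈ l.toL, d = a * q := by
  induction l with
  | nil => exact fun lay ds o => ⟨lay, ds, o, fun _ => rfl, fun _ => Or.inl, fun _ => Or.inl, id,
      fun _ => Or.inl⟩
  | cons a t ih =>
    intro lay ds o
    have e : ∀ k, stp P q (.cons a t) k lay ds o = (iff lmem (a * q) o ⋎ (5 ≤? (a * q) ⋏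
      lmem (a * q) P) ▹ stp P q t k (.cons (a * q) lay) (.cons (a * q) ds) o els
      stp P q t k (.cons (a * q) lay) (.cons (a * q) ds) (.cons (a * q) o)) := fun _ => rfl
    by_cases h : a * q ∈ o.toL ∨ 5 ≤ a * q ∧ a * q ∈ P.toL
    · obtain ⟨l', d', o', h1, h2, h3, h4, h5⟩ := ih (.cons (a * q) lay) (.cons (a * q) ds) o
      refine ⟨l', d', o', fun k => ?_, fun d hd => ?_, fun d hd => ?_, h4, fun d hd => ?_⟩
      · rcases h with h | h <;> simp [e, brec, lmem_iff, h, h1]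
      · have := h2 d hd; simp only [NL.toL, List.mem_cons] at this ⊢; grind
      · have := h3 d hd; simp only [NL.toL, List.mem_cons] at this ⊢; grind
      · have := h5 d hd; simp only [NL.toL, List.mem_cons] at this ⊢; grind
    · obtain ⟨l', d', o', h1, h2, h3, h4, h5⟩ :=
        ih (.cons (a * q) lay) (.cons (a * q) ds) (.cons (a * q) o)
      rw [not_or] at h
      refine ⟨l', d', o', fun k => ?_, fun d hd => ?_, fun d hd => ?_,
        fun h6 => h4 (List.nodup_cons.2 ⟨h.1, h6⟩), fun d hd => ?_⟩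
      · simp only [e, brec, lmem_iff, h.1, h1, Nat.ble_eq, if_false]
        rw [if_neg]
        split_ifs <;> simp_all [lmem_iff]
      · have := h2 d hd; simp only [NL.toL, List.mem_cons] at this ⊢; grind
      · have := h3 d hd; simp only [NL.toL, List.mem_cons] at this ⊢; grind
      · have := h5 d hd; simp only [NL.toL, List.mem_cons] at this ⊢; grind

theorem hs_of {fr h : ℕ} {P : NL} {O : Set ℕ} (h0 : h ≠ 0)
    (h1 : ∀ d, d ∣ h → 1 < d → ¬ (5 ≤ d ∧ d ∈ P.toL) → d ∈ O)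
    (h2 : ∀ o : List ℕ, o.Nodup → (∀ d ∈ o, d ∈ O) → o.length + 1 ≤ fr) (Q : NL) :
    ∀ (x m : ℕ) (ds o : NL), x * m = h → (∀ q, q.Prime → q ∣ m → q ∈ Q.toL) →
      (∀ d ∈ ds.toL, d ∣ x) → o.toL.Nodup → (∀ d ∈ o.toL, d ∈ O) → ∃ o' : NL, o'.toL.Nodup ∧
        (∀ d ∈ o'.toL, d ∈ O) ∧ ∀ k, hs fr P k Q x ds o = true → k h o' = true := by
  induction Q with
  | nil =>
    intro x m ds o e h3 _ h4 h5
    obtain rfl : m = 1 := Nat.eq_one_iff_not_exists_prime_dvd.2 fun q hq h => nomatch h3 q hq h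
    exact ⟨o, h4, h5, fun k hk => by rw [← e, mul_one]; exact hk⟩
  | cons q Q ih =>
    have key : ∀ (n x m : ℕ) (lay ds o : NL), x * m = h → (∀ p, p.Prime → p ∣ m →
        p ∈ (NL.cons q Q).toL) → (∀ d ∈ lay.toL, d ∣ x) → (∀ d ∈ ds.toL, d ∣ x) → o.toL.Nodup →
        (∀ d ∈ o.toL, d ∈ O) → ∃ o' : NL, o'.toL.Nodup ∧ (∀ d ∈ o'.toL, d ∈ O) ∧ ∀ k,
        Nat.rec (motive := fun _ => Nat → NL → NL → NL → Bool) (fun _ _ _ _ => false)
          (fun _ lp x lay ds o => hs fr P k Q x ds o ⋏ stp P q lay (fun lay' ds' o' =>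
            Nat.succ (llen o') ≤? fr ⇛ (frc y ≔ Nat.mul x q ▹ lp y lay' ds' o')) .nil ds o)
          n x lay ds o = true → k h o' = true := by
      intro n
      induction n with
      | zero => exact fun x m lay ds o _ _ _ _ h4 h5 => ⟨o, h4, h5, fun _ => nofun⟩
      | succ n ihn =>
        intro x m lay ds o e h3 h4 h5 h6 h7
        by_cases hq : q.Prime ∧ q ∣ m
        · obtain ⟨hq, m, rfl⟩ := hq
          obtain ⟨l', d', o', s1, s2, s3, s4, s5⟩ := stp_spec P q lay .nil ds o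
          have e1 : ∀ d, (∃ a ∈ lay.toL, d = a * q) → d ∣ x * q := by
            rintro _ ⟨a, ha, rfl⟩; exact Nat.mul_dvd_mul_right (h4 a ha) q
          rw [← mul_assoc] at e
          have e2 : ∀ d ∈ o'.toL, d ∈ O := fun d hd => (s5 d hd).elim (h7 d) fun h8 => by
            have h9 := (e1 d h8.2).trans (Dvd.intro _ e)
            refine h1 d h9 ?_ h8.1
            obtain ⟨a, -, rfl⟩ := h8.2
            exact hq.one_lt.trans_le (Nat.le_mul_of_pos_left _ (Nat.pos_of_mul_pos_right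
              (Nat.pos_of_dvd_of_pos h9 (Nat.pos_of_ne_zero h0))))
          obtain ⟨o'', r1, r2, r3⟩ := ihn (x * q) m l' d' o' e
            (fun p hp hd => h3 p hp (hd.mul_left _))
            (fun d hd => e1 d ((s2 d hd).resolve_left nofun))
            (fun d hd => (s3 d hd).elim (fun h => (h5 d h).mul_right q) (e1 d)) (s4 h6) e2
          refine ⟨o'', r1, r2, fun k hk => r3 k ?_⟩
          simp only [s1, brec, Nat.ble_eq, llen_eq, frc_eq, Nat.succ_eq_add_one,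
            h2 _ (s4 h6) e2, if_true] at hk ⊢
          split_ifs at hk
          exact hk
        · obtain ⟨o', r1, r2, r3⟩ := ih x m ds o e (fun p hp hd => (List.mem_cons.1
            (h3 p hp hd)).resolve_left (by rintro rfl; exact hq ⟨hp, hd⟩)) h5 h6 h7
          refine ⟨o', r1, r2, fun k hk => r3 k ?_⟩
          simp only [brec] at hk
          split_ifs at hk
          assumption
    exact fun x m ds o e h3 h4 h5 h6 => key 20 x m ds ds o e h3 h4 h4 h5 h6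

theorem pp_of {p : ℕ} (hp : p.Prime) : pp p = true := by
  unfold pp
  have h : 2 ≤ nat_lit 3 := by decide
  generalize nat_lit 3 = d at h
  generalize nat_lit 2000 = n
  induction n generalizing d with
  | zero => rfl
  | succ n ih =>
    simp only [brec, Nat.ble_eq, Nat.beq_eq, dv_iff, Nat.mul_eq, Nat.add_eq] at ih ⊢
    split_ifs with h1 h2
    · obtain rfl := ((Nat.dvd_prime hp).1 h2).resolve_left (by omega)
      exact absurd h1 (not_le.2 (lt_mul_of_one_lt_right hp.pos hp.one_lt))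
    · exact ih _ (by omega)
    · rfl

theorem rloop_of {f : ℕ → Bool} {n r : ℕ} (h : rloop f n = true) (h1 : 0 < r) (h2 : r ≤ n) :
    f r = true := by
  induction n with
  | zero => omega
  | succ n ih =>
    change (f (n + 1) ⋏ rloop f n) = true at h
    rw [brec] at h
    split_ifs at h with h3
    rcases h2.lt_or_eq with h2 | rfl
    exacts [ih h (by omega), h3]

structure SInv (I : Multiset It) (O : Set ℕ) (R : Multiset It) (sk : L3) (fr : ℕ) (o : NL)
    (lo lr U : ℕ) (P : NL) : Prop where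
  split : ∃ D, I.filter It.pr = D + R ∧ ↑sk.toL = D.map It.key ∧ (∀ j ∈ D, j.ρ ∈ P.toL) ∧
    U = 𝐒 / 25 + 1 + (D.map fun j => j.r * (𝐒 / j.ρ + 1)).sum
  hfr : fr = (R.map It.r).sum + (nps I).card
  nodup : o.toL.Nodup
  sub : ∀ d ∈ o.toL, d ∈ O
  low : ∀ j ∈ R, lo < j.ρ ∨ lo = j.ρ ∧ lr ≤ j.r
  prime : ∀ p ∈ P.toL, p.Prime
  nodupP : P.toL.Nodup
  two : 2 ∈ P.toL
  three : 3 ∈ P.toL

section

variable {K g : ℕ} {I : Multiset It} (G : Good K g I) {O : Set ℕ}
  {R : Multiset It} {sk : L3} {fr : ℕ} {o : NL} {lo lr U : ℕ} {P : NL}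
include G

theorem SInv.mem_P (H : SInv I O R sk fr o lo lr U P) {q : ℕ} (hq : q.Prime) (h : q ∣ g)
    (h1 : ∀ j ∈ R, q < j.ρ) : q ∈ P.toL := by
  by_cases h5 : 5 ≤ q
  · obtain ⟨j, hj, h2, rfl⟩ := G.big q hq h h5
    obtain ⟨D, h3, -, h4, -⟩ := H.split
    exact h4 j ((Multiset.mem_add.1 (h3 ▸ Multiset.mem_filter.2 ⟨hj, h2⟩)).resolve_right
      fun h => lt_irrefl _ (h1 j h))
  · have := hq.two_le
    interval_cases q
    exacts [H.two, H.three, absurd hq (by norm_num)]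

theorem ext_of (o1 : ∀ j ∈ I, ∀ d, d ∣ j.h → 1 < d → ¬ (d.Prime ∧ 5 ≤ d) → d ∈ O)
    (o2 : ∀ l : List ℕ, l.Nodup → (∀ d ∈ l, d ∈ O) → ↑(l.map rad) ≤ nps I)
    (H : SInv I O R sk fr o lo lr U P) (h0 : R ≠ 0) (w : ℕ) :
    ∃ R' sk' fr' o' lo' lr' U' w' P', SInv I O R' sk' fr' o' lo' lr' U' P' ∧
      ∀ sx : Sx, ext sx sk fr o lo lr U w P = true → sx sk' fr' o' lo' lr' U' w' P' = true := by
  obtain ⟨t, h1, h2⟩ := Finset.exists_min_image R.toFinset
    (fun j => toLex (j.ρ, j.r)) (Multiset.toFinset_nonempty.2 h0)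
  obtain ⟨R, rfl⟩ := Multiset.exists_cons_of_mem (Multiset.mem_toFinset.1 h1)
  replace h2 : ∀ j ∈ t ::ₘ R, t.ρ < j.ρ ∨ t.ρ = j.ρ ∧ t.r ≤ j.r := fun j hj => by
    simpa [Prod.Lex.toLex_le_toLex] using h2 j (Multiset.mem_toFinset.2 hj)
  obtain ⟨D, d1, d2, d3, d4⟩ := H.split
  obtain ⟨ht, hp⟩ := Multiset.mem_filter.1
    (d1 ▸ Multiset.mem_add.2 (Or.inr (Multiset.mem_cons_self t R)))
  obtain ⟨p1, p2, p3⟩ := G.pr t ht hp
  have hr := G.r_pos t ht
  have hh : 0 < t.h := Nat.pos_of_mul_pos_left (a := t.r) (by omega)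
  have e1 : ∀ q, q.Prime → q ∣ t.h → q ∈ P.toL := fun q hq hd =>
    H.mem_P G hq (hd.trans ((Dvd.intro_left _ rfl).trans (G.ch t ht))) fun j hj => by
      have := Nat.le_of_dvd hh hd
      have := Nat.le_mul_of_pos_left t.h hr
      have := h2 j hj
      omega
  have e2 : ∀ o : List ℕ, o.Nodup → (∀ d ∈ o, d ∈ O) → o.length + t.r ≤ fr := fun l h3 h4 => by
    have := Multiset.card_le_card (o2 l h3 h4)
    rw [H.hfr, Multiset.map_cons, Multiset.sum_cons]
    simp at this; omega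
  obtain ⟨o', r1, r2, r3⟩ := hs_of (fr := fr) (P := P) (O := O) hh.ne'
    (fun d h3 h4 h5 => o1 t ht d h3 h4 fun h6 => h5 ⟨h6.2, e1 d h6.1 h3⟩)
    (fun l h3 h4 => by have := e2 l h3 h4; omega) P 1 t.h (.cons 1 .nil) o (one_mul _) e1
    (by simp [NL.toL]) H.nodup H.sub
  obtain ⟨P', q1, q2, q3, q4, q5⟩ : ∃ P' : NL, (∀ k : NL → Bool,
      (iff lmem t.ρ P ▹ k P els k (.cons t.ρ P)) = k P') ∧ t.ρ ∈ P'.toL ∧
      (∀ p ∈ P.toL, p ∈ P'.toL) ∧ (∀ p ∈ P'.toL, p.Prime) ∧ P'.toL.Nodup := by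
    by_cases h : t.ρ ∈ P.toL
    · exact ⟨P, fun k => by simp [brec, lmem_iff, h], h, fun _ h => h, H.prime, H.nodupP⟩
    · exact ⟨.cons t.ρ P, fun k => by simp [brec, lmem_iff, h], List.mem_cons_self,
        fun _ h => List.mem_cons_of_mem _ h, List.forall_mem_cons.2 ⟨p1, H.prime⟩,
        List.nodup_cons.2 ⟨h, H.nodupP⟩⟩
  refine ⟨R, .cons t.ρ t.r t.h sk, fr - t.r, o', t.ρ, t.r, U + t.r * (𝐒 / t.ρ + 1),
    w * 7 + (t.ρ + 3 * t.r), P', ⟨⟨t ::ₘ D, ?_, ?_, ?_, ?_⟩, ?_, r1, r2,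
      fun j hj => h2 j (Multiset.mem_cons_of_mem hj), q4, q5, q3 _ H.two, q3 _ H.three⟩,
    fun sx h => ?_⟩
  · rw [d1, Multiset.add_cons, Multiset.cons_add]
  · rw [L3.toL, ← Multiset.cons_coe, d2, Multiset.map_cons]; rfl
  · exact Multiset.forall_mem_cons.2 ⟨q2, fun j hj => q3 _ (d3 j hj)⟩
  · rw [d4, Multiset.map_cons, Multiset.sum_cons]; omega
  · rw [H.hfr, Multiset.map_cons, Multiset.sum_cons]; omega
  · have h3 := rloop_of (r3 _ h) hr (by
      have := e2 _ r1 r2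
      rw [llen_eq, Nat.sub_eq]; omega)
    have h4 : Nat.succ (Nat.mul t.r t.h) = t.ρ := p3
    have h5 : ¬ 2 ∣ t.ρ := fun h => by have := (Nat.dvd_prime p1).1 h; omega
    have h6 : (Nat.succ lo ≤? t.ρ ⋎ (lo =? t.ρ ⋏ lr ≤? t.r)) = true := by
      have := H.low t (Multiset.mem_cons_self _ _)
      simp only [brec, Nat.ble_eq, Nat.beq_eq]
      split_ifs <;> first | rfl | (simp; omega) | omega
    rw [ext1, h4] at h3
    simp only [h6, pp_of p1, ext2, frc_eq, q1] at h3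
    simp only [brec, Nat.beq_eq, dv_iff, h5, Nat.ble_eq, p2, if_true, if_false] at h3
    exact h3

theorem SInv.ub (H : SInv I O R sk fr o lo lr U P) (h : 5 < lo) : 𝐒 ≤ U + fr * (𝐒 / 6 + 1) := by
  obtain ⟨D, d1, -, -, d4⟩ := H.split
  have h0 := G.g_pos
  have m1 : ∀ j ∈ D + R, j ∈ I := fun j hj => (Multiset.mem_filter.1 (d1 ▸ hj)).1
  generalize 𝐒 = S at d4 ⊢
  obtain ⟨j0, hj0, -⟩ := G.ex
  have e1 := sc g S (x := 25) (c := g) (by norm_num) (by
    have := G.c5 j0 hj0; have := G.c_le j0 hj0; omega)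
  rw [Nat.div_self h0] at e1
  have e2 : (D.map (wt g)).sum * S ≤ (D.map fun j => j.r * (S / j.ρ + 1)).sum * g := by
    rw [← Multiset.sum_map_mul_right, ← Multiset.sum_map_mul_right]
    refine Multiset.sum_map_le_sum_map _ _ fun j hj => ?_
    have hj := m1 j (Multiset.mem_add.2 (Or.inl hj))
    rw [wt, mul_assoc, mul_assoc]
    exact Nat.mul_le_mul_left _ (sc g S (zero_lt_one.trans (G.ρ_gt j hj))
      (Nat.le_of_dvd (G.c_pos hj) (G.ρ_dvd j hj)))
  have e3 : ∀ M : Multiset It, (∀ j ∈ M, 6 ≤ j.c) →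
      (M.map (wt g)).sum * S ≤ (M.map It.r).sum * ((S / 6 + 1) * g) := fun M hM => by
    rw [← Multiset.sum_map_mul_right, ← Multiset.sum_map_mul_right]
    refine Multiset.sum_map_le_sum_map _ _ fun j hj => ?_
    rw [wt, mul_assoc]
    exact Nat.mul_le_mul_left _ (sc g S (by norm_num) (hM j hj))
  have e4 := e3 R fun j hj => by
    have h1 := m1 j (Multiset.mem_add.2 (Or.inr hj))
    have := Nat.le_of_dvd (G.c_pos h1) (G.ρ_dvd j h1)
    have := H.low j hj
    omega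
  have e5 := e3 (I.filter fun j => ¬ j.pr) fun j hj => by
    obtain ⟨h1, h2⟩ := Multiset.mem_filter.1 hj
    refine (G.c5 j h1).lt_of_ne fun e => ?_
    have h3 := G.ρ_dvd j h1
    have h4 := (G.npr j h1 h2).2.2
    have h5 := G.ρ_gt j h1
    rw [← e] at h3 h4
    rw [((Nat.dvd_prime Nat.prime_five).1 h3).resolve_left (by omega)] at h4
    exact absurd (h4 Nat.prime_five (by norm_num)) (by norm_num)
  have e6 : ((I.filter fun j => ¬ j.pr).map It.r).sum = (nps I).card := by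
    rw [nps, Multiset.card_map, Multiset.map_congr rfl (g := fun _ => 1) fun j hj =>
      (G.npr j (Multiset.mem_filter.1 hj).1 (Multiset.mem_filter.1 hj).2).1]
    simp
  have e7 := G.sumg
  rw [← Multiset.filter_add_not It.pr I, d1] at e7
  simp only [Multiset.map_add, Multiset.sum_add] at e7
  refine Nat.le_of_mul_le_mul_right ?_ h0
  rw [d4, H.hfr, ← e6]
  conv_lhs => rw [← e7]
  nlinarith

theorem start_of (o0 : ∀ d ∈ O, d ∣ g)
    (o2 : ∀ l : List ℕ, l.Nodup → (∀ d ∈ l, d ∈ O) → ↑(l.map rad) ≤ nps I)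
    (H : SInv I O 0 sk fr o lo lr U P) {leaf : ℕ → LI → Bool}
    (h : start K leaf sk fr o P = true) : ∃ cl : LI, I = ↑cl.toL ∧ leaf g cl = true := by
  obtain ⟨ty, t1, -, t2⟩ := gty_spec P P 1 .nil
  obtain ⟨need, n1, n2⟩ := lmap_spec (radP P) o .nil
  have hP : ∀ q, q.Prime → q ∣ g → q ∈ P.toL := fun q hq hd => H.mem_P G hq hd nofun
  have e1 : ∀ d, d ∣ g → (P.toL.filter (· ∣ d)).prod = rad d := fun d hd =>
    prod_filter_eq H.nodupP H.prime (Nat.pos_of_dvd_of_pos hd G.g_pos).ne'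
      fun q hq h => hP q hq (h.trans hd)
  obtain ⟨D, d1, d2, -⟩ := H.split
  rw [start, t1, n1] at h
  refine node_of G H.prime hP K I ⟨_, _, _, .nil, _, _, _, _, _, _, _, _, _, .nil, .nil,
    ⟨(zero_add _).symm, nofun, fun b hb => Or.inl (G.c5 b hb), by rw [d1, add_zero, d2],
      H.hfr.trans (by simp), by rw [← G.cardK]; rfl, ?_, nofun, nofun,
      fun p hp h => absurd h hp.not_dvd_one, one_dvd _, nofun, by simp [G.sumg], by simp [sm, LI.toL],
      by simp [sm, LI.toL], fun j hj h1 => ?_⟩, h⟩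
  · rw [n2, List.map_congr_left fun d hd => (radP_eq P d).trans (e1 d (o0 d (H.sub d hd)))]
    exact (add_zero _).trans_le (o2 _ H.nodup H.sub)
  · have h2 := (G.ρ_dvd j hj).trans (G.c_dvd hj)
    obtain ⟨b, ps, qs, h3, h4, h5⟩ := t2 _ List.filter_sublist j.ρ (by
      rw [e1 _ h2, one_mul, rad, Nat.prod_primeFactors_of_squarefree (G.sqf j hj)]) (G.ρ_gt j hj)
      H.prime fun q hq h => hP q hq (h.trans h2)
    refine ⟨b, ps, qs, h3, ?_, h4⟩
    rcases h5 with rfl | ⟨h5, h6, rfl⟩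
    exacts [G.ρ_dvd j hj, (G.npr j hj h1).2.2 h5 h6]

end

theorem search_of {K g : ℕ} {I : Multiset It} (G : Good K g I) {M : ℕ} (hM : 0 < M)
    {leaf : ℕ → LI → Bool} (h : ∀ i < M, search K M i leaf = true) :
    ∃ cl : LI, I = ↑cl.toL ∧ leaf g cl = true := by
  obtain ⟨O, o3, o0, o1, o2⟩ := G.ord
  have key : ∀ n R sk fr o lo lr U w P, SInv I O R sk fr o lo lr U P →
      (∀ i < M, skel K M i leaf n sk fr o lo lr U w P = true) →
      ∃ cl : LI, I = ↑cl.toL ∧ leaf g cl = true := by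
    intro n
    induction n with
    | zero => exact fun _ _ _ _ _ _ _ _ _ _ h => nomatch h 0 hM
    | succ n ih =>
      intro R sk fr o lo lr U w P H h
      have h1 : ∀ i < M, (w % M = i → start K leaf sk fr o P = true) ∧
          ext (skel K M i leaf n) sk fr o lo lr U w P = true := fun i hi => by
        have h2 := h i hi
        change ((lo ≤? 5 ⋎ 𝐒 ≤? (U + fr * (𝐒 / 6 + 1))) ⇛ ((w % M) =? i ⇛
          start K leaf sk fr o P) ⋏ ext (skel K M i leaf n) sk fr o lo lr U w P) = true at h2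
        have h3 : (lo ≤? 5 ⋎ 𝐒 ≤? (U + fr * (𝐒 / 6 + 1))) = true := by
          simp only [brec, Nat.ble_eq]
          split_ifs with h3
          exacts [rfl, Nat.ble_eq ▸ H.ub G (by omega)]
        rw [h3] at h2
        simp only [brec, Nat.beq_eq] at h2
        split_ifs at h2 <;> simp_all
      by_cases h0 : R = 0
      · subst h0
        exact start_of G o0 o2 H ((h1 _ (Nat.mod_lt w hM)).1 rfl)
      · obtain ⟨R', sk', fr', o', lo', lr', U', w', P', H', h2⟩ := ext_of G o1 o2 H h0 w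
        exact ih _ _ _ _ _ _ _ _ _ H' fun i hi => h2 _ (h1 i hi).2
  obtain ⟨j, hj, hp⟩ := G.ex
  have e6 : ((I.filter fun j => ¬ j.pr).map It.r).sum = (nps I).card := by
    rw [nps, Multiset.card_map, Multiset.map_congr rfl (g := fun _ => 1) fun j hj =>
      (G.npr j (Multiset.mem_filter.1 hj).1 (Multiset.mem_filter.1 hj).2).1]
    simp
  obtain ⟨R', sk', fr', o', lo', lr', U', w', P', H', h2⟩ := ext_of G o1 o2
    (R := I.filter It.pr) (sk := .nil) (fr := Nat.pred K) (o := .cons 2 .nil) (lo := 0) (lr := 0)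
    (U := 𝐒 / 25 + 1) (P := .cons 3 (.cons 2 .nil))
    ⟨⟨0, (zero_add _).symm, rfl, nofun, rfl⟩, by
      rw [← e6, ← Multiset.sum_add, ← Multiset.map_add, Multiset.filter_add_not, ← G.cardK]; rfl,
      by simp [NL.toL], by simpa [NL.toL] using o3,
      fun j hj => Or.inl (zero_lt_one.trans (G.ρ_gt j (Multiset.mem_filter.1 hj).1)),
      by simp [NL.toL, Nat.prime_two, Nat.prime_three], by simp [NL.toL], by simp [NL.toL],
      by simp [NL.toL]⟩
    (fun e => by simpa [e] using Multiset.mem_filter.2 ⟨hj, hp⟩) 0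
  exact key K _ _ _ _ _ _ _ _ _ H' fun i hi => h2 _ (h i hi)

end CF.KCl
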